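/-
Designs attached to doubly transitive actions: Fisher's inequality in equivariant form and a divisibility condition.
-/
import Mathlib

set_option autoImplicit false

namespace Cfsg.Agent.T2

open MulAction Finset

variable {G Ω X : Type*} [Group G] [MulAction G Ω]

/-- Two-transitivity in elementary form. -/
def Two (G Ω : Type*) [Group G] [MulAction G Ω] : Prop :=
  ∀ a b c d : Ω, a ≠ b → c ≠ d → ∃ g : G, g • a = c ∧ g • b = d

theorem two_of (h : IsMultiplyPretransitive G Ω 2) : Two G Ω := fun _ _ _ _ h1 h2 =>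
  is_two_pretransitive_iff.1 h h1 h2

theorem Two.trans (h : Two G Ω) (a c : Ω) : ∃ g : G, g • a = c := by
  by_cases e : a = c
  · exact ⟨1, by simp [e]⟩
  · obtain ⟨g, h1, -⟩ := h a c c a e (Ne.symm e)
    exact ⟨g, h1⟩

theorem Two.comp {G' : Type*} [Group G'] [MulAction G' Ω] (h : Two G Ω)
    (hs : ∀ g : G, ∃ g' : G', ∀ a : Ω, g' • a = g • a) : Two G' Ω := fun a b c d h1 h2 => by
  obtain ⟨g, e1, e2⟩ := h a b c d h1 h2
  obtain ⟨g', e⟩ := hs g
  exact ⟨g', by rw [e, e1], by rw [e, e2]⟩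

variable [MulAction G X]

theorem card_filter_smul [Fintype X] {p p' : X → Prop} [DecidablePred p] [DecidablePred p'] (g : G)
    (h : ∀ x, p' (g • x) ↔ p x) : (univ.filter p).card = (univ.filter p').card := by
  refine Finset.card_bij (fun x _ => g • x) (fun x hx => ?_) (fun x _ y _ e => smul_left_cancel g e) fun y hy => ?_
  · simpa [h] using hx
  · refine ⟨g⁻¹ • y, ?_, by simp⟩
    have := h (g⁻¹ • y)
    simp only [smul_inv_smul] at this
    simpa [← this] using hy

theorem inv_iff {I : Ω → X → Prop} (hI : ∀ (g : G) a x, I a x → I (g • a) (g • x)) (g : G) (a : Ω) (x : X) :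
    I (g • a) (g • x) ↔ I a x :=
  ⟨fun h => by simpa using hI g⁻¹ _ _ h, hI g a x⟩

/-- Fisher: a function on `Ω` with zero sum on every block vanishes. -/
theorem Two.fisher [Fintype Ω] [Fintype X] (h : Two G Ω) {I : Ω → X → Prop} [∀ x, DecidablePred (I · x)]
    (hI : ∀ (g : G) a x, I a x → I (g • a) (g • x)) {a₀ b₀ : Ω} {x₀ : X} (h1 : I a₀ x₀) (h2 : ¬ I b₀ x₀)
    {K : Type*} [Field K] [LinearOrder K] [IsStrictOrderedRing K] {f : Ω → K}
    (hf : ∀ x, ∑ a ∈ univ.filter (I · x), f a = 0) : f = 0 := by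
  classical
  have hne : a₀ ≠ b₀ := fun e => h2 (e ▸ h1)
  set N : Ω → Ω → ℕ := fun a b => (univ.filter fun x => I a x ∧ I b x).card with hN
  have hr : ∀ a, N a a = N a₀ a₀ := fun a => by
    obtain ⟨g, rfl⟩ := h.trans a₀ a
    exact (card_filter_smul g fun x => by rw [inv_iff hI]).symm
  have hl : ∀ a b, a ≠ b → N a b = N a₀ b₀ := fun a b e => by
    obtain ⟨g, rfl, rfl⟩ := h a₀ b₀ a b hne e
    exact (card_filter_smul g fun x => by rw [inv_iff hI, inv_iff hI]).symm
  have hlt : N a₀ b₀ < N a₀ a₀ := by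
    refine Finset.card_lt_card ⟨fun x hx => by simp at hx ⊢; exact hx.1, fun hs => ?_⟩
    have := hs (show x₀ ∈ _ by simp [h1])
    simp at this
    exact h2 this.2
  have key : ∑ a, ∑ b, f a * f b * (N a b : K) = 0 := by
    have : ∀ a b, f a * f b * (N a b : K) =
        ∑ x, (if I a x then f a else 0) * (if I b x then f b else 0) := fun a b => by
      simp only [hN, Finset.card_filter, Nat.cast_sum, Finset.mul_sum]
      refine Finset.sum_congr rfl fun x _ => ?_
      by_cases e1 : I a x <;> by_cases e2 : I b x <;> simp [e1, e2]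
    simp only [this]
    rw [Finset.sum_comm]
    simp only [Finset.sum_comm (s := (univ : Finset Ω)) (t := (univ : Finset X))]
    refine Finset.sum_eq_zero fun x _ => ?_
    have e := hf x
    rw [Finset.sum_filter] at e
    simp only [← Finset.sum_mul, e, zero_mul, Finset.sum_const_zero]
  have key2 : ∑ a, ∑ b, f a * f b * (N a b : K) =
      ((N a₀ a₀ : K) - N a₀ b₀) * ∑ a, f a ^ 2 + N a₀ b₀ * (∑ a, f a) ^ 2 := by
    rw [sq (∑ a, f a), Finset.sum_mul_sum, Finset.mul_sum, Finset.mul_sum, ← Finset.sum_add_distrib]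
    refine Finset.sum_congr rfl fun a _ => ?_
    have : ∀ b, f a * f b * (N a b : K) =
        (if a = b then ((N a₀ a₀ : K) - N a₀ b₀) * f a ^ 2 else 0) + N a₀ b₀ * (f a * f b) := fun b => by
      split_ifs with e
      · subst e; rw [hr]; ring
      · rw [hl a b e]; ring
    simp only [this, Finset.sum_add_distrib, Finset.sum_ite_eq, Finset.mem_univ, if_true, Finset.mul_sum]
  have hp : (0 : K) < (N a₀ a₀ : K) - N a₀ b₀ := by
    rw [sub_pos]; exact_mod_cast hlt
  have h3 : 0 ≤ ∑ a, f a ^ 2 := Finset.sum_nonneg fun a _ => sq_nonneg _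
  have h4 : (0 : K) ≤ N a₀ b₀ * (∑ a, f a) ^ 2 := by positivity
  have h5 : ∑ a, f a ^ 2 = 0 := by
    rw [key] at key2
    nlinarith [mul_nonneg hp.le h3]
  funext a
  have := (Finset.sum_eq_zero_iff_of_nonneg fun a _ => sq_nonneg (f a)).1 h5 a (Finset.mem_univ a)
  simpa using this

/-- The complex form of `Two.fisher`. -/
theorem Two.fisherC [Fintype Ω] [Fintype X] (h : Two G Ω) {I : Ω → X → Prop} [∀ x, DecidablePred (I · x)]
    (hI : ∀ (g : G) a x, I a x → I (g • a) (g • x)) {a₀ b₀ : Ω} {x₀ : X} (h1 : I a₀ x₀) (h2 : ¬ I b₀ x₀)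
    {f : Ω → ℂ} (hf : ∀ x, ∑ a ∈ univ.filter (I · x), f a = 0) : f = 0 := by
  have e1 := h.fisher hI h1 h2 (f := fun a => (f a).re) fun x => by
    rw [← Complex.re_sum, hf, Complex.zero_re]
  have e2 := h.fisher hI h1 h2 (f := fun a => (f a).im) fun x => by
    rw [← Complex.im_sum, hf, Complex.zero_im]
  funext a
  exact Complex.ext (congrFun e1 a) (congrFun e2 a)

/-- Fisher's inequality. -/
theorem Two.card_le [Finite Ω] [Finite X] (h : Two G Ω) {I : Ω → X → Prop}
    (hI : ∀ (g : G) a x, I a x → I (g • a) (g • x)) {a₀ b₀ : Ω} {x₀ : X} (h1 : I a₀ x₀) (h2 : ¬ I b₀ x₀) :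
    Nat.card Ω ≤ Nat.card X := by
  classical
  have := Fintype.ofFinite Ω
  have := Fintype.ofFinite X
  let ψ : (Ω → ℚ) →ₗ[ℚ] (X → ℚ) :=
    { toFun := fun f x => ∑ a ∈ univ.filter (I · x), f a
      map_add' := fun f g => by funext x; simp [Finset.sum_add_distrib]
      map_smul' := fun c f => by funext x; simp [Finset.mul_sum] }
  have hψ : Function.Injective ψ := (injective_iff_map_eq_zero ψ).2 fun f hf =>
    h.fisher hI h1 h2 fun x => congrFun hf x
  simpa using LinearMap.finrank_le_finrank_of_injective hψ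

/-- If `y` preserves the orbits of `A` on the blocks, it preserves the orbits of `A` on the points. -/
theorem Two.same_orbit [Finite Ω] [Finite X] (h : Two G Ω) {I : Ω → X → Prop}
    (hI : ∀ (g : G) a x, I a x → I (g • a) (g • x)) {a₀ b₀ : Ω} {x₀ : X} (h1 : I a₀ x₀) (h2 : ¬ I b₀ x₀)
    {A : Subgroup G} {y : G} (hy : ∀ x : X, ∃ u ∈ A, u • x = y⁻¹ • x) (a : Ω) : ∃ u ∈ A, u • a = y • a := by
  classical
  have := Fintype.ofFinite Ω
  have := Fintype.ofFinite X
  let O : Ω → Prop := fun b => ∃ u ∈ A, u • a = b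
  have hO : ∀ u ∈ A, ∀ b, O (u • b) ↔ O b := fun u hu b =>
    ⟨fun ⟨v, hv, e⟩ => ⟨u⁻¹ * v, A.mul_mem (A.inv_mem hu) hv, by rw [mul_smul, e, inv_smul_smul]⟩,
      fun ⟨v, hv, e⟩ => ⟨u * v, A.mul_mem hu hv, by rw [mul_smul, e]⟩⟩
  have key := h.fisher hI h1 h2 (K := ℚ)
    (f := fun b => (if O b then 1 else 0) - if O (y⁻¹ • b) then 1 else 0) fun x => by
      obtain ⟨u, hu, e⟩ := hy x
      rw [Finset.sum_sub_distrib, sub_eq_zero, ← Finset.sum_filter, ← Finset.sum_filter]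
      simp only [Finset.sum_const, Finset.filter_filter, nsmul_eq_mul, mul_one, Nat.cast_inj]
      refine card_filter_smul (G := G) (X := Ω) (y * u) fun b => ?_
      rw [mul_smul, inv_smul_smul, hO u hu, ← inv_iff hI y⁻¹, inv_smul_smul, ← e, inv_iff hI]
  have := congrFun key (y • a)
  simp only [inv_smul_smul, Pi.zero_apply] at this
  rw [if_pos (show O a from ⟨1, A.one_mem, one_smul _ _⟩)] at this
  by_contra hc
  rw [if_neg hc] at this
  norm_num at this

/-- Double counting for an invariant family of relations. -/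
theorem Two.count [Fintype Ω] [Fintype X] [DecidableEq Ω] (h : Two G Ω) {S : X → Ω → Ω → Prop}
    [∀ x a b, Decidable (S x a b)] (hS : ∀ (g : G) x a b, S x a b → S (g • x) (g • a) (g • b)) {a b : Ω}
    (hab : a ≠ b) : (Fintype.card Ω - 1) * (univ.filter fun x => S x a b).card =
      ∑ x, (univ.filter fun c => c ≠ a ∧ S x a c).card := by
  have e : ∀ c, c ≠ a → (univ.filter fun x => S x a c).card = (univ.filter fun x => S x a b).card := fun c hc => by
    obtain ⟨g, e1, rfl⟩ := h a b a c hab hc.symm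
    refine (card_filter_smul g fun x => ⟨fun hx => ?_, fun hx => ?_⟩).symm
    · have := hS g⁻¹ _ _ _ hx
      rwa [inv_smul_smul, inv_smul_smul, inv_smul_eq_iff.2 e1.symm] at this
    · have := hS g _ _ _ hx
      rwa [e1] at this
  have e2 : ∀ x, (univ.filter fun c => c ≠ a ∧ S x a c).card =
      ∑ c ∈ univ.erase a, if S x a c then 1 else 0 := fun x => by
    rw [← Finset.card_filter, ← Finset.filter_ne', Finset.filter_filter]
  simp only [e2]
  rw [Finset.sum_comm, Finset.sum_congr rfl (g := fun _ => (univ.filter fun x => S x a b).card) fun c hc => by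
    rw [← Finset.card_filter, e c (Finset.ne_of_mem_erase hc)]]
  simp [Finset.card_erase_of_mem]

/-- The subgroup version: if `P` normalises `R` and is transitive, `(n - 1) ∣ |G : P| (ρ - 1)`, with `ρ` the common
length of the orbits of `R`. -/
theorem Two.exists_lam [Finite G] [Finite Ω] [Nontrivial Ω] (h : Two G Ω) {P R : Subgroup G}
    (hR : ∀ p ∈ P, ∀ r ∈ R, p * r * p⁻¹ ∈ R) (hP : ∀ a b : Ω, ∃ p ∈ P, p • a = b) (a : Ω) :
    ∃ l, (Nat.card Ω - 1) * l = P.index * ((orbit R a).ncard - 1) := by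
  classical
  have := Fintype.ofFinite Ω
  have := Fintype.ofFinite (G ⧸ P)
  obtain ⟨b, hb⟩ := exists_ne a
  let S : G ⧸ P → Ω → Ω → Prop := fun x c d => ∃ g : G, (g : G ⧸ P) = x ∧ ∃ r ∈ R, (g * r * g⁻¹) • c = d
  have hS : ∀ (g : G) x c d, S x c d → S (g • x) (g • c) (g • d) := by
    rintro g _ c _ ⟨k, rfl, r, hr, rfl⟩
    exact ⟨g * k, rfl, r, hr, by simp [mul_smul]⟩
  suffices H : ∀ x, (univ.filter fun c => c ≠ a ∧ S x a c).card = (orbit R a).ncard - 1 from
    ⟨_, by rw [Nat.card_eq_fintype_card, h.count hS hb.symm]; simp only [H]; simp [Subgroup.index]⟩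
  intro x
  obtain ⟨g, rfl⟩ := QuotientGroup.mk_surjective x
  obtain ⟨p, hp, e⟩ := hP a (g⁻¹ • a)
  have hk : (g * p) • a = a := by rw [mul_smul, e, smul_inv_smul]
  have e1 : ∀ d, S g a d ↔ (g * p)⁻¹ • d ∈ orbit R a := fun d => by
    constructor
    · rintro ⟨k, hk', r, hr, rfl⟩
      have hm : (g * p)⁻¹ * k ∈ P := by
        have : g⁻¹ * k ∈ P := QuotientGroup.eq.1 hk'.symm
        simpa [mul_assoc] using P.mul_mem (P.inv_mem hp) this
      refine ⟨⟨_, hR _ hm r hr⟩, ?_⟩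
      show ((g * p)⁻¹ * k * r * ((g * p)⁻¹ * k)⁻¹) • a = _
      rw [mul_inv_rev ((g * p)⁻¹), inv_inv, ← mul_assoc, mul_smul _ (g * p), hk, ← mul_smul]
      simp only [mul_assoc]
    · rintro ⟨⟨r, hr⟩, e2⟩
      refine ⟨g * p, QuotientGroup.mk_mul_of_mem g hp, r, hr, ?_⟩
      have e3 : r • a = (g * p)⁻¹ • d := e2
      rw [mul_smul, mul_smul, inv_smul_eq_iff.2 hk.symm, e3, smul_inv_smul]
  have e2 : (univ.filter fun c => c ≠ a ∧ S g a c).card = (univ.filter fun c => c ≠ a ∧ c ∈ orbit R a).card :=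
    (card_filter_smul (G := G) (X := Ω) (g * p) fun c => by
      rw [e1, inv_smul_smul, Ne, ← eq_inv_smul_iff, inv_smul_eq_iff.2 hk.symm]).symm
  rw [e2, ← Set.ncard_sdiff_singleton_of_mem (mem_orbit_self a), ← Set.ncard_coe_finset]
  congr 1
  ext c
  simp [and_comm]

/-- The blocks attached to an intransitive subgroup. -/
theorem exists_inc {P : Subgroup G} (hP : ¬ ∀ a b : Ω, ∃ p ∈ P, p • a = b) :
    ∃ I : Ω → G ⧸ P → Prop, (∀ (g : G) a x, I a x → I (g • a) (g • x)) ∧ ∃ a b x, I a x ∧ ¬ I b x := by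
  push Not at hP
  obtain ⟨a, b, hab⟩ := hP
  refine ⟨fun c x => ∃ g : G, (g : G ⧸ P) = x ∧ g • a = c, ?_, a, b, (1 : G), ⟨1, rfl, one_smul _ _⟩, ?_⟩
  · rintro g _ _ ⟨k, rfl, rfl⟩
    exact ⟨g * k, rfl, mul_smul _ _ _⟩
  · rintro ⟨g, hg, e⟩
    have : g⁻¹ * 1 ∈ P := QuotientGroup.eq.1 hg
    exact hab g (by simpa using this) e

/-- The blocks attached to an intransitive point stabiliser in a second action. -/
theorem exists_inc' {x₀ : X} (hP : ¬ ∀ a b : Ω, ∃ p : G, p • x₀ = x₀ ∧ p • a = b) :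
    ∃ I : Ω → X → Prop, (∀ (g : G) a x, I a x → I (g • a) (g • x)) ∧ ∃ a b x, I a x ∧ ¬ I b x := by
  push Not at hP
  obtain ⟨a, b, hab⟩ := hP
  refine ⟨fun c x => ∃ g : G, g • x₀ = x ∧ g • a = c, ?_, a, b, x₀, ⟨1, one_smul _ _, one_smul _ _⟩, ?_⟩
  · rintro g _ _ ⟨k, rfl, rfl⟩
    exact ⟨g * k, mul_smul _ _ _, mul_smul _ _ _⟩
  · rintro ⟨g, hg, e⟩
    exact hab g hg e

theorem Two.card_le_index [Finite G] [Finite Ω] (h : Two G Ω) {P : Subgroup G}
    (hP : ¬ ∀ a b : Ω, ∃ p ∈ P, p • a = b) : Nat.card Ω ≤ P.index := by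
  obtain ⟨I, hI, a, b, x, h1, h2⟩ := exists_inc hP
  exact h.card_le hI h1 h2

/-- If `P` is intransitive and `y⁻¹ g P ⊆ A g P` for all `g`, then `y` preserves the orbits of `A`. -/
theorem Two.same_orbit_of [Finite G] [Finite Ω] (h : Two G Ω) {P : Subgroup G}
    (hP : ¬ ∀ a b : Ω, ∃ p ∈ P, p • a = b) {A : Subgroup G} {y : G}
    (hy : ∀ g : G, ∃ u ∈ A, ∃ p ∈ P, y⁻¹ * g = u * g * p) (a : Ω) : ∃ u ∈ A, u • a = y • a := by
  obtain ⟨I, hI, a', b, x, h1, h2⟩ := exists_inc hP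
  refine h.same_orbit hI h1 h2 (fun x => ?_) a
  obtain ⟨g, rfl⟩ := QuotientGroup.mk_surjective x
  obtain ⟨u, hu, p, hp, e⟩ := hy g
  refine ⟨u, hu, ?_⟩
  show ((u * g : G) : G ⧸ P) = ((y⁻¹ * g : G) : G ⧸ P)
  rw [e, QuotientGroup.mk_mul_of_mem _ hp]

/-- If all orbits of a `p`-group have length divisible by `m`, then `m` divides the degree. -/
theorem dvd_card_of_orbits [Finite Ω] {R : Subgroup G} {m : ℕ} (h : ∀ a : Ω, m ∣ (orbit R a).ncard) :
    m ∣ Nat.card Ω := by
  classical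
  have := Fintype.ofFinite Ω
  rw [Nat.card_congr (selfEquivSigmaOrbits R Ω), Nat.card_sigma]
  refine Finset.dvd_sum fun o _ => ?_
  exact h _

theorem ncard_orbit_mul (R : Subgroup G) (a : Ω) :
    (orbit R a).ncard * Nat.card ↥(R ⊓ stabilizer G a) = Nat.card R := by
  rw [← index_stabilizer, ← (stabilizer R a).index_mul_card, ← Subgroup.card_map_of_injective
    (K := stabilizer R a) R.subtype_injective]
  congr 3
  ext g
  simp only [Subgroup.mem_inf, Subgroup.mem_map, mem_stabilizer_iff]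
  exact ⟨fun ⟨h1, h2⟩ => ⟨⟨g, h1⟩, h2, rfl⟩, fun ⟨x, h1, h2⟩ => h2 ▸ ⟨x.2, h1⟩⟩

end Cfsg.Agent.T2
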