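import Cfsg.Agent.Lib.MI.U5
import Cfsg.Agent.Lib.T2.Des

/-!
Doubly transitive actions of groups generated by Eichler transformations: the case in which the
stabiliser of a singular point is transitive.
-/

set_option autoImplicit false

namespace Cfsg.Agent.T2

open Module Cfsg.Agent.Forms Cfsg.Agent.Forms.Form Cfsg.Agent.Cls Cfsg.Agent.Deg Cfsg.Agent.MI Finset

theorem dvd_card_of_equiv {X : Type*} (Y : Finset X) (r : X → X → Prop) {m : ℕ}
    (h1 : ∀ a ∈ Y, r a a) (h2 : ∀ a ∈ Y, ∀ b, r a b → b ∈ Y ∧ ∀ c, r a c ↔ r b c)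
    (h : ∀ a ∈ Y, m ∣ {b | r a b}.ncard) : m ∣ Y.card := by
  classical
  rw [card_eq_sum_card_image (fun a => {b | r a b}) Y]
  refine dvd_sum fun C hC => ?_
  obtain ⟨a, ha, rfl⟩ := mem_image.1 hC
  refine (h a ha).trans (dvd_of_eq (Eq.symm ?_))
  rw [← Set.ncard_coe_finset]
  congr 1
  ext b
  simp only [coe_filter, Set.mem_ofPred_eq]
  refine ⟨fun hb => ?_, fun hb => ⟨(h2 a ha b hb).1, Set.ext fun c => ((h2 a ha b hb).2 c).symm⟩⟩
  have : b ∈ {c | r b c} := h1 b hb.1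
  rwa [hb.2] at this

variable {F : Type*} [Field F] {P : Param F} {V : Type*} [AddCommGroup V] [Module F V]
  {f : Form P V} {X : Type*} [MulAction f.Isom X] {G : Subgroup f.Isom} {Y : Finset X}
  {u : V} {ω ω' : X}

theorem ncard_smul_eq [Finite F] {w : V} (hw : w ≠ 0) :
    {w' | ∃ s : F, s ≠ 0 ∧ w' = s • w}.ncard = Nat.card F - 1 := by
  have : {w' | ∃ s : F, s ≠ 0 ∧ w' = s • w} = (· • w) '' ({0}ᶜ : Set F) := by
    ext w'
    exact ⟨fun ⟨s, h, e⟩ => ⟨s, h, e.symm⟩, fun ⟨s, h, e⟩ => ⟨s, h, e.symm⟩⟩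
  rw [this, Set.ncard_image_of_injective _ (smul_left_injective F hw), Set.ncard_compl,
    Set.ncard_singleton]

theorem dvd_card_of_smul [Finite F] (L : Finset V) (h0 : ∀ w ∈ L, w ≠ 0)
    (h : ∀ w ∈ L, ∀ s : F, s ≠ 0 → s • w ∈ L) : Nat.card F - 1 ∣ L.card := by
  refine dvd_card_of_equiv L (fun w w' => ∃ s : F, s ≠ 0 ∧ w' = s • w)
    (fun a _ => ⟨1, one_ne_zero, (one_smul _ _).symm⟩) ?_ fun a ha => (ncard_smul_eq (h0 a ha)).symm.dvd
  rintro a ha _ ⟨s, hs, rfl⟩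
  refine ⟨h a ha s hs, fun c => ⟨?_, ?_⟩⟩
  · rintro ⟨t, ht, rfl⟩
    exact ⟨t / s, div_ne_zero ht hs, by rw [smul_smul, div_mul_cancel₀ _ hs]⟩
  · rintro ⟨t, ht, rfl⟩
    exact ⟨t * s, mul_ne_zero ht hs, smul_smul _ _ _⟩

/-- two-transitivity on an invariant finite set -/
def TwoY (G : Subgroup f.Isom) (Y : Finset X) : Prop :=
  ∀ a ∈ Y, ∀ b ∈ Y, ∀ c ∈ Y, ∀ d ∈ Y, a ≠ b → c ≠ d → ∃ g ∈ G, g • a = c ∧ g • b = d

/-- only scalar-like elements act trivially -/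
def FaithY (G : Subgroup f.Isom) (Y : Finset X) : Prop :=
  ∀ g ∈ G, (∀ ω ∈ Y, g • ω = ω) → ∀ w, f.Q w = 0 → g.1 w ∈ F ∙ w

/-- the stabiliser of the point is transitive -/
def PTr (G : Subgroup f.Isom) (u : V) (Y : Finset X) : Prop :=
  ∀ a ∈ Y, ∀ b ∈ Y, ∃ g ∈ G, ∃ s : F, s ≠ 0 ∧ g.1 u = s • u ∧ g • a = b

variable (f) in
/-- same orbit of the group of transvections -/
def TO (u : V) (ω ω' : X) : Prop := ∃ (g : f.Isom) (l : F), IsE g u 0 l ∧ g • ω = ω'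

theorem TO.map (h : TO f u ω ω') (k : f.Isom) : TO f (k.1 u) (k • ω) (k • ω') :=
  let ⟨g, l, h1, h2⟩ := h
  ⟨_, l, by simpa using h1.conj k, by rw [mul_smul, mul_smul, inv_smul_smul, h2]⟩

theorem TO.smul (h : TO f u ω ω') {a : F} (ha : a ≠ 0) : TO f (a • u) ω ω' := by
  obtain ⟨g, l, h1, h2⟩ := h
  have h3 : IsE g (a⁻¹ • a • u) 0 l := by rwa [inv_smul_smul₀ ha]
  exact ⟨g, _, by simpa using h3.smul_left (inv_ne_zero ha), h2⟩

theorem ncard_TO [Finite F] [Finite V] (hu : f.Q u = 0) (ω : X) :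
    {ω' | TO f u ω ω'}.ncard = wt f u ω := by
  let _ : MulAction (Par f u) X := MulAction.compHom X (Par.hom hu)
  let S := (Par.vec f u).ker
  have h1 : {ω' | TO f u ω ω'} = MulAction.orbit S ω := by
    ext ω'
    constructor
    · rintro ⟨g, l, h1, rfl⟩
      exact ⟨⟨⟨0, l, h1.orth, h1.lam⟩, rfl⟩, congrArg (· • ω) (h1.eq_eichler hu).symm⟩
    · rintro ⟨⟨a, ha⟩, rfl⟩
      exact ⟨_, _, (isE_eichler hu a.orth a.lam).congr ha rfl, rfl⟩
  have h2 := card_subgroup_par (S ⊓ MulAction.stabilizer (Par f u) ω) ⊥ (tau f u ω)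
    (fun v => ⟨fun h => ⟨1, one_mem _, (AddSubgroup.mem_bot.1 h).symm⟩, by
      rintro ⟨a, ha, rfl⟩
      exact ha.1⟩)
    (fun l => ⟨fun h => have h := h.2 hu
      ⟨⟨0, l, h.orth, h.lam⟩, ⟨rfl, h.smul_eq (isE_eichler hu h.orth h.lam)⟩, rfl, rfl⟩, by
      rintro ⟨a, ha, h0, rfl⟩
      exact Fx.mem_tau (Fx.congr ⟨_, isE_eichler hu a.orth a.lam, ha.2⟩ h0 rfl)⟩)
  have h3 := card_subgroup_par S ⊥ (Lam P)
    (fun v => ⟨fun h => ⟨1, one_mem _, (AddSubgroup.mem_bot.1 h).symm⟩, by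
      rintro ⟨a, ha, rfl⟩
      exact ha⟩)
    (fun l => ⟨fun h => ⟨⟨0, l, f.B_zero_left u, Lam0.isLam h f⟩, rfl, rfl, rfl⟩, by
      rintro ⟨a, -, h0, rfl⟩
      exact lam0_of_isLam a.lam (by rw [h0, f.Q_zero])⟩)
  have h4 := ncard_orbit_mul S ω
  rw [h2, h3, AddSubgroup.card_bot, one_mul, one_mul, ← wt_mul_card (f := f) u ω] at h4
  rw [h1]
  exact Nat.eq_of_mul_eq_mul_right Nat.card_pos h4

theorem Sb_isotropic [Finite F] [Finite V] (hf : f.Nondeg) (hu : f.Q u = 0)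
    (hcov : ∀ l ∈ Lam P, ∃ b, l = P.ε * P.σ b - b) (ht : tau f u ω ≠ Lam P) :
    Nat.card (Sb f u ω) ^ 2 ∣ Nat.card V := by
  obtain ⟨l, hl, hl'⟩ := SetLike.exists_of_lt (lt_of_le_of_ne (tau_le u ω) ht)
  have := Fintype.ofFinite (F ⧸ tau f u ω)
  obtain ⟨χ, hχ⟩ : ∃ χ : AddChar (F ⧸ tau f u ω) ℂ, χ l ≠ 1 := by
    by_contra h
    push Not at h
    exact hl' ((QuotientAddGroup.eq_zero_iff l).1 (AddChar.forall_apply_eq_zero.1 h))
  let φ : F →+ F := (AddMonoidHom.mulLeft P.ε).comp P.σ.toAddMonoidHom - AddMonoidHom.id F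
  have hφ : ∀ b, φ b = P.ε * P.σ b - b := fun b => rfl
  let ψ := χ.compAddMonoidHom ((QuotientAddGroup.mk' (tau f u ω)).comp φ)
  have hψ : ∀ b, ψ b = χ (φ b : F) := fun b => rfl
  let c : Chr P := ⟨ψ, fun e => by
    obtain ⟨b, rfl⟩ := hcov l hl
    exact hχ (DFunLike.congr_fun e b), fun a ha => by
    have e : φ (P.ε * P.σ a) = -φ a := by
      rw [hφ, hφ, map_mul, P.σσ, P.σε, ← mul_assoc, P.εε]; ring
    rw [hψ] at ha ⊢
    rw [e, QuotientAddGroup.mk_neg, AddChar.map_neg_eq_inv, ha, inv_one]⟩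
  have h1 : Sb f u ω ≤ c.ann f (Sb f u ω) := fun a ha v hv => by
    change χ (φ (f.B v a) : F) = 1
    rw [hφ, ← f.symm, (QuotientAddGroup.eq_zero_iff _).2 (comm_mem_tau hu hv ha),
      AddChar.map_zero_eq_one]
  rw [← Chr.card_mul_card_ann (c := c) hf (Sb f u ω), sq]
  exact Nat.mul_dvd_mul_left _ (AddSubgroup.card_dvd_of_le h1)

theorem orbit_dvd [Finite F] [Finite V] (hf : f.Nondeg) (hu : f.Q u = 0) (hu0 : u ≠ 0)
    (hcov : ∀ l ∈ Lam P, ∃ b, l = P.ε * P.σ b - b) (ht : tau f u ω ≠ Lam P) {N : ℕ}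
    (hN' : Nat.card V = (N * Nat.card F) ^ 2) : N * wt f u ω ∣ {ω' | SO f u ω ω'}.ncard := by
  have h1 := Sb_isotropic hf hu hcov ht
  rw [hN', Nat.pow_dvd_pow_iff two_ne_zero] at h1
  obtain ⟨m, hm⟩ := h1
  have h2 := card_orbit_aux hu ω
  rw [← wt_mul_card (f := f) u ω, ← mul_assoc, ← mul_assoc] at h2
  have h3 := Nat.eq_of_mul_eq_mul_right Nat.card_pos h2
  have h4 := card_perp hf hu0
  refine ⟨m, Nat.eq_of_mul_eq_mul_right (Nat.mul_pos (Nat.card_pos (α := Sb f u ω))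
    (Nat.card_pos (α := F))) ?_⟩
  rw [hN'] at h4
  calc _ = Nat.card F * Nat.card (f.orth (F ∙ u)) * wt f u ω := by rw [← mul_assoc, h3]; ring
    _ = N * Nat.card F * (N * Nat.card F) * wt f u ω := by rw [h4, sq]
    _ = N * Nat.card F * (Nat.card (Sb f u ω) * m) * wt f u ω := by rw [← hm]
    _ = _ := by ring

variable [Finite F] [Finite V] (S : Sys f G Y)
include S

theorem exists_tau_ne_of (hY : FaithY G Y) (hu : f.Q u = 0) (hu0 : u ≠ 0)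
    (h0 : ∃ l, l ≠ 0 ∧ Lam0 P l) : ∃ ω ∈ Y, tau f u ω ≠ Lam P := by
  by_contra h
  push Not at h
  obtain ⟨l, hl0, hl⟩ := h0
  obtain ⟨e, he⟩ := S.nd.exists_hypPair hu hu0
  have h1 := hY _ (S.tr_mem hu hl) (fun ω hω =>
    ((mem_tau hu).1 (by rw [h ω hω]; exact hl)).smul_eq (isE_tr hu hl)) e he.Qe
  rw [tr_apply] at h1
  have h2 : (P.ε * l * f.B e u) • u ∈ F ∙ e := by
    simpa using sub_mem (Submodule.mem_span_singleton_self e) h1
  have h3 : f.B e u ≠ 0 := by rw [he.Beu]; exact P.ε_ne_zero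
  rw [Submodule.smul_mem_iff _ (mul_ne_zero (mul_ne_zero P.ε_ne_zero hl0) h3)] at h2
  exact not_mem_span_of_B (z := e) he.Bee (by rw [he.Bue]; exact one_ne_zero) h2

theorem wt_const (hu : f.Q u = 0) (hu0 : u ≠ 0) (hP : PTr G u Y) (hω : ω ∈ Y) (hω' : ω' ∈ Y)
    {z : V} (hz : f.Q z = 0) (hz0 : z ≠ 0) : wt f z ω' = wt f u ω := by
  obtain ⟨g, hg, s, hs, e⟩ := S.exists_map hu hu0 hz hz0
  obtain ⟨k, -, t, ht, e1, e2⟩ := hP ω hω _ (S.inv _ (G.inv_mem hg) _ hω')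
  rw [← wt_conj (ω := ω) hu e1 ht, e2, wt, wt, ← card_tau_smul hz hs, ← e,
    ← tau_map (u := u) (ω := g⁻¹ • ω') g, smul_inv_smul]

theorem caseB (h2 : TwoY G Y) (h1 : 1 < Y.card) (hY : FaithY G Y) (hu : f.Q u = 0) (hu0 : u ≠ 0)
    (h0 : ∃ l, l ≠ 0 ∧ Lam0 P l) (hP : PTr G u Y) {v : ℕ}
    (hv : v * (Nat.card F - 1) = {w | f.Q w = 0 ∧ w ≠ 0}.ncard) :
    ∃ r l : ℕ, 2 ≤ r ∧ r ∣ Nat.card (Lam P) ∧ r ∣ Y.card ∧ (Y.card - 1) * l = v * (r - 1) ∧
      (∀ N, (∀ l ∈ Lam P, ∃ b, l = P.ε * P.σ b - b) → Nat.card V = (N * Nat.card F) ^ 2 →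
        N * r ∣ Y.card) ∧
      (∀ ω ∈ Y, ∀ z, f.Q z = 0 → z ≠ 0 → wt f z ω = r) ∧
      (l = 1 → ∀ a ∈ Y, ∀ b, a ≠ b → ∀ w w', f.Q w = 0 → w ≠ 0 → f.Q w' = 0 → w' ≠ 0 →
        TO f w a b → TO f w' a b → w' ∈ F ∙ w) := by
  classical
  have := Fintype.ofFinite V
  obtain ⟨a, ha, ht⟩ := exists_tau_ne_of S hY hu hu0 h0
  have hw : ∀ ω ∈ Y, ∀ z, f.Q z = 0 → z ≠ 0 → wt f z ω = wt f u a := fun ω hω z hz hz0 =>
    wt_const S hu hu0 hP ha hω hz hz0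
  have hT : ∀ ω ∈ Y, ∀ z, f.Q z = 0 → ∀ ω', TO f z ω ω' → ω' ∈ Y := by
    rintro ω hω z hz _ ⟨g, l, hg, rfl⟩
    exact S.inv g (S.ein hz hg) ω hω
  let L : X → X → Finset V := fun b c => univ.filter fun w => f.Q w = 0 ∧ w ≠ 0 ∧ TO f w b c
  have hL : ∀ b c w, w ∈ L b c ↔ f.Q w = 0 ∧ w ≠ 0 ∧ TO f w b c := fun b c w => by simp [L]
  have hL1 : ∀ (g : f.Isom) b c, (L b c).card ≤ (L (g • b) (g • c)).card := fun g b c =>
    card_le_card_of_injOn g.1 (fun w hw => by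
      obtain ⟨e1, e2, e3⟩ := (hL _ _ _).1 hw
      exact (hL _ _ _).2 ⟨by rwa [Isom.map_Q], by simpa using e2, e3.map g⟩)
      g.1.injective.injOn
  obtain ⟨b, hb, hab⟩ := exists_mem_ne h1 a
  have hL2 : ∀ c ∈ Y, ∀ d ∈ Y, c ≠ d → (L c d).card = (L a b).card := fun c hc d hd hcd => by
    obtain ⟨g, -, rfl, rfl⟩ := h2 a ha b hb c hc d hd hab.symm hcd
    exact le_antisymm (by simpa using hL1 g⁻¹ (g • a) (g • b)) (hL1 g a b)
  have hL3 : ∀ c d w, w ∈ L c d → ∀ s : F, s ≠ 0 → s • w ∈ L c d := fun c d w hw s hs => by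
    obtain ⟨e1, e2, e3⟩ := (hL _ _ _).1 hw
    exact (hL _ _ _).2 ⟨by rw [f.Q_smul, e1, mul_zero], smul_ne_zero hs e2, e3.smul hs⟩
  obtain ⟨l, hl⟩ := dvd_card_of_smul (F := F) (L a b) (fun w hw => ((hL _ _ _).1 hw).2.1) (hL3 a b)
  have hF : 0 < Nat.card F - 1 := Nat.sub_pos_of_lt Finite.one_lt_card
  refine ⟨wt f u a, l, two_le_wt ht, Dvd.intro _ (wt_mul_card u a), ?_, ?_, fun N hcv hN => ?_, hw, ?_⟩
  · refine dvd_card_of_equiv Y (TO f u) (fun c _ => ⟨1, 0, isE_one u, one_smul _ _⟩)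
      (fun c hc d hd => ⟨hT c hc u hu d hd, fun e => ?_⟩) fun c hc => ?_
    · obtain ⟨g, l, hg, rfl⟩ := hd
      refine ⟨?_, ?_⟩
      · rintro ⟨k, m, hk, rfl⟩
        exact ⟨k * g⁻¹, _, (hk.mul hu (hg.inv hu)).congr (by simp) rfl, by simp [mul_smul]⟩
      · rintro ⟨k, m, hk, rfl⟩
        exact ⟨k * g, _, (hk.mul hu hg).congr (by simp) rfl, mul_smul _ _ _⟩
    · rw [ncard_TO hu, hw c hc u hu hu0]
  · refine Nat.eq_of_mul_eq_mul_right hF ?_
    calc _ = ∑ c ∈ Y.erase a, (L a c).card := by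
          rw [sum_const_nat fun c hc => hL2 a ha c (mem_of_mem_erase hc) (ne_of_mem_erase hc).symm,
            card_erase_of_mem ha, hl]
          ring
      _ = ∑ w ∈ univ.filter (fun w => f.Q w = 0 ∧ w ≠ 0), ((Y.erase a).filter (TO f w a)).card := by
          simp only [L, card_filter, sum_filter]
          rw [sum_comm]
          refine sum_congr rfl fun w _ => ?_
          by_cases e : f.Q w = 0 ∧ w ≠ 0
          · simp [e]
          · rw [if_neg e]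
            exact sum_eq_zero fun c _ => if_neg fun e1 => e ⟨e1.1, e1.2.1⟩
      _ = _ := by
          rw [sum_const_nat (m := wt f u a - 1) fun w hw' => ?_, mul_right_comm, hv,
            ← Set.ncard_coe_finset, coe_filter_univ]
          obtain ⟨e1, e2⟩ := (mem_filter.1 hw').2
          rw [← hw a ha w e1 e2, ← ncard_TO e1, ← Set.ncard_sdiff_singleton_of_mem
            (show a ∈ {c | TO f w a c} from ⟨1, 0, isE_one w, one_smul _ _⟩), ← Set.ncard_coe_finset]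
          congr 1
          ext c
          simp only [coe_filter, mem_erase, Set.mem_ofPred_eq, Set.mem_sdiff, Set.mem_singleton_iff]
          exact ⟨fun e => ⟨e.2, e.1.1⟩, fun e => ⟨⟨e.2, hT a ha w e1 c e.1⟩, e.1⟩⟩
  · refine dvd_card_of_equiv Y (SO f u) (fun c _ => SO.refl u c)
      (fun c hc d hd => ⟨S.cl hu (S.pinv u) c hc d hd, fun e =>
        ⟨(hd.symm hu).trans hu, hd.trans hu⟩⟩) fun c hc => ?_
    rw [← hw c hc u hu hu0]
    refine orbit_dvd S.nd hu hu0 hcv (fun e => ?_) hN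
    have e1 := wt_mul_card (f := f) u c
    have e2 := two_le_wt ht
    rw [e, hw c hc u hu hu0] at e1
    have e3 : 0 < Nat.card (Lam P) := Nat.card_pos
    nlinarith
  · rintro rfl c hc d hcd w w' e1 e2 e3 e4 e5 e6
    have e7 : {w' | ∃ s : F, s ≠ 0 ∧ w' = s • w} = L c d := by
      refine Set.eq_of_subset_of_ncard_le ?_ ?_
      · rintro _ ⟨s, hs, rfl⟩
        exact hL3 c d w ((hL _ _ _).2 ⟨e1, e2, e5⟩) s hs
      · rw [ncard_smul_eq e2, Set.ncard_coe_finset, hL2 c hc d (hT c hc w e1 d e5) hcd, hl, mul_one]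
    obtain ⟨s, -, rfl⟩ : w' ∈ {w' | ∃ s : F, s ≠ 0 ∧ w' = s • w} := by
      rw [e7]
      exact (hL _ _ _).2 ⟨e3, e4, e6⟩
    exact Submodule.smul_mem _ _ (Submodule.mem_span_singleton_self w)

omit S in
theorem exists_sysT (hf : f.Nondeg) (hb : Big f) (h3 : 3 ≤ finrank F V)
    (ein : ∀ {g u v l}, f.Q u = 0 → IsE g u v l → g ∈ G)
    (gen : ∀ K : Subgroup f.Isom, (∀ u v, Ein K u v) → G ≤ K) {Ω : Type*} [MulAction G Ω]
    [Fintype Ω] [Nontrivial Ω] (h : Two G Ω)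
    (hc : ∀ g : G, (∀ a : Ω, g • a = a) → g ∈ Subgroup.center G) :
    ∃ (H : Subgroup G) (Y : Finset (f.Isom ⧸ H.map G.subtype)), H ≠ ⊤ ∧ H.index = Fintype.card Ω ∧
      Sys f G Y ∧ Y.card = Fintype.card Ω ∧ TwoY G Y ∧ FaithY G Y := by
  obtain ⟨a, b, hab⟩ := exists_pair_ne Ω
  let H := MulAction.stabilizer G a
  have hH : H ≠ ⊤ := fun e => by
    obtain ⟨g, hg⟩ := h.trans a b
    exact hab ((show g • a = a from e.ge (Subgroup.mem_top g)).symm.trans hg)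
  have hi : H.index = Fintype.card Ω := by
    rw [MulAction.index_stabilizer, Set.eq_univ_of_forall (s := MulAction.orbit G a) (h.trans a),
      Set.ncard_univ, Nat.card_eq_fintype_card]
  let x : f.Isom ⧸ H.map G.subtype := ((1 : f.Isom) : f.Isom ⧸ H.map G.subtype)
  have hx : MulAction.stabilizer G x = H := by
    ext g
    rw [MulAction.mem_stabilizer_iff]
    change (((g : f.Isom) * 1 : f.Isom) : f.Isom ⧸ H.map G.subtype) = ((1 : f.Isom) : _) ↔ _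
    rw [QuotientGroup.eq, mul_one, mul_one, Subgroup.inv_mem_iff]
    exact ⟨fun ⟨a, ha, e⟩ => (Subtype.ext e : a = g) ▸ ha, fun h => ⟨g, h, rfl⟩⟩
  have key : ∀ g k : G, g • x = k • x ↔ g • a = k • a := fun g k => by
    rw [← inv_smul_eq_iff, ← mul_smul, ← MulAction.mem_stabilizer_iff, hx, ← inv_smul_eq_iff,
      ← mul_smul]
    rfl
  refine ⟨H, (MulAction.orbit G x).toFinite.toFinset, hH, hi,
    ⟨hf, hb, ein, ?_, ?_, ⟨x, by simp⟩, ?_⟩, ?_, ?_, ?_⟩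
  · simp only [Set.Finite.mem_toFinset]
    rintro g hg _ ⟨a, rfl⟩
    exact ⟨⟨g, hg⟩ * a, mul_smul _ _ _⟩
  · simp only [Set.Finite.mem_toFinset]
    rintro _ ⟨a, rfl⟩ _ ⟨b, rfl⟩
    exact ⟨(b * a⁻¹ : G), (b * a⁻¹).2, by
      change (b * a⁻¹) • a • x = b • x
      rw [mul_smul, inv_smul_smul]⟩
  · simp only [Set.Finite.mem_toFinset]
    rintro _ ⟨a, rfl⟩
    by_contra hc
    push Not at hc
    have := gen (MulAction.stabilizer f.Isom (a • x)) fun u v l hu hv hl => by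
      by_cases h0 : u = 0
      · subst h0
        convert Subgroup.one_mem _
        exact Isom.ext fun w => by simp [eichler_apply]
      · exact (hc u hu h0).smul_eq (isE_eichler hu hv hl)
    apply hH
    rw [eq_top_iff, ← hx]
    intro g _
    have h1 : (a * g * a⁻¹) • a • x = a • x := this (a * g * a⁻¹).2
    rwa [mul_smul, inv_smul_smul, mul_smul, smul_left_cancel_iff] at h1
  · rw [← Set.ncard_eq_toFinset_card, ← MulAction.index_stabilizer, hx, hi]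
  · simp only [TwoY, Set.Finite.mem_toFinset]
    rintro _ ⟨g1, rfl⟩ _ ⟨g2, rfl⟩ _ ⟨g3, rfl⟩ _ ⟨g4, rfl⟩ e1 e2
    obtain ⟨k, e3, e4⟩ := h _ _ _ _ (fun e => e1 ((key g1 g2).2 e)) fun e => e2 ((key g3 g4).2 e)
    rw [← mul_smul, ← key, mul_smul] at e3 e4
    exact ⟨k, k.2, e3, e4⟩
  · simp only [FaithY, Set.Finite.mem_toFinset]
    intro g hg e w hw
    refine center_fix_sing hf h3 ein (z := ⟨g, hg⟩) (hc _ fun c => ?_) hw
    obtain ⟨k, rfl⟩ := h.trans a c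
    rw [← mul_smul, ← key, mul_smul]
    exact e _ ⟨k, rfl⟩

end Cfsg.Agent.T2
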