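import Cfsg.Agent.Lib.MI.O9
import Cfsg.Agent.Lib.T2.Tv

/-! Orthogonal groups, transitive point stabiliser: the anisotropic case. -/

set_option autoImplicit false

namespace Cfsg.Agent.T2

open Module Cfsg.Agent.Forms Cfsg.Agent.Forms.Form Cfsg.Agent.Cls Cfsg.Agent.Deg Cfsg.Agent.MI Finset

variable {F : Type*} [Field F] {V : Type*} [AddCommGroup V] [Module F V]
  {f : Form (Param.orth F) V} {u : V} {X : Type*} [MulAction f.Isom X] {ω : X} {Y : Finset X}

theorem omA_key (hu : f.Q u = 0) {g : f.Isom} {s : F} (hs : s ≠ 0) (e : g.1 u = s • u) (v : V)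
    (ω : X) : v ∈ Sb f u ω ↔ s • g.1 v ∈ Sb f u (g • ω) := by
  rw [← map_mem_Sb_iff g, e, mem_Sb_smul hu hs]; rfl

theorem omA_Q_add (a b : V) : f.Q (a + b) = f.Q a + f.Q b + f.B a b := f.Q_add a b

theorem omA_Q_smul (s : F) (a : V) : f.Q (s • a) = s * s * f.Q a := f.Q_smul s a

theorem omA_B_smul (s : F) (a b : V) : f.B a (s • b) = s * f.B a b := by
  rw [B_smul_right]; rfl

theorem omA_num {q x τ E S n : ℕ} (h3 : 3 ≤ q) (hx : 2 ≤ x) (h1 : q * ((q - 1) * (x - 1)) ≤ τ)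
    (h2 : τ ≤ 2 * E) (h4 : E ≤ n) (h5 : n + q = S) (h6 : S ≤ q * x) : q = 3 ∧ n ≤ E ∧ 3 * x ≤ S := by
  obtain ⟨a, rfl⟩ := Nat.exists_eq_add_of_le h3
  obtain ⟨b, rfl⟩ := Nat.exists_eq_add_of_le hx
  rw [show 3 + a - 1 = 2 + a by omega, show 2 + b - 1 = 1 + b by omega] at h1
  have h7 : a = 0 := by
    by_contra h
    have : 1 ≤ a := by omega
    nlinarith [Nat.mul_le_mul this (le_refl b), Nat.zero_le (a * a * b), Nat.zero_le (a * a)]
  subst h7
  refine ⟨rfl, ?_, ?_⟩ <;> nlinarith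

theorem om_aniso_false [Fintype F] [Finite V] (S : Sys f (commutator f.Isom) Y) (h7 : 7 ≤ finrank F V)
    (h2 : (2 : F) ≠ 0)
    (hu : f.Q u = 0) (hu0 : u ≠ 0) (hP : PTr (commutator f.Isom) u Y) {N j x : ℕ}
    (hn : Y.card = Nat.card F ^ N) (hx : x = Nat.card F ^ (j + 2))
    (hC : ∀ c, c ≠ 0 → {w | f.B w u = 0 ∧ f.Q w = c}.ncard = Nat.card F * x * (x + 1) ∨
      {w | f.B w u = 0 ∧ f.Q w = c}.ncard = Nat.card F * x * (x - 1))
    (hω : ω ∈ Y) (han : ∀ w ∈ Sb f u ω, f.Q w = 0 → w ∈ F ∙ u)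
    (hne : ∃ w ∈ Sb f u ω, w ∉ F ∙ u) (hle : Nat.card (Sb f u ω) ≤ Nat.card F * x) : False := by
  classical
  have := Fintype.ofFinite V
  obtain ⟨w0, hw0, hw1⟩ := hne
  have hc : f.Q w0 ≠ 0 := fun h => hw1 (han _ hw0 h)
  set c := f.Q w0 with hcd
  set q := Nat.card F with hq
  have hq2 : 2 ≤ q := Finite.one_lt_card
  have hq3 : 3 ≤ q := by
    by_contra h
    have h' : Fintype.card F = 2 := by rw [← Nat.card_eq_fintype_card]; omega
    have := FiniteField.cast_card_eq_zero F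
    rw [h'] at this
    exact h2 (by exact_mod_cast this)
  have hx9 : 9 ≤ x := by
    rw [hx, pow_add]
    nlinarith [Nat.one_le_pow j q (by omega), Nat.pow_le_pow_left hq3 2]
  have hQu : ∀ v ∈ F ∙ u, f.Q v = 0 := fun v hv => by
    obtain ⟨s, rfl⟩ := Submodule.mem_span_singleton.1 hv
    rw [omA_Q_smul, hu, mul_zero]
  let A : Finset (F × V) := univ.filter fun p => p.1 ≠ 0 ∧ f.B p.2 u = 0 ∧ f.Q p.2 = c
  let r : X → F × V → Prop := fun a p => p.1 • p.2 ∈ Sb f u a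
  have mA : ∀ p, p ∈ A ↔ p.1 ≠ 0 ∧ f.B p.2 u = 0 ∧ f.Q p.2 = c := fun p => by simp [A]
  have cA : A.card = (q - 1) * {w | f.B w u = 0 ∧ f.Q w = c}.ncard := by
    have : A = (univ.erase (0 : F)) ×ˢ (univ.filter fun w => f.B w u = 0 ∧ f.Q w = c) := by
      ext p; simp [mA]
    rw [this, card_product, card_erase_of_mem (mem_univ _), card_univ, ← Nat.card_eq_fintype_card,
      ← Set.ncard_coe_finset]
    congr 2
    ext w; simp
  have hτ : ∀ a ∈ Y, (A.bipartiteAbove r a).card = (A.bipartiteAbove r ω).card := fun a ha => by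
    obtain ⟨g, -, s, hs, e, rfl⟩ := hP ω hω a ha
    refine (card_equiv ((Equiv.mulLeft₀ s hs).prodCongr g.1.toEquiv) fun p => ?_).symm
    have e1 : f.B (g.1 p.2) u = 0 ↔ f.B p.2 u = 0 := by
      rw [← Isom.map_B g p.2 u, e, omA_B_smul, mul_eq_zero, or_iff_right hs]
    simp only [mem_bipartiteAbove, mA, r, Equiv.prodCongr_apply, Prod.map_fst, Prod.map_snd,
      Equiv.mulLeft₀_apply, LinearEquiv.coe_toEquiv, e1, Isom.map_Q, mul_ne_zero_iff, mul_smul]
    rw [omA_key hu hs e, map_smul]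
    tauto
  have p0 : ((1 : F), w0) ∈ A := (mA _).2 ⟨one_ne_zero, orth_of_mem_Sb hu hw0, rfl⟩
  have hν : ∀ p ∈ A, (Y.bipartiteBelow r p).card = (Y.bipartiteBelow r (1, w0)).card := fun p hp => by
    obtain ⟨a1, a2, a3⟩ := (mA p).1 hp
    have n1 : p.1⁻¹ • p.2 ∉ F ∙ u := fun h => hc (by
      rw [← a3]; exact hQu _ ((Submodule.smul_mem_iff _ (inv_ne_zero a1)).1 h))
    obtain ⟨k, hk, e1, e2⟩ := om_class S.nd (by omega) hu hu0 (orth_of_mem_Sb hu hw0)
      (y' := p.1⁻¹ • p.2) (by rw [B_smul_left, a2, mul_zero]) hw1 n1 a1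
      (by rw [omA_Q_smul, a3]; field_simp; rfl)
    rw [smul_inv_smul₀ a1] at e2
    refine (card_equiv (MulAction.toPerm k) fun a => ?_).symm
    simp only [mem_bipartiteBelow, r, MulAction.toPerm_apply, one_smul]
    rw [omA_key hu a1 e1, e2]
    exact and_congr_left' ⟨S.inv k hk a, fun h => by simpa using S.inv _ (inv_mem hk) _ h⟩
  have hd := card_mul_eq_card_mul r hτ hν
  set T := A.bipartiteAbove r ω with hT
  have mT : ∀ p, p ∈ T ↔ (p.1 ≠ 0 ∧ f.B p.2 u = 0 ∧ f.Q p.2 = c) ∧ p.1 • p.2 ∈ Sb f u ω := fun p => by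
    rw [hT, mem_bipartiteAbove, mA]
  have T0 : 0 < T.card := card_pos.2 ⟨(1, w0), (mT _).2 ⟨(mA _).1 p0, by simpa using hw0⟩⟩
  have qT : q ∣ T.card := by
    refine dvd_card_of_equiv T (fun p p' => p'.1 = p.1 ∧ ∃ t : F, p'.2 = p.2 + t • u)
      (fun p _ => ⟨rfl, 0, by simp⟩) (fun p hp p' ⟨e, t, e'⟩ => ⟨?_, fun z => ?_⟩) fun p _ => ?_
    · obtain ⟨⟨a1, a2, a3⟩, a4⟩ := (mT p).1 hp
      rw [mT, e, e']
      refine ⟨⟨a1, ?_, ?_⟩, ?_⟩
      · rw [B_add_left, a2, B_smul_left, f.B_self_of_Q hu]; simp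
      · rw [omA_Q_add, omA_Q_smul, omA_B_smul, a2, a3, hu]; simp
      · rw [smul_add, smul_smul]; exact add_mem a4 (smul_self_mem_Sb _)
    · rw [e, e']
      exact and_congr_right' ⟨fun ⟨s, h⟩ => ⟨s - t, by rw [h, sub_smul]; abel⟩,
        fun ⟨s, h⟩ => ⟨t + s, by rw [h, add_smul, add_assoc]⟩⟩
    · have : {p' : F × V | p'.1 = p.1 ∧ ∃ t : F, p'.2 = p.2 + t • u} =
          Set.range fun t : F => (p.1, p.2 + t • u) := by
        ext p'
        exact ⟨fun ⟨a, t, b⟩ => ⟨t, Prod.ext a.symm b.symm⟩, fun ⟨t, b⟩ => b ▸ ⟨rfl, t, rfl⟩⟩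
      rw [this, Set.ncard_range_of_injective fun s t h =>
        smul_left_injective F hu0 (add_left_cancel (congrArg Prod.snd h))]
  have c1 : Nat.Coprime (q - 1) q := (Nat.coprime_self_sub_left (by omega)).2 (by simp)
  have c2 : Nat.Coprime (x - 1) q := by
    have : Nat.Coprime (x - 1) x := (Nat.coprime_self_sub_left (by omega)).2 (by simp)
    exact this.coprime_dvd_right (hx ▸ dvd_pow_self q (by omega))
  have c3 : Nat.Coprime (x + 1) q := by
    have : Nat.Coprime (x + 1) x := by simp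
    exact this.coprime_dvd_right (hx ▸ dvd_pow_self q (by omega))
  have key : ∀ y, Nat.Coprime y q → {w | f.B w u = 0 ∧ f.Q w = c}.ncard = q * x * y →
      q * ((q - 1) * y) ≤ T.card := fun y hy e => by
    have c4 : Nat.Coprime ((q - 1) * y) q := Nat.Coprime.mul_left c1 hy
    refine Nat.le_of_dvd T0 (c4.symm.mul_dvd_of_dvd_of_dvd qT ?_)
    refine (c4.pow_right N).dvd_of_dvd_mul_left ?_
    rw [← hn, hd, cA, e]
    exact ⟨q * x * (Y.bipartiteBelow r (1, w0)).card, by ring⟩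
  have hlow : q * ((q - 1) * (x - 1)) ≤ T.card := by
    rcases hC c hc with e | e
    · exact le_trans (Nat.mul_le_mul_left _ (Nat.mul_le_mul_left _ (by omega))) (key _ c3 e)
    · exact key _ c2 e
  let E : Finset V := T.image fun p => p.1 • p.2
  let M : Finset V := univ.filter fun v => v ∈ Sb f u ω ∧ v ∉ F ∙ u
  have hE : T.card ≤ 2 * E.card := by
    refine card_le_mul_card_image T 2 fun v hv => ?_
    obtain ⟨p, hp, rfl⟩ := mem_image.1 hv
    obtain ⟨⟨a1, -, a3⟩, -⟩ := (mT p).1 hp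
    refine le_trans (card_le_card (t := {p, (-p.1, -p.2)}) fun z hz => ?_) card_le_two
    obtain ⟨hz, e⟩ := mem_filter.1 hz
    obtain ⟨⟨b1, -, b3⟩, -⟩ := (mT z).1 hz
    have e1 := congrArg f.Q e
    rw [omA_Q_smul, omA_Q_smul, a3, b3] at e1
    rw [mem_insert, mem_singleton]
    rcases mul_self_eq_mul_self_iff.1 (mul_right_cancel₀ hc e1) with h | h
    · rw [h] at e
      exact Or.inl (Prod.ext h (smul_right_injective V a1 e))
    · rw [h, neg_smul, ← smul_neg] at e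
      refine Or.inr (Prod.ext h ?_)
      have := smul_right_injective V a1 e
      simp only at this ⊢
      rw [← this, neg_neg]
  have EM : E ⊆ M := fun v hv => by
    obtain ⟨p, hp, rfl⟩ := mem_image.1 hv
    obtain ⟨⟨a1, -, a3⟩, a4⟩ := (mT p).1 hp
    refine mem_filter.2 ⟨mem_univ _, a4, fun h => hc ?_⟩
    rw [← a3]; exact hQu _ ((Submodule.smul_mem_iff _ a1).1 h)
  let L : Finset V := univ.image fun s : F => s • u
  have cL : L.card = q := by
    rw [card_image_of_injective _ (smul_left_injective F hu0), card_univ, ← Nat.card_eq_fintype_card]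
  have mL : ∀ v, v ∈ L ↔ v ∈ F ∙ u := fun v => by simp [L, Submodule.mem_span_singleton]
  let B : Finset V := univ.filter fun v => v ∈ Sb f u ω
  have cB : B.card = Nat.card (Sb f u ω) := by
    rw [Nat.card_eq_fintype_card, Fintype.card_subtype]
  have cM : M.card + q = Nat.card (Sb f u ω) := by
    rw [← cL, ← cB, ← card_union_of_disjoint (disjoint_left.2 fun v a b => (mem_filter.1 a).2.2 ((mL v).1 b))]
    congr 1
    ext v
    simp only [mem_union, M, B, mem_filter, mem_univ, true_and, mL]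
    refine ⟨fun h => h.elim And.left fun h => ?_, fun h => by tauto⟩
    obtain ⟨s, rfl⟩ := Submodule.mem_span_singleton.1 h
    exact smul_self_mem_Sb s
  obtain ⟨q3, k1, k2⟩ := omA_num hq3 (by omega) hlow hE (card_le_card EM) cM hle
  have hEM : E = M := eq_of_subset_of_card_le EM k1
  have hQ : ∀ v ∈ Sb f u ω, v ∉ F ∙ u → f.Q v = c := fun v a b => by
    have : v ∈ E := hEM ▸ mem_filter.2 ⟨mem_univ _, a, b⟩
    obtain ⟨p, hp, rfl⟩ := mem_image.1 this
    obtain ⟨⟨a1, -, a3⟩, -⟩ := (mT p).1 hp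
    have := FiniteField.pow_card_sub_one_eq_one p.1 a1
    rw [← Nat.card_eq_fintype_card, ← hq, q3] at this
    rw [omA_Q_smul, a3, ← sq, this, one_mul]
  obtain ⟨z, z1, z2⟩ : ∃ z ∈ B, z ∉ L ∪ (L.image (· - w0) ∪ L.image (· + w0)) := by
    refine exists_mem_notMem_of_card_lt_card ?_
    have a1 := card_union_le L (L.image (· - w0) ∪ L.image (· + w0))
    have a2 := card_union_le (L.image (· - w0)) (L.image (· + w0))
    have a3 := card_image_le (s := L) (f := (· - w0))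
    have a4 := card_image_le (s := L) (f := (· + w0))
    omega
  have z0 : z ∈ Sb f u ω := (mem_filter.1 z1).2
  simp only [mem_union, not_or, mem_image, not_exists, not_and, mL] at z2
  have b1 := hQ z z0 z2.1
  have b2 := hQ _ (add_mem z0 hw0) fun h => z2.2.1 _ h (by simp)
  have b3 := hQ _ (add_mem z0 (neg_mem hw0)) fun h => z2.2.2 _ h (by simp)
  rw [omA_Q_add, b1] at b2
  rw [omA_Q_add, b1, ← neg_one_smul F w0, omA_Q_smul, omA_B_smul] at b3
  refine hc (mul_left_cancel₀ h2 ?_)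
  linear_combination b2 + b3

end Cfsg.Agent.T2
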