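import Mathlib

/-!
Numerical part of the doubly transitive actions of the even-dimensional orthogonal groups
with a transitive point stabiliser.
-/

set_option autoImplicit false

namespace Cfsg.Agent.T2.OmE

theorem not_dvd_small {a b : ℤ} (h : a ∣ b) (h0 : 0 < b) (h1 : b < a) : False :=
  (Int.le_of_dvd h0 h).not_gt h1

theorem eq_of_dvd_sub {r a b : ℤ} (h : r ∣ a - b) (a0 : 0 ≤ a) (b0 : 0 ≤ b) (a1 : a < r) (b1 : b < r) :
    a = b :=
  sub_eq_zero.1 (Int.eq_zero_of_abs_lt_dvd h (abs_lt.2 ⟨by linarith, by linarith⟩))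

variable {q x y r S μ l v s t g a b ε : ℤ}

/-- The regular case. -/
theorem caseS (q2 : 2 ≤ q) (hy : q ^ 2 ≤ y) (hx : x = q * y) (hε : ε = 1 ∨ ε = -1) (μ0 : 0 ≤ μ)
    (l0 : 0 ≤ l) (hv : v * (q - 1) = (q * x - ε) * (x + ε))
    (hl : (μ * x ^ 2 - 1) * l = v * (x ^ 2 - 1)) (hB : x * v ≤ (x + 1) * (μ * x ^ 2))
    (hc : (μ * x ^ 2 - 1) ∣ v * (q - 1) * q * ((x - ε) * (y + ε))) : False := by
  have y4 : 2 * q ≤ y := by nlinarith
  have x1 : 2 * q ^ 2 ≤ x := by nlinarith
  have x2 : 4 * q ≤ x := by nlinarith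
  have x0 : 0 < x := by linarith
  have q1 : 0 < q - 1 := by linarith
  have hv' : v * (q - 1) = q * x ^ 2 + ε * (q - 1) * x - 1 := by
    rcases hε with rfl | rfl <;> linear_combination hv
  have e0 : x * (x + 1) < v := by
    refine lt_of_mul_lt_mul_right (a := q - 1) ?_ q1.le
    rcases hε with rfl | rfl <;> nlinarith
  have μ2 : 2 ≤ μ := by
    by_contra hc
    have : (x + 1) * (μ * x ^ 2) ≤ (x + 1) * (1 * x ^ 2) := by gcongr; omega
    nlinarith
  obtain ⟨i, hi⟩ : x ^ 2 ∣ v - l := ⟨v - μ * l, by linear_combination hl⟩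
  have e1 : (μ - 1) * v = i * (μ * x ^ 2 - 1) :=
    mul_left_cancel₀ (show x ^ 2 ≠ 0 by positivity) (by linear_combination hl + (μ * x ^ 2 - 1) * hi)
  have n0 : 0 < μ * x ^ 2 - 1 := by nlinarith
  have i1 : 0 < i := by
    have : 0 < (μ - 1) * v := mul_pos (by linarith) (by nlinarith)
    rw [e1] at this
    exact (mul_pos_iff_of_pos_right n0).1 this
  have i2 : x ^ 2 * i * (q - 1) ≤ v * (q - 1) := by gcongr; linarith
  rcases (show i = 1 ∨ 2 ≤ i by omega) with rfl | i3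
  · have e2 : (μ - q) * (x ^ 2 - 1) = -ε * (μ - 1) * (q - 1) * x := by
      linear_combination (q - 1) * e1 - (μ - 1) * hv'
    obtain ⟨c, hc⟩ : x ∣ μ - q :=
      ⟨(μ - q) * x + ε * (μ - 1) * (q - 1), by linear_combination -e2⟩
    have e3 : c * (x ^ 2 - 1) = -ε * (x * c + q - 1) * (q - 1) :=
      mul_left_cancel₀ x0.ne' (by
        rw [show μ = x * c + q by linarith] at e2
        linear_combination e2)
    have c0 : 0 ≤ c := by
      by_contra h
      have : x * c ≤ x * (-1) := by gcongr; omega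
      linarith
    have e4 : 0 < (q - 1) ^ 2 := by positivity
    rcases hε with rfl | rfl
    · have : 0 ≤ c * (x ^ 2 - 1 + x * (q - 1)) := mul_nonneg c0 (by nlinarith)
      nlinarith
    · rcases c0.eq_or_lt with rfl | c1
      · nlinarith
      · have : 1 * (x ^ 2 - 1 - x * (q - 1)) ≤ c * (x ^ 2 - 1 - x * (q - 1)) :=
          mul_le_mul_of_nonneg_right (by omega) (by nlinarith)
        nlinarith
  · have i4 : x ^ 2 * 2 * (q - 1) ≤ x ^ 2 * i * (q - 1) := by gcongr
    obtain rfl : q = 2 := by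
      by_contra h
      have q3 : 3 ≤ q := by omega
      have : 0 ≤ (q - 3) * x * (x - 1) := by
        have : 0 ≤ q - 3 := by linarith
        have : 0 ≤ x - 1 := by linarith
        positivity
      rcases hε with rfl | rfl <;> nlinarith
    obtain rfl : ε = 1 := by
      rcases hε with rfl | rfl
      · rfl
      · nlinarith
    obtain rfl : i = 2 := by
      by_contra h
      have : x ^ 2 * 3 ≤ x ^ 2 * i := by gcongr; omega
      nlinarith
    obtain rfl : v = (2 * x - 1) * (x + 1) := by linear_combination hv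
    obtain rfl : μ = 2 * x + 3 :=
      mul_right_cancel₀ (show x - 1 ≠ 0 by omega) (by linear_combination e1)
    rw [show (2 * x + 3) * x ^ 2 - 1 = (2 * x - 1) * (x + 1) * (x + 1) by ring,
      show (2 * x - 1) * (x + 1) * (2 - 1) * 2 * ((x - 1) * (y + 1)) =
        (2 * x - 1) * (x + 1) * ((x + 1) * x - 2) by rw [hx]; ring,
      mul_dvd_mul_iff_left (mul_ne_zero (by omega) (by omega)),
      dvd_sub_right (dvd_mul_right _ _)] at hc
    exact not_dvd_small hc (by norm_num) (by omega)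

/-- Large orbits. -/
theorem caseC (q2 : 2 ≤ q) (hy : q ^ 2 ≤ y) (hx : x = q * y) (hε : ε = 1 ∨ ε = -1) (μ1 : 1 ≤ μ)
    (l0 : 0 ≤ l) (hr : r = x * b) (hb : 2 * q ≤ b) (hS : r * S = x ^ 2) (S2 : 2 ≤ S)
    (hv : v * (q - 1) = (q * x - ε) * (x + ε)) (hl : (μ * r - 1) * l = v * (r - 1))
    (hm : (x - 1) * (y - 1) ≤ μ * (S - 1)) : False := by
  have y4 : 2 * q ≤ y := by nlinarith
  have x2 : 2 * y ≤ x := by nlinarith
  have x0 : 0 < x := by linarith
  have q1 : 0 < q - 1 := by linarith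
  have r1 : x * (2 * q) ≤ r := by rw [hr]; gcongr
  have r2 : 2 ≤ r := by nlinarith
  have hv' : v * (q - 1) = q * x ^ 2 + ε * (q - 1) * x - 1 := by
    rcases hε with rfl | rfl <;> linear_combination hv
  have v0 : 0 < v := by
    refine (mul_pos_iff_of_pos_right q1).1 ?_
    rcases hε with rfl | rfl <;> nlinarith
  obtain ⟨a, ha⟩ : r ∣ (q - 1) * l + 1 - ε * (q - 1) * x :=
    ⟨(q - 1) * (μ * l - v) + q * S, by linear_combination -(q - 1) * hl + hv' - q * hS⟩
  have e1 : l ≤ v := by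
    refine le_of_mul_le_mul_right (a := r - 1) ?_ (by linarith)
    have : (1 * r - 1) * l ≤ (μ * r - 1) * l := by gcongr
    linarith
  have e2 : μ * l ≤ v := le_of_mul_le_mul_right (a := r) (by linarith) (by linarith)
  rcases lt_or_ge 0 a with a1 | a1
  · have e3 : r * 1 ≤ r * a := by gcongr; omega
    have e4 : r ≤ 2 * ((q - 1) * l) := by rcases hε with rfl | rfl <;> nlinarith
    have e5 : l * ((x - 1) * (y - 1)) ≤ v * (S - 1) :=
      calc l * ((x - 1) * (y - 1)) ≤ l * (μ * (S - 1)) := by gcongr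
        _ = μ * l * (S - 1) := by ring
        _ ≤ _ := by gcongr; linarith
    have m0 : 0 ≤ (x - 1) * (y - 1) := mul_nonneg (by linarith) (by linarith)
    have e6 : x ^ 2 * (4 * q ^ 2 * ((x - 1) * (y - 1))) ≤ x ^ 2 * (2 * (v * (q - 1))) :=
      calc x ^ 2 * (4 * q ^ 2 * ((x - 1) * (y - 1)))
          = (x * (2 * q)) * (x * (2 * q)) * ((x - 1) * (y - 1)) := by ring
        _ ≤ r * (2 * ((q - 1) * l)) * ((x - 1) * (y - 1)) :=
          mul_le_mul_of_nonneg_right (mul_le_mul r1 (r1.trans e4) (by positivity) (by linarith)) m0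
        _ = 2 * (q - 1) * r * (l * ((x - 1) * (y - 1))) := by ring
        _ ≤ 2 * (q - 1) * r * (v * S) :=
          mul_le_mul_of_nonneg_left (by linarith) (mul_nonneg (by linarith) (by linarith))
        _ = _ := by rw [← hS]; ring
    have e7 := le_of_mul_le_mul_left e6 (by positivity)
    have e8 : v * (q - 1) < q ^ 2 * (x * y + y) := by
      rw [hv']
      rcases hε with rfl | rfl <;> nlinarith
    have e9 : x * y + y ≤ 2 * ((x - 1) * (y - 1)) := by nlinarith
    have : q ^ 2 * (x * y + y) ≤ q ^ 2 * (2 * ((x - 1) * (y - 1))) := by gcongr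
    linarith
  · have e3 : 0 ≤ (q - 1) * l := by positivity
    obtain rfl : a = 0 := by
      by_contra h
      have : r * a ≤ r * (-1) := by gcongr; omega
      rcases hε with rfl | rfl <;> nlinarith
    obtain rfl : q = 2 := by
      have : q - 1 ∣ 1 := ⟨ε * x - l, by linear_combination ha⟩
      have := Int.le_of_dvd one_pos this
      omega
    obtain rfl : ε = 1 := by
      rcases hε with rfl | rfl
      · rfl
      · linarith
    obtain rfl : l = x - 1 := by linarith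
    obtain rfl : v = (2 * x - 1) * (x + 1) := by linear_combination hv
    have e4 : x - 1 ∣ 2 * (b - 1) :=
      ⟨μ * r - 1 - (2 * x + 3) * (r - 1) - 2 * b, by rw [hr] at hl ⊢; linear_combination -hl⟩
    have e5 : x - 1 ∣ b - 1 :=
      (show IsCoprime (x - 1) 2 from ⟨-1, y, by rw [hx]; ring⟩).dvd_of_dvd_mul_left e4
    have e6 : b * S = x := mul_left_cancel₀ x0.ne' (by rw [hr] at hS; linear_combination hS)
    exact not_dvd_small e5 (by omega) (by nlinarith)

/-- `l ≥ r`. -/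
theorem caseG (q2 : 2 ≤ q) (hy : q ^ 2 ≤ y) (hx : x = q * y) (hε : ε = 1 ∨ ε = -1) (μ1 : 1 ≤ μ)
    (r1 : 1 ≤ r) (r2 : r ≤ q * x) (hv : v * (q - 1) = (q * x - ε) * (x + ε))
    (hl : (μ * r - 1) * l = v * (r - 1)) (lr : r ≤ l) (hB : v ≤ μ * r) : False := by
  have y4 : 2 * q ≤ y := by nlinarith
  have x2 : 2 * y ≤ x := by nlinarith
  have q1 : 0 < q - 1 := by linarith
  have n1 : 1 * r ≤ μ * r := by gcongr
  have e1 : (μ * r - 1) * r ≤ (μ * r - 1) * l := by gcongr; linarith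
  have e2 : v * (r - 1) ≤ μ * r * (r - 1) := by gcongr
  have e3 : v * (q - 1) ≤ q * x * (q - 1) := by gcongr; linarith
  have e4 : 0 ≤ q * x * (x - 2 * q) := by
    have : 0 ≤ x - 2 * q := by linarith
    have : 0 ≤ x := by linarith
    positivity
  rcases hε with rfl | rfl <;> nlinarith

theorem caseG' (q2 : 2 ≤ q) (q3 : q ≤ 3) (hy : q ^ 2 ≤ y) (hx : x = q * y) (μ1 : 1 ≤ μ)
    (hr : r = x * b) (r1 : 1 ≤ r) (r2 : r ≤ q * x) (hv : v * (q - 1) = (q * x - 1) * (x + 1))
    (hg : g * (q - 1) = x - 1) (hd : x ∣ l - g) (hl : (μ * r - 1) * l = v * (r - 1)) (lr : r ≤ l)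
    (hB : x * v ≤ (x + 1) * (μ * r)) : False := by
  have y4 : 2 * q ≤ y := by nlinarith
  have x2 : 2 * y ≤ x := by nlinarith
  have g1 : y + 1 ≤ g ∧ g < x := by
    rcases (show q = 2 ∨ q = 3 by omega) with rfl | rfl <;> omega
  have x0 : 0 < x := by linarith
  obtain ⟨c, hc⟩ := hd
  have c1 : b ≤ c := by
    by_contra h
    have : x * c ≤ x * (b - 1) := by gcongr; omega
    linarith
  have c2 : x * b ≤ x * c := by gcongr
  have n1 : 1 * r ≤ μ * r := by gcongr
  have e1 : (μ * r - 1) * (r + g) ≤ (μ * r - 1) * l := by gcongr <;> linarith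
  have e2 : x * v * (r - 1) ≤ (x + 1) * (μ * r) * (r - 1) := by gcongr
  have e3 : x * ((μ * r - 1) * (r + g)) ≤ x * (v * (r - 1)) :=
    mul_le_mul_of_nonneg_left (by linarith) x0.le
  have e4 : μ * r * (g * x + x - r + 1) ≤ (r + g) * x := by linarith
  have e5 : x * (x + 1) ≤ v := by
    rcases (show q = 2 ∨ q = 3 by omega) with rfl | rfl <;> nlinarith
  have e6 : x * x ≤ μ * r := by
    refine le_of_mul_le_mul_left (a := x + 1) ?_ (by linarith)
    have : x * (x * (x + 1)) ≤ x * v := by gcongr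
    linarith
  have e7 : 3 * x ≤ g * x + x - r + 1 := by nlinarith
  have e8 : x * x * (3 * x) ≤ μ * r * (g * x + x - r + 1) := by gcongr
  have e9 : (r + g) * x ≤ 4 * x * x := by gcongr; nlinarith
  nlinarith

/-- `l = g`, `ε = -1`, `r ∣ x`. -/
theorem caseAm (q2 : 2 ≤ q) (hy : q ^ 2 ≤ y) (hx : x = q * y) (ha : x = r * a) (a1 : 1 ≤ a)
    (a2 : 2 * a ≤ q) (hS : r * S = x ^ 2) (hn : μ * r - 1 = (q * x + 1) * (r - 1))
    (hd : x + 1 ∣ μ * (S - 1)) : False := by
  have x1 : q ^ 3 ≤ x := by nlinarith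
  have q0 : 0 < q ^ 3 := by positivity
  have r0 : r ≠ 0 := by rintro rfl; linarith
  obtain rfl : μ = q * x - q * a + 1 := mul_right_cancel₀ r0 (by linear_combination hn - q * ha)
  obtain rfl : S = a * x := mul_left_cancel₀ r0 (by linear_combination hS + x * ha)
  rw [show (q * x - q * a + 1) * (a * x - 1) = (x + 1) * (q * (a * x - 1) + (1 - q - q * a) * a) +
    (q + q * a - 1) * (a + 1) by ring, dvd_add_right (dvd_mul_right _ _)] at hd
  refine not_dvd_small hd (mul_pos (by nlinarith) (by linarith)) ?_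
  have e1 : (a + 1) * (a + 1) ≤ q * q := by gcongr <;> linarith
  nlinarith

/-- `l = g`, `ε = -1`, `x ∣ r`. -/
theorem caseBm (q2 : 2 ≤ q) (hy : q ^ 2 ≤ y) (hx : x = q * y) (ha : q * x = r * a) (a1 : 1 ≤ a)
    (a2 : 2 * a ≤ q) (hS : r * S = x ^ 2) (hn : μ * r - 1 = (q * x + 1) * (r - 1))
    (hd : x + 1 ∣ μ * (S - 1)) : False := by
  have x1 : q ^ 3 ≤ x := by nlinarith
  have q0 : 0 < q ^ 3 := by positivity
  have r0 : r ≠ 0 := by rintro rfl; nlinarith
  obtain rfl : μ = q * x - a + 1 := mul_right_cancel₀ r0 (by linear_combination hn - ha)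
  have e0 : q * S = a * x := mul_left_cancel₀ r0 (by linear_combination q * hS + x * ha)
  have := hd.mul_left q
  rw [show q * ((q * x - a + 1) * (S - 1)) = (x + 1) * (q * (a * x - q) + (1 - q - a) * a) +
    (q + a - 1) * (q + a) by linear_combination (q * x - a + 1) * e0,
    dvd_add_right (dvd_mul_right _ _)] at this
  refine not_dvd_small this (mul_pos (by linarith) (by linarith)) ?_
  rcases q2.eq_or_lt with rfl | q3
  · obtain rfl : a = 1 := by omega
    linarith
  · have e1 : (2 * (q + a - 1)) * (2 * (q + a)) ≤ (3 * q) * (3 * q) :=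
      mul_le_mul (by linarith) (by linarith) (by linarith) (by linarith)
    have e2 : 3 * q ^ 2 ≤ q * q ^ 2 := by gcongr; omega
    nlinarith

/-- `l = g`, `ε = 1`, `r ∣ x`. -/
theorem caseAp (q2 : 2 ≤ q) (hy : q ^ 2 ≤ y) (hx : x = q * y) (cy : ∀ z, IsCoprime z q → IsCoprime y z)
    (r1 : 2 * y ≤ r) (r2 : r ≤ x) (ha : r ∣ x) (hS : r * S = x ^ 2)
    (hn : (μ * r - 1) * (x - 1) = (q * x - 1) * (x + 1) * (r - 1)) (s0 : 0 ≤ s) (t0 : 0 ≤ t)
    (hst : s + t + 1 = S) (hs : (x - 1) * (y + 1) ∣ μ * s) (ht : y * (x - 1) ∣ μ * t) : False := by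
  have y4 : 2 * q ≤ y := by nlinarith
  have x2 : 2 * y ≤ x := by nlinarith
  have x1 : q ^ 3 ≤ x := by nlinarith
  obtain ⟨c, hc⟩ : x - 1 ∣ 2 * (q - 1) * (r - 1) :=
    ⟨μ * r - 1 - (q * x + 2 * q - 1) * (r - 1), by linear_combination -hn⟩
  obtain ⟨a, ha⟩ := ha
  have c0 : 0 ≤ c := by
    have : 0 ≤ 2 * (q - 1) * (r - 1) := mul_nonneg (by linarith) (by linarith)
    rw [hc] at this
    exact le_of_mul_le_mul_left (a := x - 1) (by linarith) (by linarith)
  have c1 : c ≤ 2 * (q - 1) := by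
    refine le_of_mul_le_mul_left (a := x - 1) ?_ (by linarith)
    have : 2 * (q - 1) * (r - 1) ≤ 2 * (q - 1) * (x - 1) := by gcongr; linarith
    linarith
  obtain rfl : c = 2 * (q - 1) := eq_of_dvd_sub (r := r)
    ⟨a * c - 2 * (q - 1), by rw [ha] at hc; linear_combination hc⟩ c0 (by linarith) (by linarith) (by linarith)
  obtain rfl : r = x := by
    have := mul_left_cancel₀ (show 2 * (q - 1) ≠ 0 by omega) (hc.trans (mul_comm _ _))
    linarith
  have r0 : r ≠ 0 := by omega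
  obtain rfl : μ = q * r + q - 1 := mul_right_cancel₀ (mul_ne_zero r0 (show r - 1 ≠ 0 by omega))
    (by linear_combination hn)
  obtain rfl : S = r := mul_left_cancel₀ r0 (by linear_combination hS)
  obtain ⟨t', rfl⟩ : y ∣ t :=
    (cy _ ⟨-1, S + 1, by ring⟩).dvd_of_dvd_mul_left ((dvd_mul_right _ _).trans ht)
  have y0 : 0 < y := by linarith
  have t1 : 0 ≤ t' := le_of_mul_le_mul_left (a := y) (by linarith) y0
  have t2 : t' < q := lt_of_mul_lt_mul_left (a := y) (by linarith) y0.le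
  rw [show (q * S + q - 1) * (y * t') = y * ((S - 1) * (q * t') + (2 * q - 1) * t') by ring,
    mul_dvd_mul_iff_left y0.ne', dvd_add_right (dvd_mul_right _ _)] at ht
  rcases t1.eq_or_lt with rfl | t1
  · obtain rfl : s = S - 1 := by linarith
    rw [mul_comm _ (S - 1), mul_dvd_mul_iff_left (by omega), show q * S + q - 1 =
      (y + 1) * q ^ 2 - (q ^ 2 - q + 1) by rw [hx]; ring, dvd_sub_right (dvd_mul_right _ _)] at hs
    exact not_dvd_small hs (by nlinarith) (by linarith)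
  · refine not_dvd_small ht (mul_pos (by linarith) t1) ?_
    have e1 : (2 * q - 1) * t' ≤ (2 * q - 1) * (q - 1) := by gcongr <;> linarith
    have e2 : 2 * q ^ 2 ≤ q * q ^ 2 := by gcongr
    nlinarith

/-- `l = g + 2 x`, `ε = 1`, `x ∣ r`. -/
theorem caseBp (hy : q ^ 2 ≤ y) (hx : x = q * y) (b1 : 3 ≤ b) (b2 : b ≤ q)
    (hd : (2 * q - 1) * x - 1 ∣ (q * x - 1) * (x + 1) * (x * b - 1)) : False := by
  have x1 : q ^ 3 ≤ x := by nlinarith
  have h1 : ∀ c d : ℤ, (2 * q - 1) * (c * x + d) ≡ c + (2 * q - 1) * d [ZMOD (2 * q - 1) * x - 1] :=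
    fun c d => (Int.modEq_iff_dvd.2 ⟨-c, by ring⟩)
  have h2 := ((h1 q (-1)).mul (h1 1 1)).mul (h1 b (-1))
  have h3 := (hd.mul_left ((2 * q - 1) ^ 3)).modEq_zero_int
  have h4 : (2 * q - 1) * x - 1 ∣ 2 * q * (q - 1) * (2 * q - 1 - b) := by
    refine Int.modEq_zero_iff_dvd.1 (Int.ModEq.trans ?_ h3)
    convert h2.symm using 1 <;> ring
  refine not_dvd_small h4 (mul_pos (mul_pos (by linarith) (by linarith)) (by linarith)) ?_
  have e1 : 2 * q * (q - 1) * (2 * q - 1 - b) ≤ 2 * q * q * (2 * q) :=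
    mul_le_mul (mul_le_mul_of_nonneg_left (by linarith) (by linarith)) (by linarith) (by linarith)
      (mul_nonneg (by linarith) (by linarith))
  have e2 : 5 * q ^ 3 ≤ (2 * q - 1) * x :=
    mul_le_mul (by linarith) x1 (pow_nonneg (by linarith) _) (by linarith)
  have e3 : 3 ^ 3 ≤ q ^ 3 := by gcongr; linarith
  nlinarith

theorem pow_dvd_of_le {p i j : ℕ} (hp : 2 ≤ p) (h : (p : ℤ) ^ i ≤ p ^ j) : (p : ℤ) ^ i ∣ p ^ j :=
  pow_dvd_pow _ ((pow_le_pow_iff_right₀ (by exact_mod_cast hp)).1 h)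

theorem core1 (q2 : 2 ≤ q) (hy : q ^ 2 ≤ y) (hx : x = q * y)
    (hε : ε = 1 ∨ ε = -1) (r2 : 2 ≤ r) (hS : r * S = x ^ 2) (l0 : 0 ≤ l) (s0 : 0 ≤ s) (t0 : 0 ≤ t)
    (hv : v * (q - 1) = (q * x - ε) * (x + ε)) (hl : (μ * r - 1) * l = v * (r - 1))
    (hst : s + t + 1 = S) (hs : (x - ε) * (y + ε) ∣ μ * s) (ht : y * (x - ε) ∣ μ * t)
    (cy : ∀ z, IsCoprime z q → IsCoprime y z) (hg : g * (q - 1) = x - 1)
    (d1 : r ≤ x → r ∣ x) (d2 : x ≤ r → x ∣ r) (hd : x - ε ∣ μ * (S - 1)) (ha : q * x = r * a)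
    (y2 : 2 * y ≤ r) (hL : r ∣ l - (g + x + ε * x)) (g0 : 0 ≤ g) (g1 : g < 2 * y) (lr : l < r) : False := by
  have y4 : 2 * q ≤ y := by nlinarith
  have x2 : 2 * y ≤ x := by nlinarith
  have x0 : 0 < x := by linarith
  have y0 : 0 < y := by linarith
  have hn : l = g → (μ * r - 1) * (x - 1) = (q * x - ε) * (x + ε) * (r - 1) := by
    rintro rfl
    linear_combination (q - 1) * hl + (r - 1) * hv - (μ * r - 1) * hg
  have hn' : l = g → ε = -1 → μ * r - 1 = (q * x + 1) * (r - 1) := fun e e' =>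
    mul_right_cancel₀ (show x - 1 ≠ 0 by omega) (by have := hn e; rw [e'] at this; linear_combination this)
  rcases le_or_gt r x with xr | xr
  · obtain ⟨c, hc⟩ := d1 xr
    have e : l = g := by
      refine eq_of_dvd_sub ?_ l0 g0 lr (by linarith)
      rw [show l - g = l - (g + x + ε * x) + (1 + ε) * x by ring]
      exact dvd_add hL (Dvd.dvd.mul_left ⟨c, hc⟩ (1 + ε))
    rcases hε with rfl | rfl
    · exact caseAp q2 hy hx cy y2 xr ⟨c, hc⟩ hS (hn e) s0 t0 hst hs ht
    · have c1 : 0 < c := (mul_pos_iff_of_pos_left (show 0 < r by linarith)).1 (hc ▸ x0)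
      refine caseAm q2 hy hx hc c1 (le_of_mul_le_mul_left (a := y) ?_ y0) hS (hn' e rfl) (by simpa using hd)
      have : 2 * y * c ≤ r * c := by gcongr
      linarith
  · obtain ⟨b, hb⟩ := d2 xr.le
    have b2 : 2 ≤ b := by
      by_contra h'
      have : x * b ≤ x * 1 := by gcongr; omega
      linarith
    have a1 : 0 < a := (mul_pos_iff_of_pos_left (show 0 < r by linarith)).1 (ha ▸ by positivity)
    have ab : q = b * a := mul_left_cancel₀ x0.ne' (by rw [hb] at ha; linear_combination ha)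
    rcases hε with rfl | rfl
    · rcases b2.eq_or_lt with rfl | b3
      · have e : l = g := by
          refine eq_of_dvd_sub ?_ l0 g0 lr (by linarith)
          rw [show l - g = l - (g + x + 1 * x) + r by linarith]
          exact dvd_add hL (dvd_refl r)
        have e1 : x - 1 ∣ 2 * (q - 1) := ⟨μ * r - 1 - (2 * q * x ^ 2 + (3 * q - 2) * x + 2 * q - 3), by
          have := hn e
          rw [hb] at this ⊢
          linear_combination -this⟩
        exact not_dvd_small e1 (by linarith) (by linarith)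
      · have e3 : x * 3 ≤ x * b := by gcongr; omega
        have e : l = g + x + 1 * x := eq_of_dvd_sub hL l0 (by linarith) lr (by linarith)
        refine caseBp hy hx (b := b) b3 (ab ▸ le_mul_of_one_le_right (by linarith) a1) ⟨μ * r - 1, ?_⟩
        rw [← hb]
        linear_combination -(q - 1) * hl - (r - 1) * hv + (μ * r - 1) * (hg + (q - 1) * e)
    · have e : l = g := eq_of_dvd_sub (by simpa using hL) l0 g0 lr (by linarith)
      exact caseBm q2 hy hx ha a1 (ab ▸ mul_le_mul_of_nonneg_right b2 a1.le) hS (hn' e rfl) (by simpa using hd)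

theorem core {p : ℤ} (p2 : 2 ≤ p) (hp : q = 3 → p = 3) (q2 : 2 ≤ q) (hy : q ^ 2 ≤ y) (hx : x = q * y)
    (hε : ε = 1 ∨ ε = -1) (r2 : 2 ≤ r) (hS : r * S = x ^ 2) (μ0 : 0 ≤ μ) (l0 : 0 ≤ l) (s0 : 0 ≤ s) (t0 : 0 ≤ t)
    (hv : v * (q - 1) = (q * x - ε) * (x + ε)) (hl : (μ * r - 1) * l = v * (r - 1))
    (hH : p * S ≤ q * x) (hst : s + t + 1 = S) (hs : (x - ε) * (y + ε) ∣ μ * s) (ht : y * (x - ε) ∣ μ * t)
    (hB : 4 ≤ q ∨ ε = -1 → v ≤ μ * r) (hB' : x * v ≤ (x + 1) * (μ * r))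
    (hc : (μ * r - 1) ∣ v * (q - 1) * q * ((x - ε) * (y + ε) - s))
    (cy : ∀ z, IsCoprime z q → IsCoprime y z) (cr : IsCoprime r (q - 1)) (hg : g * (q - 1) = x - 1)
    (d1 : r ≤ x → r ∣ x) (d2 : x ≤ r → x ∣ r) (d3 : r ≤ q * x → r ∣ q * x) (d4 : q * x ≤ r → q * x ∣ r) :
    False := by
  have y4 : 2 * q ≤ y := by nlinarith
  have x2 : 2 * y ≤ x := by nlinarith
  have x0 : 0 < x := by linarith
  have y0 : 0 < y := by linarith
  have q1 : 0 < q - 1 := by linarith
  have hv' : v * (q - 1) = q * x ^ 2 + ε * (q - 1) * x - 1 := by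
    rcases hε with rfl | rfl <;> linear_combination hv
  have v0 : 0 < v := by
    refine (mul_pos_iff_of_pos_right q1).1 ?_
    rcases hε with rfl | rfl <;> nlinarith
  have μ1 : 1 ≤ μ := by
    by_contra h
    obtain rfl : μ = 0 := by omega
    nlinarith
  rcases (show S = 1 ∨ 2 ≤ S by omega) with rfl | S2
  · obtain rfl : s = 0 := by omega
    obtain rfl : r = x ^ 2 := by linarith
    exact caseS q2 hy hx hε μ0 l0 hv hl hB' (by simpa using hc)
  have hd : x - ε ∣ μ * (S - 1) := by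
    rw [show S - 1 = s + t by linarith, mul_add]
    exact dvd_add ((dvd_mul_right _ _).trans hs) ((dvd_mul_left _ _).trans ht)
  rcases lt_or_ge (q * x) r with h | h
  · obtain ⟨c, hc⟩ := d4 h.le
    have c2 : 2 ≤ c := by
      by_contra h'
      have : q * x * c ≤ q * x * 1 := by gcongr; omega
      linarith
    refine caseC (b := q * c) q2 hy hx hε μ1 l0 (by rw [hc]; ring) (by nlinarith) hS S2 hv hl ?_
    have e1 : 0 ≤ μ * s := by positivity
    have e2 : 0 ≤ μ * t := by positivity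
    rw [show S - 1 = s + t by linarith, mul_add]
    rcases s0.eq_or_lt with rfl | s1
    · have := Int.le_of_dvd (mul_pos (by linarith) (by linarith)) ht
      rcases hε with rfl | rfl <;> nlinarith
    · have := Int.le_of_dvd (mul_pos (by linarith) s1) hs
      rcases hε with rfl | rfl <;> nlinarith
  obtain ⟨a, ha⟩ := d3 h
  have py : p * y ≤ r := by
    refine le_of_mul_le_mul_left (a := q * x) ?_ (by positivity)
    have : r * (p * S) ≤ r * (q * x) := by gcongr
    calc q * x * (p * y) = p * (r * S) := by rw [hS, hx]; ring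
      _ ≤ _ := by linarith
  have y2 : 2 * y ≤ r := le_trans (by gcongr) py
  have hL : r ∣ l - (g + x + ε * x) := by
    refine cr.dvd_of_dvd_mul_left ⟨(q - 1) * (μ * l - v) + q * S - a, ?_⟩
    linear_combination -(q - 1) * hl + hv' - q * hS - hg - ha
  have g0 : 0 ≤ g := le_of_mul_le_mul_right (a := q - 1) (by linarith) q1
  have g1 : g < 2 * y := lt_of_mul_lt_mul_right (a := q - 1) (by nlinarith) q1.le
  rcases le_or_gt r l with lr | lr
  · by_cases h4 : 4 ≤ q ∨ ε = -1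
    · exact caseG q2 hy hx hε μ1 (by linarith) h hv hl lr (hB h4)
    · obtain rfl : ε = 1 := by tauto
      have xr : x ≤ r := by
        rcases (show q = 2 ∨ q = 3 by omega) with rfl | rfl
        · linarith
        · rw [hp rfl] at py; linarith
      obtain ⟨b, hb⟩ := d2 xr
      refine caseG' q2 (by omega) hy hx μ1 hb (by linarith) h hv hg ?_ hl lr hB'
      rw [show l - g = l - (g + x + 1 * x) + 2 * x by ring]
      exact dvd_add (Dvd.dvd.trans ⟨b, hb⟩ hL) (dvd_mul_left x 2)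
  exact core1 q2 hy hx hε r2 hS l0 s0 t0 hv hl hst hs ht cy hg d1 d2 hd ha y2 hL g0 g1 lr

end Cfsg.Agent.T2.OmE

namespace Cfsg.Agent.T2

theorem om_num_even {p f e j q x y r S μ l v s t : ℕ} {ε : ℤ} (hp : p.Prime) (hf : 1 ≤ f)
    (hq : q = p ^ f) (hy : y = q ^ (j + 2)) (hx : x = q * y) (hε : ε = 1 ∨ ε = -1) (hr : r = p ^ e)
    (r2 : 2 ≤ r) (hS : r * S = x ^ 2) (hv : (v : ℤ) * (q - 1) = (q * x - ε) * (x + ε))
    (hl : ((μ : ℤ) * r - 1) * l = v * (r - 1)) (hH : p ^ 2 * S ^ 2 ≤ q ^ 2 * x ^ 2)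
    (hst : s + t + 1 = S) (hs : ((x : ℤ) - ε) * (y + ε) ∣ μ * s) (ht : (y : ℤ) * (x - ε) ∣ μ * t)
    (hB : 4 ≤ q ∨ ε = -1 → v ≤ μ * r) (hB' : x * v ≤ (x + 1) * (μ * r))
    (hc : ((μ : ℤ) * r - 1) ∣ v * (q - 1) * q * ((x - ε) * (y + ε) - s)) : False := by
  have pq : p ∣ q := hq ▸ dvd_pow_self p (by omega)
  have q2 : 2 ≤ q := hp.two_le.trans (Nat.le_of_dvd (hq ▸ pow_pos hp.pos _) pq)
  have hx' : (x : ℤ) = q ^ (j + 3) := by rw [hx, hy]; push_cast; ring
  have hx1 : (x : ℤ) = p ^ (f * (j + 3)) := by rw [hx', hq]; push_cast; ring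
  have hx2 : (q * x : ℤ) = p ^ (f * (j + 4)) := by rw [hx', hq]; push_cast; ring
  have hr' : (r : ℤ) = p ^ e := by exact_mod_cast hr
  obtain ⟨g, hg⟩ := sub_dvd_pow_sub_pow (q : ℤ) 1 (j + 3)
  obtain ⟨c, hc'⟩ := pq
  refine OmE.core (p := p) (g := g) (S := S) (by exact_mod_cast hp.two_le) (fun h => ?_) (by exact_mod_cast q2) ?_
    (by exact_mod_cast hx) hε (by exact_mod_cast r2) (by exact_mod_cast hS) (by positivity) (by positivity)
    (by positivity) (by positivity) hv hl ?_ (by exact_mod_cast hst) hs ht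
    (fun h => by exact_mod_cast hB (by exact_mod_cast h)) (by exact_mod_cast hB') hc (fun z hz => ?_) ?_
    (by rw [hx']; linear_combination -hg) ?_ ?_ ?_ ?_
  · have h3 : q = 3 := by exact_mod_cast h
    exact_mod_cast (Nat.prime_dvd_prime_iff_eq hp Nat.prime_three).1 ⟨c, h3 ▸ hc'⟩
  · rw [hy]; push_cast
    exact pow_le_pow_right₀ (by exact_mod_cast (by omega : 1 ≤ q)) (by omega)
  · rw [← mul_pow, ← mul_pow] at hH
    exact_mod_cast (Nat.pow_le_pow_iff_left two_ne_zero).1 hH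
  · rw [hy]; push_cast
    exact hz.symm.pow_left
  · rw [hr']
    exact IsCoprime.pow_left ⟨c, -1, by rw [hc']; push_cast; ring⟩
  · rw [hx1, hr']; exact OmE.pow_dvd_of_le hp.two_le
  · rw [hx1, hr']; exact OmE.pow_dvd_of_le hp.two_le
  · rw [hx2, hr']; exact OmE.pow_dvd_of_le hp.two_le
  · rw [hx2, hr']; exact OmE.pow_dvd_of_le hp.two_le

end Cfsg.Agent.T2
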