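import Mathlib

set_option autoImplicit false

namespace Cfsg.Agent.T2

theorem omo_L {Q A r : ℤ} (hA : 2 ≤ A) (hr : 2 ≤ r) (hAQ : 2 * A ≤ Q) (hrQ : 2 * r ≤ Q)
    (h : A * r ≤ Q ∨ Q ∣ A * r) : ¬ (Q - 1) ∣ (A - 1) * (r - 1) := by
  intro hd
  rcases h with h | ⟨b, hb⟩
  · have h1 : 0 < (A - 1) * (r - 1) := mul_pos (by omega) (by omega)
    have := Int.le_of_dvd h1 hd
    nlinarith
  · have hQ : 0 < Q := by omega
    have hb1 : 1 ≤ b := by
      by_contra hh
      have : Q * b ≤ 0 := mul_nonpos_of_nonneg_of_nonpos hQ.le (by omega)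
      nlinarith
    have hbA : b < A := by
      by_contra hh
      have : Q * A ≤ Q * b := mul_le_mul_of_nonneg_left (by omega) hQ.le
      nlinarith
    have h2 : (Q - 1) ∣ A + r - b - 1 := by
      have : A + r - b - 1 = (Q - 1) * b - (A - 1) * (r - 1) := by linear_combination hb
      rw [this]
      exact dvd_sub (dvd_mul_right _ _) hd
    have := Int.le_of_dvd (by omega) h2
    omega

theorem omo_qx {q x a μ s t : ℤ} (hq : 3 ≤ q) (hx : q ^ 2 ≤ x) (ha : 2 ≤ a) (haq : 3 * a ≤ q)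
    (hμ : μ = q * x + 1 - a) (hs0 : 0 ≤ s) (ht0 : 0 ≤ t) (hst : s + t + 1 = a * x)
    (hs : (x ^ 2 - 1) ∣ μ * s) (ht : x ∣ t) : False := by
  obtain ⟨t', rfl⟩ := ht
  have hx0 : 0 < x := by nlinarith
  have ht' : 0 ≤ t' := by
    by_contra hh
    have : x * t' < 0 := mul_neg_of_pos_of_neg hx0 (by omega)
    omega
  obtain ⟨i, hi⟩ : ∃ i, i = a - t' := ⟨_, rfl⟩
  have hsi : s = i * x - 1 := by rw [hi]; linear_combination hst
  have hi1 : 1 ≤ i := by
    by_contra hh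
    have : i * x ≤ 0 := mul_nonpos_of_nonpos_of_nonneg (by omega) hx0.le
    omega
  have hia : i ≤ a := by omega
  have hE : (x ^ 2 - 1) ∣ (q + i * (a - 1)) * x - q * i - a + 1 := by
    have : (q + i * (a - 1)) * x - q * i - a + 1 = (x ^ 2 - 1) * (q * i) - μ * s := by
      rw [hμ, hsi]; ring
    rw [this]
    exact dvd_sub (dvd_mul_right _ _) hs
  have hqx : 3 * q ≤ x := by nlinarith
  have h1 : i ≤ i * (a - 1) := by nlinarith
  have h2 : (q + i) * x ≤ (q + i * (a - 1)) * x := mul_le_mul_of_nonneg_right (by omega) hx0.le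
  have h3 : q * i ≤ i * x := by nlinarith
  have h4 : q ≤ q * x := by nlinarith
  have hpos : 0 < (q + i * (a - 1)) * x - q * i - a + 1 := by nlinarith
  have hle := Int.le_of_dvd hpos hE
  have h5 : i * (a - 1) ≤ a * a := by nlinarith
  have h6 : 9 * (a * a) ≤ q ^ 2 := by nlinarith
  have h7 : q + i * (a - 1) ≤ x - 1 := by nlinarith
  have h8 : (q + i * (a - 1)) * x ≤ (x - 1) * x := mul_le_mul_of_nonneg_right h7 hx0.le
  have h9 : 0 ≤ q * i := by positivity
  nlinarith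

theorem omo_x {q x a μ s t : ℤ} (hq : 3 ≤ q) (hx : x = q ^ 2) (ha : 2 ≤ a) (haq : 3 * a ≤ q)
    (hμ : μ = (x + 1) * (x - a) + 1) (hs0 : 0 ≤ s) (ht0 : 0 ≤ t) (hst : s + t + 1 = q * a * x)
    (hs : (x ^ 2 - 1) ∣ μ * s) (ht : x ∣ t) : False := by
  obtain ⟨t', rfl⟩ := ht
  have hx0 : 0 < x := by nlinarith
  have ht' : 0 ≤ t' := by
    by_contra hh
    have : x * t' < 0 := mul_neg_of_pos_of_neg hx0 (by omega)
    omega
  obtain ⟨i, hi⟩ : ∃ i, i = q * a - t' := ⟨_, rfl⟩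
  have hsi : s = i * x - 1 := by rw [hi]; linear_combination hst
  have hi1 : 1 ≤ i := by
    by_contra hh
    have : i * x ≤ 0 := mul_nonpos_of_nonpos_of_nonneg (by omega) hx0.le
    omega
  have hia : i ≤ q * a := by omega
  have h1 : (x + 1) ∣ μ * s := (Dvd.intro (x - 1) (by ring)).trans hs
  have hE : (x + 1) ∣ i + 1 := by
    have : i + 1 = (x + 1) * ((x - a) * s + i) - μ * s := by
      rw [hμ, hsi]; ring
    rw [this]
    exact dvd_sub (dvd_mul_right _ _) h1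
  have hle := Int.le_of_dvd (by omega) hE
  nlinarith

theorem omo_big {q x r μ l v k : ℤ} (hq : q = 3 ∨ 5 ≤ q) (hx : 2 ≤ x) (r2 : 2 ≤ r) (hμ : 0 ≤ μ)
    (hv : v * (q - 1) = q ^ 2 * x ^ 2 - 1) (hl : (μ * r - 1) * l = v * (r - 1))
    (hk : (q - 1) * l + 1 = r * k) (hlr : r < l)
    (hB : 5 ≤ q → v ≤ μ * r) (hB' : q = 3 → 3 * x * (3 * x - 1) ≤ 2 * (μ * r)) : False := by
  rcases hq with rfl | hq
  · have hB := hB' rfl
    have hk3 : 3 ≤ k := by
      by_contra hh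
      have : r * k ≤ r * 2 := mul_le_mul_of_nonneg_left (by omega) (by omega)
      omega
    have h1 : r * 3 ≤ r * k := mul_le_mul_of_nonneg_left hk3 (by omega)
    obtain ⟨n, hn⟩ : ∃ n, n = μ * r := ⟨_, rfl⟩
    rw [← hn] at hl hB
    have hn1 : 3 * x ^ 2 ≤ n - 1 := by nlinarith
    have h2 : (n - 1) * (3 * r - 1) ≤ (n - 1) * (2 * l) :=
      mul_le_mul_of_nonneg_left (by omega) (by nlinarith)
    have h3 : (n - 1) * (2 * l) = (9 * x ^ 2 - 1) * (r - 1) := by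
      linear_combination 2 * hl + (r - 1) * hv
    have h4 : 3 * x ^ 2 * (3 * r - 1) ≤ (n - 1) * (3 * r - 1) :=
      mul_le_mul_of_nonneg_right hn1 (by omega)
    nlinarith
  · have hB := hB hq
    have hv1 : 1 ≤ v := by
      by_contra hh
      have : v * (q - 1) ≤ 0 := mul_nonpos_of_nonpos_of_nonneg (by omega) (by omega)
      have : 1 < q ^ 2 * x ^ 2 := by nlinarith [mul_pos (by nlinarith : 0 < q ^ 2 - 1) (by nlinarith : 0 < x ^ 2 - 1)]
      omega
    have hμ1 : 1 ≤ μ := by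
      by_contra hh
      have : μ = 0 := by omega
      subst this
      omega
    have hrn : r ≤ μ * r := by nlinarith
    obtain ⟨n, hn⟩ : ∃ n, n = μ * r := ⟨_, rfl⟩
    rw [← hn] at hl hB hrn
    have h2 : (n - 1) * (r + 1) ≤ (n - 1) * l := mul_le_mul_of_nonneg_left (by omega) (by omega)
    have h3 : v * (r - 1) ≤ n * (r - 1) := mul_le_mul_of_nonneg_right hB (by omega)
    nlinarith

theorem omo_ceil {f : ℕ} (e : ℕ) (hf : 1 ≤ f) : ∃ i α, e + α = f * i ∧ α < f := by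
  have h1 := Nat.div_add_mod (e + f - 1) f
  have h2 := Nat.mod_lt (e + f - 1) (show 0 < f by omega)
  refine ⟨(e + f - 1) / f, f - 1 - (e + f - 1) % f, ?_, by omega⟩
  generalize f * ((e + f - 1) / f) = z at *
  omega

theorem omo_cop {p : ℤ} {n : ℕ} {μ c : ℤ} (h : μ = p * c + 1) : IsCoprime (p ^ n) μ := by
  apply IsCoprime.pow_left
  exact ⟨-c, 1, by rw [h]; ring⟩

theorem om_num_odd {p f e j q x r S μ l v s t : ℕ} (hp : p.Prime) (p2 : p ≠ 2) (hf : 1 ≤ f)
    (hq : q = p ^ f) (hx : x = q ^ (j + 2)) (hr : r = p ^ e)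
    (r2 : 2 ≤ r) (hS : r * S = q * x ^ 2) (hv : (v : ℤ) * (q - 1) = q ^ 2 * x ^ 2 - 1)
    (hl : ((μ : ℤ) * r - 1) * l = v * (r - 1)) (hH : p ^ 2 * S ^ 2 ≤ q ^ 3 * x ^ 2)
    (hH0 : s = 0 → S ^ 2 ≤ q * x ^ 2)
    (hst : s + t + 1 = S) (hs : ((x : ℤ) ^ 2 - 1) ∣ (μ : ℤ) * s) (ht : x ∣ μ * t)
    (hB : 5 ≤ q → v ≤ μ * r) (hB' : q = 3 → 3 * x * (3 * x - 1) ≤ 2 * (μ * r)) :
    μ * r = q ^ 2 * x ^ 2 ∧ s = 0 ∧ S ≤ x := by
  have p3 : 3 ≤ p := by have := hp.two_le; omega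
  have hpq : p ∣ q := hq ▸ dvd_pow_self p (by omega)
  have hq0 : 0 < q := hq ▸ pow_pos (by omega) _
  have q3 : 3 ≤ q := p3.trans (Nat.le_of_dvd hq0 hpq)
  have q4 : q ≠ 4 := by
    intro h4
    have : p ∣ 2 ^ 2 := by rw [h4] at hpq; exact hpq
    exact p2 ((Nat.prime_dvd_prime_iff_eq hp Nat.prime_two).1 (hp.dvd_of_dvd_pow this))
  have hxq : q ^ 2 ≤ x := hx ▸ Nat.pow_le_pow_right hq0 (by omega)
  have x9 : 9 ≤ x := le_trans (Nat.pow_le_pow_left q3 2) hxq
  have p9 : 9 ≤ p ^ 2 := Nat.pow_le_pow_left p3 2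
  have e1 : 1 ≤ e := by
    rcases e with _ | e
    · simp at hr; omega
    · omega
  obtain ⟨i, α, hi, hα⟩ := omo_ceil e hf
  obtain ⟨a, ha⟩ : ∃ a, a = p ^ α := ⟨_, rfl⟩
  have a1 : 1 ≤ a := ha ▸ Nat.one_le_pow _ _ (by omega)
  have hpa : p * a ≤ q := by
    rw [ha, hq, ← pow_succ']
    exact Nat.pow_le_pow_right (by omega) hα
  have h3a : 3 * a ≤ q := (Nat.mul_le_mul_right a p3).trans hpa
  have hQ : r * a = q ^ i := by rw [hr, ha, hq, ← pow_add, ← pow_mul, hi]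
  have hSz : (r : ℤ) * S = q * x ^ 2 := by exact_mod_cast hS
  have hQz : (r : ℤ) * a = (q : ℤ) ^ i := by exact_mod_cast hQ
  have hstz : (s : ℤ) + t + 1 = S := by exact_mod_cast hst
  have htz : (x : ℤ) ∣ (μ : ℤ) * t := by exact_mod_cast ht
  have r2z : (2 : ℤ) ≤ r := by exact_mod_cast r2
  have q3z : (3 : ℤ) ≤ q := by exact_mod_cast q3
  have x9z : (9 : ℤ) ≤ x := by exact_mod_cast x9
  have h3az : 3 * (a : ℤ) ≤ q := by exact_mod_cast h3a
  have hxqz : (q : ℤ) ^ 2 ≤ x := by exact_mod_cast hxq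
  obtain ⟨q', hq'⟩ := hpq
  have hq'z : (q : ℤ) = p * q' := by exact_mod_cast hq'
  have hxz : (x : ℤ) = (p : ℤ) ^ (f * (j + 2)) := by rw [hx, hq, pow_mul]; push_cast; rfl
  have hxz' : (x : ℤ) = p * (q' * (q : ℤ) ^ (j + 1)) := by
    rw [← mul_assoc, ← hq'z, hx]; push_cast; ring
  have hrz : (r : ℤ) = (p : ℤ) ^ e := by exact_mod_cast hr
  obtain ⟨k, hk⟩ : ∃ k : ℤ, ((q : ℤ) - 1) * l + 1 = r * k :=
    ⟨(q - 1) * (μ * l - v) + q * S, by linear_combination (-(q : ℤ) + 1) * hl + hv - q * hSz⟩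
  rcases lt_trichotomy (l : ℤ) r with hlr | hlr | hlr
  swap
  · exfalso
    have : (r : ℤ) ∣ 1 := ⟨k - (q - 1), by rw [hlr] at hk; linear_combination hk⟩
    have := Int.le_of_dvd one_pos this
    omega
  swap
  · exfalso
    refine omo_big (q := q) (x := x) (by omega) (by omega) r2z (Int.natCast_nonneg μ) hv hl hk hlr
      (fun h => by exact_mod_cast hB (by exact_mod_cast h)) (fun h => ?_)
    have := hB' (by exact_mod_cast h)
    have h1 : 1 ≤ 3 * x := by omega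
    zify [h1] at this
    exact this
  have hka : k = a := by
    have h1 : ((q : ℤ) - 1) ∣ r * (k - a) := by
      have : (r : ℤ) * (k - a) = (q - 1) * l - ((q : ℤ) ^ i - 1 ^ i) := by
        rw [one_pow]; linear_combination -hk - hQz
      rw [this]
      exact dvd_sub (dvd_mul_right _ _) (sub_dvd_pow_sub_pow _ _ _)
    have h2 : IsCoprime ((q : ℤ) - 1) (r : ℤ) := by
      rw [hrz]
      apply IsCoprime.pow_right
      exact ⟨-1, q', by rw [hq'z]; ring⟩
    have h3 := h2.dvd_of_dvd_mul_left h1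
    have l0 : (0 : ℤ) ≤ l := Int.natCast_nonneg l
    have k1 : 1 ≤ k := by
      by_contra hh
      have : (r : ℤ) * k ≤ 0 := mul_nonpos_of_nonneg_of_nonpos (by omega) (by omega)
      have : 0 ≤ ((q : ℤ) - 1) * l := mul_nonneg (by omega) l0
      omega
    have k2 : k < q - 1 := by
      by_contra hh
      have h4 : (r : ℤ) * (q - 1) ≤ r * k := mul_le_mul_of_nonneg_left (by omega) (by omega)
      have h5 : ((q : ℤ) - 1) * l ≤ (q - 1) * (r - 1) := mul_le_mul_of_nonneg_left (by omega) (by omega)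
      linarith
    have a1z : (1 : ℤ) ≤ a := by exact_mod_cast a1
    have := Int.eq_zero_of_abs_lt_dvd h3 (abs_lt.2 ⟨by omega, by omega⟩)
    omega
  have key : ((μ : ℤ) * r - 1) * ((q : ℤ) ^ i - 1) = (q ^ 2 * x ^ 2 - 1) * (r - 1) := by
    rw [← hQz, ← hka, ← hv]
    linear_combination (q - 1 : ℤ) * hl - ((μ : ℤ) * r - 1) * hk
  have S0 : 0 < S := by omega
  have hi1 : j + 2 ≤ i := by
    by_contra hh
    have h1 : q ^ i * q ≤ x := by
      rw [hx, ← pow_succ]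
      exact Nat.pow_le_pow_right hq0 (by omega)
    have h2 : r * q ≤ x := by
      refine le_trans (Nat.mul_le_mul_right q ?_) h1
      rw [← hQ]; exact Nat.le_mul_of_pos_right r a1
    have h3 : 9 * S ^ 2 ≤ q ^ 3 * x ^ 2 := le_trans (Nat.mul_le_mul_right _ p9) hH
    have h4 : q * (q * x) ≤ S := by
      have : x * (q * (q * x)) ≤ x * S := by
        calc x * (q * (q * x)) = q * (r * S) := by rw [hS]; ring
          _ = (r * q) * S := by ring
          _ ≤ x * S := Nat.mul_le_mul_right S h2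
      exact Nat.le_of_mul_le_mul_left this (by omega)
    have h5 : (q * (q * x)) ^ 2 ≤ S ^ 2 := Nat.pow_le_pow_left h4 2
    have h6 : 0 < q ^ 3 * x ^ 2 := by positivity
    have h7 : (q * (q * x)) ^ 2 = q * (q ^ 3 * x ^ 2) := by ring
    have h8 : q ^ 3 * x ^ 2 ≤ q * (q ^ 3 * x ^ 2) := Nat.le_mul_of_pos_left _ hq0
    omega
  have hqx2 : q * x ^ 2 = q ^ (2 * j + 5) := by rw [hx]; ring
  have hi2 : i ≤ 2 * j + 5 := by
    have h1 : p ^ e ≤ p ^ (f * (2 * j + 5)) := by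
      rw [← hr, pow_mul, ← hq, ← hqx2, ← hS]
      exact Nat.le_mul_of_pos_right r S0
    have h2 := (Nat.pow_le_pow_iff_right (by omega : 1 < p)).1 h1
    by_contra hh
    have h3 : f * (2 * j + 5 + 1) ≤ f * i := Nat.mul_le_mul_left f (by omega)
    rw [mul_add_one] at h3
    omega
  rcases Nat.eq_zero_or_pos α with α0 | α1
  · subst α0
    have ha1 : a = 1 := by simpa using ha
    subst ha1
    have hri : r = q ^ i := by simpa using hQ
    have hn : (μ : ℤ) * r = q ^ 2 * x ^ 2 := by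
      have : ((μ : ℤ) * r - 1) * (r - 1) = (q ^ 2 * x ^ 2 - 1) * (r - 1) := by
        rw [← key, ← hQz]; simp
      have := mul_right_cancel₀ (by omega : (r : ℤ) - 1 ≠ 0) this
      omega
    have hS' : S = q ^ (2 * j + 5 - i) := by
      have : r * S = r * q ^ (2 * j + 5 - i) := by
        rw [hS, hqx2, hri, ← pow_add]; congr 1; omega
      exact Nat.eq_of_mul_eq_mul_left (by omega) this
    have hμ : (μ : ℤ) = q * S := by
      have : (r : ℤ) * μ = r * (q * S) := by linear_combination hn - q * hSz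
      exact mul_left_cancel₀ (by omega) this
    have hcop : IsCoprime ((x : ℤ) ^ 2 - 1) (μ : ℤ) := by
      rw [hμ, hS']
      push_cast
      rw [← pow_succ']
      apply IsCoprime.pow_right
      exact ⟨-1, (q : ℤ) ^ (2 * j + 3), by rw [hx]; push_cast; ring⟩
    have h1 := hcop.dvd_of_dvd_mul_left hs
    have s0 : s = 0 := by
      by_contra hh
      have h2 := Int.le_of_dvd (by omega) h1
      have h3 : x ^ 2 ≤ S := by zify; omega
      have h4 : 9 * S ^ 2 ≤ q ^ 3 * x ^ 2 := le_trans (Nat.mul_le_mul_right _ p9) hH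
      have h5 : (x ^ 2) ^ 2 ≤ S ^ 2 := Nat.pow_le_pow_left h3 2
      have h6 : q ^ 3 ≤ x ^ 2 := by
        calc q ^ 3 ≤ (q ^ 2) ^ 2 := by rw [← pow_mul]; exact Nat.pow_le_pow_right hq0 (by omega)
          _ ≤ x ^ 2 := Nat.pow_le_pow_left hxq 2
      have h7 : q ^ 3 * x ^ 2 ≤ (x ^ 2) ^ 2 := by rw [sq (x ^ 2)]; exact Nat.mul_le_mul_right _ h6
      have h8 : 0 < S ^ 2 := by positivity
      omega
    refine ⟨by exact_mod_cast hn, s0, ?_⟩
    have h2 := hH0 s0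
    rw [hqx2, hS', ← pow_mul] at h2
    have h3 := (Nat.pow_le_pow_iff_right (by omega : 1 < q)).1 h2
    rw [hS', hx]
    exact Nat.pow_le_pow_right hq0 (by omega)
  exfalso
  have hpa' : (a : ℤ) = p * (p : ℤ) ^ (α - 1) := by
    rw [ha, ← pow_succ']; push_cast; congr 1; omega
  have a2 : 2 ≤ a := by
    have : p ^ 1 ≤ p ^ α := Nat.pow_le_pow_right (by omega) α1
    rw [ha]; simp at this; omega
  have a2z : (2 : ℤ) ≤ a := by exact_mod_cast a2
  have hL : ∀ g : ℕ, 1 ≤ g → g < i → ¬ ((q : ℤ) ^ i - 1) ∣ ((q : ℤ) ^ g - 1) * (r - 1) := by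
    intro g g1 gi
    have h1 : (q : ℤ) ^ 1 ≤ (q : ℤ) ^ g := pow_le_pow_right₀ (by omega) g1
    have h2 : (q : ℤ) ^ (g + 1) ≤ (q : ℤ) ^ i := pow_le_pow_right₀ (by omega) gi
    rw [pow_one] at h1
    rw [pow_succ] at h2
    have h3 : (q : ℤ) ^ g * 2 ≤ (q : ℤ) ^ g * q := mul_le_mul_of_nonneg_left (by omega) (by omega)
    have h4 : (r : ℤ) * 2 ≤ r * a := mul_le_mul_of_nonneg_left a2z (by omega)
    refine omo_L (by omega) r2z (by linarith) (by linarith) ?_
    have hqz : (q : ℤ) = (p : ℤ) ^ f := by exact_mod_cast hq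
    rw [hrz, hqz, ← pow_mul, ← pow_mul, ← pow_add]
    rcases le_total (f * g + e) (f * i) with h | h
    · exact Or.inl (pow_le_pow_right₀ (by omega) h)
    · exact Or.inr (pow_dvd_pow _ h)
  have hd : ((q : ℤ) ^ i - 1) ∣ (q ^ 2 * x ^ 2 - 1) * (r - 1) := Dvd.intro_left _ key
  have hxz2 : (x : ℤ) = (q : ℤ) ^ (j + 2) := by exact_mod_cast hx
  rcases Nat.lt_or_ge (j + 3) i with h4 | h4
  · apply hL (2 * j + 6 - i) (by omega) (by omega)
    have : ((q : ℤ) ^ (2 * j + 6 - i) - 1) * (r - 1) =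
        (q ^ 2 * x ^ 2 - 1) * (r - 1) - (q ^ i - 1) * (q ^ (2 * j + 6 - i) * (r - 1)) := by
      have : (q : ℤ) ^ 2 * x ^ 2 = q ^ i * q ^ (2 * j + 6 - i) := by
        rw [hxz2, ← pow_mul, ← pow_add, ← pow_add]; congr 1; omega
      rw [this]; ring
    rw [this]
    exact dvd_sub hd (dvd_mul_right _ _)
  rcases (by omega : i = j + 3 ∨ i = j + 2) with rfl | rfl
  · have hQ' : (q : ℤ) ^ (j + 3) = q * x := by rw [hxz2]; ring
    rw [hQ'] at key hQz
    have h1 : (μ : ℤ) * r - 1 = (q * x + 1) * (r - 1) := by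
      have : (3 : ℤ) * 9 ≤ q * x := mul_le_mul q3z x9z (by omega) (by omega)
      apply mul_right_cancel₀ (by omega : (q : ℤ) * x - 1 ≠ 0)
      rw [key]; ring
    have hμ : (μ : ℤ) = q * x + 1 - a := by
      apply mul_left_cancel₀ (by omega : (r : ℤ) ≠ 0)
      linear_combination h1 + hQz
    have hSa : (S : ℤ) = a * x := by
      apply mul_left_cancel₀ (by omega : (r : ℤ) ≠ 0)
      linear_combination hSz - x * hQz
    refine omo_qx q3z hxqz a2z h3az hμ (Int.natCast_nonneg s) (Int.natCast_nonneg t)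
      (hstz.trans hSa) hs ?_
    refine IsCoprime.dvd_of_dvd_mul_left ?_ htz
    rw [hxz]
    exact omo_cop (c := q' * x - (p : ℤ) ^ (α - 1)) (by rw [hμ, hpa', hq'z]; ring)
  rw [← hxz2] at key hQz
  rcases Nat.eq_zero_or_pos j with rfl | j1
  · have hx2 : (x : ℤ) = (q : ℤ) ^ 2 := hxz2
    have h1 : (μ : ℤ) * r - 1 = (x ^ 2 + x + 1) * (r - 1) := by
      apply mul_right_cancel₀ (by omega : (x : ℤ) - 1 ≠ 0)
      rw [key, ← hx2]; ring
    have hμ : (μ : ℤ) = (x + 1) * (x - a) + 1 := by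
      apply mul_left_cancel₀ (by omega : (r : ℤ) ≠ 0)
      linear_combination h1 + (x + 1) * hQz
    have hSa : (S : ℤ) = q * a * x := by
      apply mul_left_cancel₀ (by omega : (r : ℤ) ≠ 0)
      linear_combination hSz - q * x * hQz
    refine omo_x q3z hx2 a2z h3az hμ (Int.natCast_nonneg s) (Int.natCast_nonneg t)
      (hstz.trans hSa) hs ?_
    refine IsCoprime.dvd_of_dvd_mul_left ?_ htz
    obtain ⟨x', hx'⟩ : ∃ x' : ℤ, (x : ℤ) = p * x' := ⟨_, hxz'⟩
    have h2 : (μ : ℤ) = p * ((x + 1) * (x' - (p : ℤ) ^ (α - 1))) + 1 := by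
      rw [hμ, hpa']; linear_combination (x + 1 : ℤ) * hx'
    rw [hxz]
    exact omo_cop h2
  · apply hL 2 (by omega) (by omega)
    rw [← hxz2] at hd ⊢
    have : ((q : ℤ) ^ 2 - 1) * (r - 1) =
        (q ^ 2 * x ^ 2 - 1) * (r - 1) - (x - 1) * (q ^ 2 * (x + 1) * (r - 1)) := by ring
    rw [this]
    exact dvd_sub hd (dvd_mul_right _ _)

end Cfsg.Agent.T2
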