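import Cfsg.Agent.Lib.T2.OmT3
import Cfsg.Agent.Lib.Forms.PFix
import Cfsg.Agent.Lib.MI.O8

/-!
Odd-dimensional orthogonal groups: the regular case of degree `q ^ (d - 1)` does not occur.
-/

set_option autoImplicit false

namespace Cfsg.Agent.T2

open Module Cfsg.Agent.Forms Cfsg.Agent.Forms.Form Cfsg.Agent.Cls Cfsg.Agent.Deg Cfsg.Agent.MI Finset
open scoped Pointwise

variable {F : Type*} [Field F] {V : Type*} [AddCommGroup V] [Module F V]
  {f : Form (Param.orth F) V} [Fintype F] [Finite V] {u : V}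
  {X : Type*} [MulAction f.Isom X] {ω : X} {Y : Finset X}

theorem om_full_of_card_le (hf : f.Nondeg) (h5 : 5 ≤ finrank F V)
    (hY : ∀ {g : f.Isom} {z v l}, f.Q z = 0 → IsE g z v l → ∀ ω ∈ Y, g • ω ∈ Y)
    (hn : Y.card ≤ Nat.card F) (hu : f.Q u = 0) (hu0 : u ≠ 0) (hω : ω ∈ Y) : Full f u ω := by
  obtain ⟨c⟩ := exists_chr_orth F
  refine ofull_of_Bl_le (c := c) hf hu fun y hy => ?_
  by_contra hy'
  obtain ⟨z, z1, z2, z3⟩ := exists_sing_perp hf (S := F ∙ u)
    (by rw [finrank_span_singleton hu0]; omega) hy'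
  rw [mem_orth_singleton] at z1
  obtain ⟨a, a1, a2⟩ := exists_not_mem_of_finrank (S := f.orth (Submodule.span F {u, z}))
    (T := Submodule.span F {u, z}) (by
      have h2 := hf.finrank_add_orth (Submodule.span F {u, z})
      have h3 := finrank_span_pair_le (F := F) u z
      omega)
  rw [mem_orth_pair] at a1
  have hg : ∀ s : F, IsE (f.siegel z (s • a) z2 (by simp [a1.2])) z (s • a) (f.Q (s • a)) :=
    fun s => isE_siegel _ _
  let φ : F × F → V := fun p => (f.siegel z (p.1 • a) z2 (by simp [a1.2])).1 y + p.2 • u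
  have huz := f.B_eq_zero_symm z1
  have h1 : Function.Injective φ := fun p p' e => by
    simp only [φ, oE_app (hg _)] at e
    have e1 : p.1 = p'.1 := by
      by_contra hc
      refine a2 ((Submodule.smul_mem_iff _ (mul_ne_zero z3 (sub_ne_zero.2 hc))).1
        (Submodule.mem_span_pair.2 ⟨p'.2 - p.2, (f.B y (p.1 • a) + f.Q (p.1 • a) * f.B y z) -
          (f.B y (p'.1 • a) + f.Q (p'.1 • a) * f.B y z), ?_⟩))
      linear_combination (norm := module) -e
    rw [e1, add_right_inj] at e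
    exact Prod.ext e1 (smul_left_injective F hu0 e)
  have h2 := class_le_span (c := c) (Y := Y) hu hu0 (C := Set.range φ) (m := 1) (y := φ 0)
    (by
      rintro _ ⟨p, rfl⟩
      exact not_mem_span_of_B huz (by simpa [φ, (hg _).B_apply z2, huz] using z3)) ⟨0, rfl⟩ (by
      rintro _ ⟨p, rfl⟩
      have := mu_ge_one (c := c) (y := φ p) hf hu hu0
        (fun ω hω _ ⟨_, _, _, h, e⟩ => e ▸ hY hu h ω hω) (hY z2 (hg p.1) ω hω)
        (add_mem (mem_Bl_fix ((hg _).apply_of_orth huz (by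
          simp [oB_smul, f.B_eq_zero_symm a1.1])) hy) (smul_self_mem_Bl hu _))
      rwa [wt_orth, Nat.cast_one] at this)
  rw [Set.ncard_range_of_injective h1, Nat.card_prod] at h2
  have h3 : (Y.card : ℚ) ≤ Nat.card F := by exact_mod_cast hn
  have h4 : (0 : ℚ) < Nat.card F := by exact_mod_cast Nat.card_pos
  push_cast at h2
  nlinarith

theorem om_not_dvd_orbit {P Z : Type*} [Group P] [Finite P] [MulAction P Z] (z : Z) {p n : ℕ}
    (hp : p.Prime) (hn : ¬ p ∣ n) (h : ∀ g k : P, g ^ n • k • z = k • z) :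
    ¬ p ∣ (MulAction.orbit P z).ncard := by
  intro hd
  have := Fact.mk hp
  let φ := MulAction.toPermHom P (MulAction.orbit P z)
  have h1 : φ.ker ≤ MulAction.stabilizer P z := fun g hg => by
    have := congrArg Subtype.val
      (DFunLike.congr_fun (MonoidHom.mem_ker.1 hg) ⟨z, MulAction.mem_orbit_self z⟩)
    exact this
  have h2 := Subgroup.index_dvd_of_le h1
  rw [MulAction.index_stabilizer, Subgroup.index_ker] at h2
  have : Finite φ.range := Finite.of_surjective _ φ.rangeRestrict_surjective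
  obtain ⟨⟨_, g, rfl⟩, hg⟩ := exists_prime_orderOf_dvd_card' p (hd.trans h2)
  refine hn (hg ▸ orderOf_dvd_of_pow_eq_one (Subtype.ext ?_))
  rw [SubmonoidClass.coe_pow, ← map_pow]
  ext ⟨_, k, rfl⟩
  exact h g k

theorem om_reg_false' (S : Sys f (commutator f.Isom) Y) {k : ℕ} (hk : finrank F V = k + 2)
    (h5 : 5 ≤ k) (h2 : (2 : F) ≠ 0) (hu : f.Q u = 0) (hu0 : u ≠ 0)
    (hP : PTr (commutator f.Isom) u Y) (hr : ∀ ω ∈ Y, Reg f u ω)
    (hn : Y.card = Nat.card F ^ (k + 1)) : False := by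
  classical
  obtain ⟨e, he⟩ := S.nd.exists_hypPair hu hu0
  let B : X → Set X := fun ω => {ω' | SO f u ω ω'}
  have hB : ∀ (g : f.Isom) (a : F) ω, a ≠ 0 → g.1 u = a • u → g • B ω = B (g • ω) := by
    intro g a ω ha hg
    ext c
    rw [Set.mem_smul_set_iff_inv_smul_mem]
    refine ⟨fun h => by simpa [B] using SO.map h hg ha, fun h => ?_⟩
    have := SO.map (k := g⁻¹) (a := a⁻¹) h (by
      rw [eq_inv_smul_iff₀ ha, ← map_smul, ← hg, Isom.inv_apply]) (inv_ne_zero ha)
    rwa [inv_smul_smul] at this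
  have hB1 : ∀ ω ω', SO f u ω ω' → B ω' = B ω := fun ω ω' h =>
    Set.ext fun c => ⟨h.trans hu, (h.symm hu).trans hu⟩
  have hq : (Y.image B).card = Nat.card F := by
    have h1 := card_eq_sum_card_image B Y
    rw [sum_const_nat (m := Nat.card F ^ k), hn, pow_succ'] at h1
    · exact (Nat.eq_of_mul_eq_mul_right (pow_pos Nat.card_pos k) h1).symm
    · intro C hC
      obtain ⟨ω, hω, rfl⟩ := mem_image.1 hC
      obtain ⟨c⟩ := exists_chr_orth F
      have e1 := card_orbit (c := c) S.nd hu hu0 ω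
      rw [card_Bl_of_Sb_le hu (hr ω hω).1, wt_orth, mul_one,
        card_perp_pow S.nd hu0 (k := k + 1) hk, pow_succ] at e1
      rw [← Nat.eq_of_mul_eq_mul_right Nat.card_pos e1, ← Set.ncard_coe_finset]
      congr 1
      ext c
      simp only [coe_filter, Set.mem_ofPred_eq]
      exact ⟨fun h => by have : c ∈ B c := SO.refl u c; rwa [h.2] at this,
        fun h => ⟨S.cl hu (S.pinv u) ω hω c h, hB1 _ _ h⟩⟩
  let K : Subgroup f.Isom := ⨅ ω ∈ Y, MulAction.stabilizer f.Isom (B ω)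
  have hK : ∀ g, g ∈ K ↔ ∀ ω ∈ Y, g • B ω = B ω := fun g => by simp [K, Subgroup.mem_iInf]
  have k1 : ∀ {g v l}, IsE g u v l → g ∈ K := fun {g v l} hg => (hK g).2 fun ω _ => by
    rw [hB g 1 ω one_ne_zero (by rw [one_smul, hg.apply_self hu]), hB1 ω _ ⟨g, v, l, hg, rfl⟩]
  have hf' := S.nd.restrict_orth_range (he.isIsom_pairMap.comap_nondeg hyp_nondeg)
  have hd : 5 ≤ finrank F (f.orth (LinearMap.range (pairMap F u e))) := by
    have := he.finrank_orth S.nd
    rw [range_pairMap]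
    omega
  have k2 : ∀ {g z v l}, IsE (f := f.restrict (f.orth (LinearMap.range (pairMap F u e)))) g z v l →
      IsE (he.ext S.nd g) z v l := fun {g z v l} hg => ⟨hg.orth, hg.lam, fun w => by
    obtain ⟨a, b, x, x1, x2, rfl⟩ := he.exists_decomp w
    have m : ∀ x : f.orth (LinearMap.range (pairMap F u e)), f.B u x = 0 ∧ f.B e x = 0 := fun x => by
      obtain ⟨x, this⟩ := x
      rw [range_pairMap, mem_orth_pair] at this
      exact ⟨f.B_eq_zero_symm this.1, f.B_eq_zero_symm this.2⟩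
    have hx : x ∈ f.orth (LinearMap.range (pairMap F u e)) := by
      rw [range_pairMap, mem_orth_pair]; exact ⟨x1, x2⟩
    have e1 := he.ext_right S.nd g ⟨x, hx⟩
    rw [hg.app] at e1
    rw [map_add, map_add, map_smul, map_smul, he.ext_u, he.ext_e, e1]
    simp only [B_add_left, B_smul_left, m, restrict_B,
      Submodule.coe_add, Submodule.coe_sub, Submodule.coe_smul, mul_zero, zero_add]
    abel⟩
  let _ : MulAction (f.restrict (f.orth (LinearMap.range (pairMap F u e)))).Isom (Set X) :=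
    MulAction.compHom _ (he.ext S.nd)
  have k3 := orth_gen hf' hd (K.comap (he.ext S.nd)) fun z v l hz hv hl => (hK _).2 fun ω hω => by
    by_cases z0 : z = 0
    · subst z0
      rw [show eichler _ 0 v l hz hv hl = 1 from Isom.ext fun w => by simp [eichler_apply], map_one,
        one_smul]
    · exact (om_full_of_card_le (Y := Y.image B) hf' hd (fun {g z v l} hz hg C hC => by
        obtain ⟨ω, hω, rfl⟩ := mem_image.1 hC
        exact mem_image.2 ⟨_, S.inv _ (S.ein hz (k2 hg)) ω hω,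
          (hB _ 1 ω one_ne_zero (by rw [one_smul, he.ext_u])).symm⟩) hq.le hz z0
        (mem_image_of_mem B hω)).smul_eq (isE_eichler hz hv hl)
  have k4 : ∀ g : f.Isom, g.1 u = u → g ^ 2 ∈ K := fun g hg => by
    have b1 : f.B (g.1 e) u = f.B e u := by conv_lhs => rw [← hg, Isom.map_B]
    obtain ⟨ρ, v, l, r1, r2⟩ := exists_siegel_map (b := e) (b' := g.1 e) hu (Isom.map_Q g e).symm
      b1.symm (by rw [he.Beu]; exact Param.ε_ne_zero _)
    obtain ⟨a, ha⟩ := he.exists_ext S.nd (g := ρ⁻¹ * g)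
      (by rw [Isom.mul_apply, hg, (r1.inv hu).apply_self hu])
      (by rw [Isom.mul_apply, ← r2, Isom.inv_apply])
    have r3 := r1.conj (he.ext S.nd a)
    rw [he.ext_u] at r3
    have r4 := K.mul_mem (K.mul_mem (k1 r1) (k1 r3)) (k3 (hf'.sq_mem_commutator (Or.inr hd) a))
    rw [map_pow, ha] at r4
    convert r4 using 1
    rw [sq, sq]
    group
  let P : Subgroup f.Isom :=
    { carrier := {g | g ∈ commutator f.Isom ∧ ∃ s : F, s ≠ 0 ∧ g.1 u = s • u}
      one_mem' := ⟨one_mem _, 1, one_ne_zero, (one_smul _ _).symm⟩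
      mul_mem' := fun {a b} ⟨a1, s, a2, a3⟩ ⟨b1, t, b2, b3⟩ => ⟨mul_mem a1 b1, t * s,
        mul_ne_zero b2 a2, by rw [Isom.mul_apply, b3, map_smul, a3, smul_smul]⟩
      inv_mem' := fun {a} ⟨a1, s, a2, a3⟩ => ⟨inv_mem a1, s⁻¹, inv_ne_zero a2, by
        rw [eq_inv_smul_iff₀ a2, ← map_smul, ← a3, Isom.inv_apply]⟩ }
  obtain ⟨ω, hω⟩ := S.ne
  obtain ⟨p, hpF⟩ := CharP.exists F
  obtain ⟨a, hp, ha⟩ := FiniteField.card F p
  have pq : p ∣ Fintype.card F := ha ▸ dvd_pow_self p a.ne_zero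
  refine om_not_dvd_orbit (P := P) (B ω) hp (n := (Fintype.card F - 1) * 2) (fun h => ?_)
    (fun g k => ?_) ?_
  · rcases (Nat.Prime.dvd_mul hp).1 h with h | h
    · exact hp.not_dvd_one ((Nat.dvd_sub_iff_right Fintype.card_pos pq).1 h)
    · exact h2 (by exact_mod_cast (CharP.cast_eq_zero_iff F p 2).2 h)
  · obtain ⟨k1, s, k2, k3⟩ := k.2
    obtain ⟨-, t, g2, g3⟩ := g.2
    change (g.1 ^ ((Fintype.card F - 1) * 2)) • k.1 • B ω = k.1 • B ω
    rw [hB _ s ω k2 k3, pow_mul]
    refine (hK _).1 (k4 _ ?_) _ (S.inv _ k1 ω hω)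
    have : ∀ n, (g.1 ^ n).1 u = t ^ n • u := fun n => by
      induction n with
      | zero => simp
      | succ n ih => rw [pow_succ, Isom.mul_apply, g3, map_smul, ih, smul_smul, pow_succ']
    rw [this, FiniteField.pow_card_sub_one_eq_one t g2, one_smul]
  · have : MulAction.orbit P (B ω) = Y.image B := by
      ext C
      rw [mem_coe, mem_image]
      constructor
      · rintro ⟨⟨g, g1, s, g2, g3⟩, rfl⟩
        exact ⟨_, S.inv g g1 ω hω, (hB g s ω g2 g3).symm⟩
      · rintro ⟨ω', hω', rfl⟩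
        obtain ⟨g, g1, s, g2, g3, rfl⟩ := hP ω hω ω' hω'
        exact ⟨⟨g, g1, s, g2, g3⟩, hB g s ω g2 g3⟩
    rwa [this, Set.ncard_coe_finset, hq, Nat.card_eq_fintype_card]

end Cfsg.Agent.T2
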