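import Cfsg.Agent.Lib.MI.O6
import Cfsg.Agent.Lib.T2.Tv

/-!
Doubly transitive actions of orthogonal groups with transitive point stabiliser: counting lemmas.
-/

set_option autoImplicit false

namespace Cfsg.Agent.T2

open Module Cfsg.Agent.Forms Cfsg.Agent.Forms.Form Cfsg.Agent.Cls Cfsg.Agent.Deg Cfsg.Agent.MI Finset

theorem dvd_sum_of_key {α β : Type*} (C : Finset α) (key : α → β) (g : α → ℕ) {D r : ℕ}
    (h1 : ∀ w ∈ C, D ∣ {w' | w' ∈ C ∧ key w' = key w}.ncard)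
    (h2 : ∀ w ∈ C, ∀ w' ∈ C, key w' = key w → g w' = g w) (h3 : ∀ w ∈ C, r ∣ g w) :
    D * r ∣ ∑ w ∈ C, g w := by
  classical
  rw [← sum_fiberwise_of_maps_to (t := C.image key) (g := key) fun w hw => mem_image_of_mem _ hw]
  refine dvd_sum fun c hc => ?_
  obtain ⟨w, hw, rfl⟩ := mem_image.1 hc
  rw [sum_const_nat (m := g w) fun w' hw' => h2 w hw w' (mem_filter.1 hw').1 (mem_filter.1 hw').2]
  refine Nat.mul_dvd_mul ((h1 w hw).trans (dvd_of_eq ?_)) (h3 w hw)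
  rw [← Set.ncard_coe_finset, coe_filter]

section general

variable {F : Type*} [Field F] {P : Param F} {V : Type*} [AddCommGroup V] [Module F V]
  {f : Form P V} {X : Type*} [MulAction f.Isom X] {G : Subgroup f.Isom} {Y : Finset X}
  {u : V} {ω ω' : X}

theorem TwoY.count (h2 : TwoY G Y) (h1 : 1 < Y.card) {ι : Type*} [Fintype ι]
    (R : ι → X → X → Prop)
    (hR : ∀ g : f.Isom, ∃ σ : ι → ι, Function.Injective σ ∧ ∀ i a b, R i a b → R (σ i) (g • a) (g • b))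
    {a : X} (ha : a ∈ Y) (hY : ∀ i b, R i a b → b ∈ Y) :
    ∃ b ∈ Y, b ≠ a ∧ (Y.card - 1) * {i | R i a b}.ncard = ∑ i, {c | c ≠ a ∧ R i a c}.ncard := by
  classical
  let L : X → X → Finset ι := fun b c => univ.filter fun i => R i b c
  have hL1 : ∀ (g : f.Isom) b c, (L b c).card ≤ (L (g • b) (g • c)).card := fun g b c => by
    obtain ⟨σ, h1, h2⟩ := hR g
    exact card_le_card_of_injOn σ (fun w hw => by
      simp only [L, coe_filter, mem_univ, true_and, Set.mem_ofPred_eq] at hw ⊢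
      exact h2 _ _ _ hw) h1.injOn
  obtain ⟨b, hb, hab⟩ := exists_mem_ne h1 a
  have hL2 : ∀ d ∈ Y, a ≠ d → (L a d).card = (L a b).card := fun d hd hcd => by
    obtain ⟨g, -, e1, e2⟩ := h2 a ha b hb a ha d hd hab.symm hcd
    refine le_antisymm ?_ (by simpa [e1, e2] using hL1 g a b)
    have := hL1 g⁻¹ (g • a) (g • b)
    rwa [inv_smul_smul, inv_smul_smul, e1, e2] at this
  refine ⟨b, hb, hab, ?_⟩
  calc _ = ∑ c ∈ Y.erase a, (L a c).card := by
        rw [sum_const_nat fun c hc => hL2 c (mem_of_mem_erase hc) (ne_of_mem_erase hc).symm,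
          card_erase_of_mem ha, ← Set.ncard_coe_finset (L a b), coe_filter_univ]
    _ = ∑ i, ((Y.erase a).filter (R i a)).card := by
        simp only [L, card_filter]
        exact sum_comm
    _ = _ := sum_congr rfl fun i _ => by
        rw [← Set.ncard_coe_finset]
        congr 1
        ext c
        simp only [coe_filter, mem_erase, Set.mem_ofPred_eq]
        exact ⟨fun e => ⟨e.1.1, e.2⟩, fun e => ⟨⟨e.1, hY i c e.2⟩, e.2⟩⟩

theorem SO_smul (h : SO f u ω ω') {a : F} (ha : a ≠ 0) : SO f (a • u) ω ω' := by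
  obtain ⟨g, v, l, h1, h2⟩ := h
  have h3 : IsE g (a⁻¹ • a • u) v l := by rwa [inv_smul_smul₀ ha]
  exact ⟨g, _, _, h3.smul_left (inv_ne_zero ha), h2⟩

theorem SO_map (h : SO f u ω ω') (k : f.Isom) : SO f (k.1 u) (k • ω) (k • ω') :=
  let ⟨g, _, _, h1, h2⟩ := h
  ⟨_, _, _, h1.conj k, by rw [mul_smul, mul_smul, inv_smul_smul, h2]⟩

theorem PTr.pair [FiniteDimensional F V] (S : Sys f G Y) (hP : PTr G u Y) (hu : f.Q u = 0)
    (hu0 : u ≠ 0) (hω : ω ∈ Y) (hω' : ω' ∈ Y) {z : V} (hz : f.Q z = 0) (hz0 : z ≠ 0) :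
    ∃ k ∈ G, ∃ a : F, a ≠ 0 ∧ k.1 u = a • z ∧ k • ω = ω' := by
  obtain ⟨g, hg, s, hs, e⟩ := S.exists_map hu hu0 hz hz0
  obtain ⟨k, hk, t, ht, e1, e2⟩ := hP ω hω _ (S.inv _ (G.inv_mem hg) _ hω')
  exact ⟨g * k, G.mul_mem hg hk, t * s, mul_ne_zero ht hs,
    by rw [Isom.mul_apply, e1, map_smul, e, smul_smul], by rw [mul_smul, e2, smul_inv_smul]⟩

theorem dvd_ncard_of_add [Finite F] [Finite V] (hu0 : u ≠ 0) {C : Set V}
    (h : ∀ w ∈ C, ∀ s : F, w + s • u ∈ C) : Nat.card F ∣ C.ncard := by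
  rw [Set.ncard_eq_toFinset_card]
  refine dvd_card_of_equiv _ (fun w w' => ∃ s : F, w' = w + s • u) (fun a _ => ⟨0, by simp⟩) ?_
    fun a _ => dvd_of_eq ?_
  · rintro a ha _ ⟨s, rfl⟩
    rw [Set.Finite.mem_toFinset] at ha ⊢
    refine ⟨h a ha s, fun c => ⟨?_, ?_⟩⟩
    · rintro ⟨t, rfl⟩
      exact ⟨t - s, by module⟩
    · rintro ⟨t, rfl⟩
      exact ⟨s + t, by module⟩
  · have : {b | ∃ s : F, b = a + s • u} = Set.range fun s : F => a + s • u := by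
      ext b; simp [eq_comm]
    rw [this, Set.ncard_range_of_injective fun s t e =>
      smul_left_injective F hu0 (add_left_cancel e)]

end general

variable {F : Type*} [Field F] {V : Type*} [AddCommGroup V] [Module F V]
  {f : Form (Param.orth F) V} {X : Type*} [MulAction f.Isom X] {Y : Finset X}
  {u z : V} {ω ω' : X}

theorem mem_Sb_conj (hz : f.Q z = 0) {k : f.Isom} {a : F} (hk : k.1 u = a • z) (ha : a ≠ 0) {w : V} :
    a • k.1 w ∈ Sb f z (k • ω) ↔ w ∈ Sb f u ω := by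
  rw [← map_mem_Sb_iff (u := u) k, hk, mem_Sb_smul hz ha]
  rfl

theorem ncard_Sb_conj (hz : f.Q z = 0) {k : f.Isom} {a : F} (hk : k.1 u = a • z) (ha : a ≠ 0)
    {C C' : Set V} (hC : ∀ w, a • k.1 w ∈ C' ↔ w ∈ C) :
    {w | w ∈ C' ∧ w ∈ Sb f z (k • ω)}.ncard = {w | w ∈ C ∧ w ∈ Sb f u ω}.ncard := by
  symm
  refine Set.ncard_congr (fun w _ => a • k.1 w) (fun w hw => ⟨(hC w).2 hw.1,
    (mem_Sb_conj hz hk ha).2 hw.2⟩) (fun w w' _ _ e => k.1.injective (smul_right_injective V ha e))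
    fun w hw => ?_
  have e : a • k.1 (k.1.symm (a⁻¹ • w)) = w := by simp [smul_smul, ha]
  exact ⟨_, ⟨(hC _).1 (e.symm ▸ hw.1), (mem_Sb_conj hz hk ha).1 (e.symm ▸ hw.2)⟩, e⟩

theorem mem_Cs_conj {k : f.Isom} {a : F} (hk : k.1 u = a • z) (ha : a ≠ 0) (w : V) :
    a • k.1 w ∈ Cs f z ↔ w ∈ Cs f u := by
  have h1 : f.B (k.1 w) z = 0 ↔ f.B w u = 0 := by
    rw [← Isom.map_B k w u, hk, B_smul_right]; simp [ha]
  have h2 : k.1 w ∈ F ∙ z ↔ w ∈ F ∙ u := by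
    simp only [Submodule.mem_span_singleton]
    constructor
    · rintro ⟨s, hs⟩
      exact ⟨s / a, k.1.injective (by rw [map_smul, hk, smul_smul, div_mul_cancel₀ _ ha, hs])⟩
    · rintro ⟨s, rfl⟩
      exact ⟨s * a, by rw [map_smul, hk, smul_smul]⟩
  simp only [Cs, Set.mem_ofPred_eq, B_smul_left, orth_Q_smul, Isom.map_Q, mul_eq_zero, ha, false_or,
    Submodule.smul_mem_iff _ ha, h1, h2]

theorem mem_Cn_conj {k : f.Isom} {a : F} (hk : k.1 u = a • z) (ha : a ≠ 0) (w : V) :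
    a • k.1 w ∈ Cn f z ↔ w ∈ Cn f u := by
  have h1 : f.B (k.1 w) z = 0 ↔ f.B w u = 0 := by
    rw [← Isom.map_B k w u, hk, B_smul_right]; simp [ha]
  simp only [Cn, Set.mem_ofPred_eq, B_smul_left, orth_Q_smul, Isom.map_Q, mul_eq_zero, ha, false_or,
    h1, Ne]

variable [Fintype F] [Finite V]

theorem class_dvd (S : Sys f (commutator f.Isom) Y) (h6 : 6 ≤ finrank F V) (hu : f.Q u = 0)
    (hu0 : u ≠ 0) {C : Set V} (hC : ∀ w ∈ C, f.B w u = 0 ∧ w ∉ F ∙ u) {D r s : ℕ}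
    (hD : ∀ w ∈ C, D ∣ {w' | w' ∈ C ∧ f.Q w' = f.Q w}.ncard)
    (hr : ∀ ω ∈ Y, {ω' | SO f u ω ω'}.ncard = r)
    (hs : ∀ ω ∈ Y, {w | w ∈ C ∧ w ∈ Sb f u ω}.ncard = s) : D * r ∣ Y.card * s := by
  classical
  have := Fintype.ofFinite V
  have key : ∀ w ∈ C, ∀ w' ∈ C, f.Q w' = f.Q w → (Y.filter fun ω => w ∈ Sb f u ω).card ≤
      (Y.filter fun ω => w' ∈ Sb f u ω).card := fun w hw w' hw' e => by
    obtain ⟨k, hk, e1, e2⟩ := om_class S.nd h6 hu hu0 (hC w hw).1 (hC w' hw').1 (hC w hw).2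
      (hC w' hw').2 one_ne_zero (by rw [e]; ring)
    rw [one_smul] at e1 e2
    refine card_le_card_of_injOn (k • ·) (fun ω hω => ?_) (MulAction.injective k).injOn
    simp only [coe_filter, Set.mem_ofPred_eq] at hω ⊢
    exact ⟨S.inv k hk ω hω.1, e2 ▸ mem_Sb_fix e1 hω.2⟩
  have h1 := dvd_sum_of_key (univ.filter (· ∈ C)) f.Q
    (fun w => (Y.filter fun ω => w ∈ Sb f u ω).card) (D := D) (r := r)
    (fun w hw => by simpa using hD w (mem_filter.1 hw).2)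
    (fun w hw w' hw' e => le_antisymm (key _ (mem_filter.1 hw').2 _ (mem_filter.1 hw).2 e.symm)
      (key _ (mem_filter.1 hw).2 _ (mem_filter.1 hw').2 e))
    fun w _ => dvd_card_of_equiv _ (SO f u) (fun c _ => SO.refl u c)
      (fun c hc d hd => ⟨mem_filter.2 ⟨S.cl hu (S.pinv u) c (mem_filter.1 hc).1 d hd,
        hd.Sb_eq hu ▸ (mem_filter.1 hc).2⟩, fun e => ⟨(hd.symm hu).trans hu, hd.trans hu⟩⟩)
      fun c hc => (hr c (mem_filter.1 hc).1).symm.dvd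
  refine h1.trans (dvd_of_eq ?_)
  simp only [card_filter]
  rw [sum_comm, ← smul_eq_mul, ← sum_const]
  refine sum_congr rfl fun ω hω => ?_
  rw [← hs ω hω, ← card_filter, filter_filter, ← Set.ncard_coe_finset, coe_filter_univ]

end Cfsg.Agent.T2
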