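import Cfsg.Agent.Lib.T2.OmT1

/-!
Orthogonal groups: the commutator bound for stabilisers in two collinear Siegel groups.
-/

set_option autoImplicit false

namespace Cfsg.Agent.T2

open Module Cfsg.Agent.Forms Cfsg.Agent.Forms.Form Cfsg.Agent.Cls Cfsg.Agent.Deg Cfsg.Agent.MI Finset

theorem card_eq_range_mul_ker {M N : Type*} [AddGroup M] [AddGroup N] (φ : M →+ N) :
    Nat.card M = Nat.card φ.range * Nat.card φ.ker := by
  rw [← AddSubgroup.index_ker, AddSubgroup.index_mul_card]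

variable {F : Type*} [Field F] {V : Type*} [AddCommGroup V] [Module F V]
  {f : Form (Param.orth F) V} {X : Type*} [MulAction f.Isom X] {Y : Finset X}
  {u y : V} {ω : X} [Fintype F] [Finite V]

theorem exists_sup_line (A : AddSubgroup V) {T : AddSubgroup F} (hT : ∀ t, t • y ∈ A → t ∈ T) :
    ∃ A' : AddSubgroup V, (∀ v ∈ A', ∃ a ∈ A, f.B a y = 0 ∧ ∃ s : F, v = a + s • y) ∧
      Nat.card A ≤ Nat.card A' * Nat.card T := by
  let φ : A →+ F := AddMonoidHom.mk' (fun a => f.B a y) fun a b => by simp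
  let Ψ : φ.ker × F →+ V := AddMonoidHom.mk' (fun p => p.1.1.1 + p.2 • y) fun a b => by
    simp only [Prod.fst_add, Prod.snd_add, AddSubgroup.coe_add]; module
  refine ⟨Ψ.range, ?_, ?_⟩
  · rintro _ ⟨p, rfl⟩
    exact ⟨_, p.1.1.2, p.1.2, p.2, rfl⟩
  · have h1 := card_eq_range_mul_ker φ
    have h2 := card_eq_range_mul_ker Ψ
    have h3 : Nat.card φ.range ≤ Nat.card F := Finite.card_subtype_le _
    have h4 : ∀ p : Ψ.ker, p.1.1.1.1 = -(p.1.2 • y) := fun p => eq_neg_of_add_eq_zero_left p.2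
    have h5 : Nat.card Ψ.ker ≤ Nat.card T := Nat.card_le_card_of_injective
      (fun p => ⟨p.1.2, hT _ (by simpa [h4 p] using A.neg_mem p.1.1.1.2)⟩) fun p p' e => by
        have e1 : p.1.2 = p'.1.2 := congrArg Subtype.val e
        exact Subtype.ext (Prod.ext (Subtype.ext (Subtype.ext (by rw [h4, h4, e1]))) e1)
    rw [Nat.card_prod] at h2
    calc _ ≤ Nat.card φ.ker * Nat.card F := by rw [h1, mul_comm]; gcongr
      _ ≤ _ := by rw [h2]; gcongr

omit [Fintype F] [Finite V] in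
theorem smul_mem_Sb_swap (hu : f.Q u = 0) (hy : f.Q y = 0) (h : f.B y u = 0) {t : F}
    (ht : t • u ∈ Sb f y ω) : t • y ∈ Sb f u ω := by
  obtain ⟨l, hl⟩ := (mem_Sb hy).1 ht
  have e : l = 0 := by rw [(f.orth_isLam_iff).1 hl.lam, orth_Q_smul, hu, mul_zero]
  have := (Fx.swap hy h (hl.congr rfl e)).mem_Sb
  simpa using (Sb f u ω).neg_mem this

theorem heis_Sb (hf : f.Nondeg) (hu : f.Q u = 0) (hy : y ∈ Cs f u) (ht : y ∉ Sb f u ω) :
    ∃ w, w ∣ Nat.card F ∧ w ≠ Nat.card F ∧ ((∀ s : F, s • y ∈ Sb f u ω → s = 0) → w = 1) ∧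
      Nat.card (Sb f u ω) * Nat.card (Sb f y ω) ≤ Nat.card V * w ^ 2 := by
  let T : AddSubgroup F := (Sb f u ω).comap (LinearMap.toSpanSingleton F V y).toAddMonoidHom
  have hT : ∀ t, t ∈ T ↔ t • y ∈ Sb f u ω := fun t => Iff.rfl
  have h1 : (1 : F) ∉ T := by rwa [hT, one_smul]
  have := Fintype.ofFinite (F ⧸ T)
  obtain ⟨χ, hχ⟩ : ∃ χ : AddChar (F ⧸ T) ℂ, χ (1 : F) ≠ 1 := by
    by_contra h
    push Not at h
    exact h1 ((QuotientAddGroup.eq_zero_iff _).1 (AddChar.forall_apply_eq_zero.1 h))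
  let c : Chr (Param.orth F) := ⟨χ.compAddMonoidHom (QuotientAddGroup.mk' T),
    fun e => hχ (DFunLike.congr_fun e 1), fun a ha => by simpa using ha⟩
  obtain ⟨A, a1, a2⟩ := exists_sup_line (f := f) (Sb f u ω) fun t => (hT t).2
  obtain ⟨A', b1, b2⟩ := exists_sup_line (f := f) (y := u) (Sb f y ω) (T := T) fun t h =>
    (hT t).2 (smul_mem_Sb_swap hu hy.2.1 hy.1 h)
  have huy := f.B_eq_zero_symm hy.1
  have h2 : A' ≤ c.ann f A := fun v' hv' v hv => by
    obtain ⟨a, ha, e1, s, rfl⟩ := a1 v hv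
    obtain ⟨b, hb, e2, t, rfl⟩ := b1 v' hv'
    obtain ⟨l, g, hg, e⟩ := (mem_Sb hy.2.1).1 hb
    have e3 := mem_Sb_fix (hg.apply_of_orth huy (f.B_eq_zero_symm e2)) ha
    rw [e, IsE_apply_orth hg e1, AddSubgroup.add_mem_cancel_left _ ha, ← hT, neg_mem_iff] at e3
    have e4 : f.B (a + s • y) (b + t • u) = f.B a b := by
      simp [oB_smul, orth_of_mem_Sb hu ha, hy.1, f.B_eq_zero_symm hg.orth]
    rw [e4]
    change χ (f.B a b : F) = 1
    rw [(QuotientAddGroup.eq_zero_iff _).2 (by simpa using e3), AddChar.map_zero_eq_one]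
  refine ⟨Nat.card T, AddSubgroup.card_addSubgroup_dvd_card T, fun e => h1 ?_, fun h => ?_, ?_⟩
  · rw [AddSubgroup.eq_top_of_card_eq T e]; trivial
  · rw [AddSubgroup.card_eq_one, eq_bot_iff]
    exact fun s hs => h s hs
  · rw [← Chr.card_mul_card_ann (c := c) hf A]
    have h3 := AddSubgroup.card_le_of_le h2
    calc _ ≤ Nat.card A * Nat.card T * (Nat.card A' * Nat.card T) := by gcongr
      _ ≤ Nat.card A * Nat.card T * (Nat.card (c.ann f A) * Nat.card T) := by gcongr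
      _ = _ := by ring

theorem exists_Cs_not_mem (hf : f.Nondeg) (h5 : 5 ≤ finrank F V) (hu : f.Q u = 0) (hu0 : u ≠ 0)
    (h : ¬ Full f u ω) : ∃ y ∈ Cs f u, y ∉ Sb f u ω := by
  by_contra hc
  push Not at hc
  have key : ∀ w, f.B w u = 0 → f.Q w = 0 → w ∈ Sb f u ω := fun w h1 h2 => by
    by_cases h3 : w ∈ F ∙ u
    · obtain ⟨s, rfl⟩ := Submodule.mem_span_singleton.1 h3
      exact smul_self_mem_Sb s
    · exact hc w ⟨h1, h2, h3⟩
  refine h (full_of hu (fun v hv => ?_) (tau_orth' u ω))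
  by_cases h3 : f.Q v = 0
  · exact key v hv h3
  obtain ⟨z, z1, z2, z3⟩ := exists_sing_perp hf (S := F ∙ u)
    (by rw [finrank_span_singleton hu0]; omega) (not_mem_span_of_Q hu h3)
  rw [mem_orth_singleton] at z1
  have e := (Sb f u ω).add_mem (key (v - (f.Q v / f.B v z) • z) (by simp [hv, z1]) (by
    rw [sub_eq_add_neg, ← neg_smul, orth_Q_add, orth_Q_smul, z2, oB_smul]; field_simp; ring))
    (key ((f.Q v / f.B v z) • z) (by simp [z1]) (by rw [orth_Q_smul, z2, mul_zero]))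
  rwa [sub_add_cancel] at e

end Cfsg.Agent.T2
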