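import Cfsg.Agent.Lib.T2.OmT2

/-!
Orthogonal groups acting doubly transitively with transitive point stabiliser: the numerical data.
-/

set_option autoImplicit false

namespace Cfsg.Agent.T2

open Module Cfsg.Agent.Forms Cfsg.Agent.Forms.Form Cfsg.Agent.Cls Cfsg.Agent.Deg Cfsg.Agent.MI Finset

variable {F : Type*} [Field F] {V : Type*} [AddCommGroup V] [Module F V]
  {f : Form (Param.orth F) V} {X : Type*} [MulAction f.Isom X] {Y : Finset X}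
  {u y : V} {ω : X} [Fintype F] [Finite V]

theorem card_Sb_split (hu : f.Q u = 0) (hu0 : u ≠ 0) (ω : X) :
    {w | w ∈ Cs f u ∧ w ∈ Sb f u ω}.ncard + {w | w ∈ Cn f u ∧ w ∈ Sb f u ω}.ncard + Nat.card F =
      Nat.card (Sb f u ω) := by
  rw [← ncard_span hu0, ← Set.ncard_union_eq, ← Set.ncard_union_eq]
  · refine congrArg Set.ncard (Set.ext fun w => ⟨?_, fun h => ?_⟩)
    · rintro ((h | h) | h)
      · exact h.2
      · exact h.2
      · obtain ⟨s, rfl⟩ := Submodule.mem_span_singleton.1 h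
        exact smul_self_mem_Sb s
    · by_cases h1 : w ∈ F ∙ u
      · exact Or.inr h1
      · by_cases h2 : f.Q w = 0
        · exact Or.inl (Or.inl ⟨⟨orth_of_mem_Sb hu h, h2, h1⟩, h⟩)
        · exact Or.inl (Or.inr ⟨⟨orth_of_mem_Sb hu h, h2⟩, h⟩)
  · rw [Set.disjoint_left]
    rintro w (h | h) h'
    · exact h.1.2.2 h'
    · exact not_mem_span_of_Q hu h.1.2 h'
  · exact Set.disjoint_left.2 fun w h h' => h'.1.2 h.1.2.1

omit [Fintype F] [Finite V] in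
theorem Q_add_smul (hu : f.Q u = 0) {w : V} (h : f.B w u = 0) (s : F) : f.Q (w + s • u) = f.Q w := by
  rw [orth_Q_add, orth_Q_smul, hu, B_smul_right, h]; simp

variable (S : Sys f (commutator f.Isom) Y) (h2 : TwoY (commutator f.Isom) Y) (h1 : 1 < Y.card)
include S h2 h1

theorem exists_lam_SO (hω : ω ∈ Y) {r v : ℕ}
    (hv : v * (Nat.card F - 1) = {w | f.Q w = 0 ∧ w ≠ 0}.ncard)
    (hr : ∀ z, f.Q z = 0 → z ≠ 0 → {ω' | SO f z ω ω'}.ncard = r) :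
    ∃ l, (Y.card - 1) * l = v * (r - 1) := by
  classical
  have := Fintype.ofFinite V
  obtain ⟨b, -, -, e⟩ := TwoY.count h2 h1 (fun w a b => (f.Q w = 0 ∧ w ≠ 0) ∧ SO f w a b)
    (fun g => ⟨g.1, g.1.injective, fun w a b h =>
      ⟨⟨by rw [Isom.map_Q, h.1.1], by simpa using h.1.2⟩, SO_map h.2 g⟩⟩) hω
    fun w b h => S.cl h.1.1 (S.pinv w) ω hω b h.2
  obtain ⟨l, hl⟩ := dvd_card_of_smul (F := F)
    (univ.filter fun w => (f.Q w = 0 ∧ w ≠ 0) ∧ SO f w ω b) (fun w hw => (mem_filter.1 hw).2.1.2)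
    fun w hw s hs => by
      obtain ⟨⟨e1, e2⟩, e3⟩ := (mem_filter.1 hw).2
      exact mem_filter.2 ⟨mem_univ _, ⟨by rw [f.Q_smul, e1, mul_zero], smul_ne_zero hs e2⟩,
        SO_smul e3 hs⟩
  rw [← Set.ncard_coe_finset, coe_filter_univ] at hl
  have hF : 0 < Nat.card F - 1 := Nat.sub_pos_of_lt Finite.one_lt_card
  refine ⟨l, Nat.eq_of_mul_eq_mul_right hF ?_⟩
  rw [mul_assoc, mul_comm l, ← hl, e, mul_right_comm, hv,
    ← sum_filter_add_sum_filter_not univ fun w => f.Q w = 0 ∧ w ≠ 0,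
    sum_eq_zero (s := univ.filter fun w => ¬ (f.Q w = 0 ∧ w ≠ 0)) fun w hw => by
      simp [(mem_filter.1 hw).2],
    add_zero, sum_const_nat (m := r - 1) fun w hw => ?_, ← Set.ncard_coe_finset, coe_filter_univ]
  obtain ⟨e1, e2⟩ := (mem_filter.1 hw).2
  rw [← hr w e1 e2, ← Set.ncard_sdiff_singleton_of_mem (show ω ∈ {c | SO f w ω c} from SO.refl _ _)]
  congr 1
  ext c
  simp [e1, e2, and_comm]

theorem dvd_root_count (hω : ω ∈ Y) {m : ℕ}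
    (hm : ∀ z, f.Q z = 0 → z ≠ 0 → {w | w ∈ Cs f z ∧ w ∉ Sb f z ω}.ncard = m) :
    Y.card - 1 ∣ {w | f.Q w = 0 ∧ w ≠ 0}.ncard * m := by
  classical
  have := Fintype.ofFinite V
  obtain ⟨b, -, -, e⟩ := TwoY.count h2 h1 (fun (p : V × V) a b => (f.Q p.1 = 0 ∧ p.1 ≠ 0) ∧
      p.2 ∈ Cs f p.1 ∧ ∃ g l, IsE g p.1 p.2 l ∧ g • a = b)
    (fun g => ⟨fun p => (g.1 p.1, g.1 p.2), fun p p' e => Prod.ext
      (g.1.injective (congrArg Prod.fst e)) (g.1.injective (congrArg Prod.snd e)), by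
      rintro p a c ⟨e1, e2, k, l, e3, e4⟩
      exact ⟨⟨by rw [Isom.map_Q, e1.1], by simpa using e1.2⟩,
        by simpa using (mem_Cs_conj (k := g) (one_smul F _).symm one_ne_zero p.2).2 e2,
        _, l, e3.conj g, by rw [mul_smul, mul_smul, inv_smul_smul, e4]⟩⟩) hω
    (by
      rintro p _ ⟨e1, -, k, l, e3, rfl⟩
      exact S.inv k (S.ein e1.1 e3) ω hω)
  refine Dvd.intro _ (e.trans ?_)
  rw [Fintype.sum_prod_type, ← sum_filter_add_sum_filter_not univ fun w => f.Q w = 0 ∧ w ≠ 0,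
    sum_eq_zero (s := univ.filter fun w => ¬ (f.Q w = 0 ∧ w ≠ 0)) fun w hw => by
      simp [(mem_filter.1 hw).2],
    add_zero, sum_const_nat (m := m) fun z hz => ?_, ← Set.ncard_coe_finset, coe_filter_univ]
  obtain ⟨e1, e2⟩ := (mem_filter.1 hz).2
  rw [← hm z e1 e2, ← coe_filter_univ, Set.ncard_coe_finset, card_filter]
  refine sum_congr rfl fun w _ => ?_
  split_ifs with h
  · obtain ⟨g, hg⟩ := exists_isE e1 h.1.1 (f.orth_isLam w)
    rw [Set.ncard_eq_one]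
    refine ⟨g • ω, Set.ext fun c => ⟨?_, ?_⟩⟩
    · rintro ⟨-, -, -, k, l, e3, rfl⟩
      rw [e3.eq (hg.congr rfl ((f.orth_isLam_iff).1 e3.lam).symm)]
      rfl
    · rintro rfl
      exact ⟨fun e => h.2 (Fx.mem_Sb ⟨g, hg, e⟩), ⟨e1, e2⟩, h.1, g, _, hg, rfl⟩
  · refine (congrArg Set.ncard (Set.eq_empty_of_forall_notMem ?_)).trans (Set.ncard_empty X)
    rintro _ ⟨e3, -, e4, k, l, e5, rfl⟩
    refine h ⟨e4, fun e => e3 ?_⟩
    obtain ⟨l', e6⟩ := (mem_Sb e1).1 e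
    exact (e6.congr rfl (((f.orth_isLam_iff).1 e6.lam).trans
      ((f.orth_isLam_iff).1 e5.lam).symm)).smul_eq e5

theorem om_struct {k : ℕ} (hk : finrank F V = k + 2) (h5 : 5 ≤ k) (hu : f.Q u = 0) (hu0 : u ≠ 0)
    (hP : PTr (commutator f.Isom) u Y) {p a q : ℕ} (hp : p.Prime) (hq : Nat.card F = q)
    (hpq : q = p ^ a) {v N D : ℕ} (hv : v * (q - 1) = {w | f.Q w = 0 ∧ w ≠ 0}.ncard)
    (hN : (Cs f u).ncard = q * N)
    (hD : ∀ c, c ≠ 0 → q * D ∣ {w | f.B w u = 0 ∧ f.Q w = c}.ncard) :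
    ∃ e r T μ l s t : ℕ, r = p ^ e ∧ 2 ≤ r ∧ r * T = q ^ k ∧ Y.card = μ * r ∧
      ((μ : ℤ) * r - 1) * l = v * (r - 1) ∧ p ^ 2 * T ^ 2 ≤ q ^ (k + 2) ∧ (s = 0 → T ^ 2 ≤ q ^ k) ∧
      s + t + 1 = T ∧ N ∣ μ * s ∧ D ∣ μ * t ∧ ((μ : ℤ) * r - 1) ∣ v * (q - 1) * q * (N - s) ∧
      (∀ ω ∈ Y, Nat.card (Sb f u ω) = q * T) ∧
      (s = 0 → ∀ ω ∈ Y, ∀ w ∈ Sb f u ω, f.Q w = 0 → w ∈ F ∙ u) := by
  classical
  obtain ⟨ω, hω, hn⟩ := S.exists_not_full hu hu0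
  have q2 : 2 ≤ q := hq ▸ Finite.one_lt_card
  have huu := f.B_self_of_Q hu
  obtain ⟨s, hs⟩ := dvd_ncard_of_add (F := F) hu0 (C := {w | w ∈ Cs f u ∧ w ∈ Sb f u ω})
    fun w hw c => ⟨⟨by simp [hw.1.1, huu], by rw [Q_add_smul hu hw.1.1, hw.1.2.1], fun e =>
      hw.1.2.2 ((Submodule.add_mem_iff_left _
        (Submodule.smul_mem _ _ (Submodule.mem_span_singleton_self u))).1 e)⟩,
      add_mem hw.2 (smul_self_mem_Sb c)⟩
  obtain ⟨t, ht⟩ := dvd_ncard_of_add (F := F) hu0 (C := {w | w ∈ Cn f u ∧ w ∈ Sb f u ω})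
    fun w hw c => ⟨⟨by simp [hw.1.1, huu], by rw [Q_add_smul hu hw.1.1]; exact hw.1.2⟩,
      add_mem hw.2 (smul_self_mem_Sb c)⟩
  rw [hq] at hs ht
  have key : ∀ ω' ∈ Y, ∀ z, f.Q z = 0 → z ≠ 0 →
      {w | w ∈ Cs f z ∧ w ∈ Sb f z ω'}.ncard = q * s ∧
      {w | w ∈ Cn f z ∧ w ∈ Sb f z ω'}.ncard = q * t ∧ (Cs f z).ncard = q * N ∧
      Nat.card (Sb f z ω') = q * (s + t + 1) ∧
      {c | SO f z ω' c}.ncard * (s + t + 1) = q ^ k := fun ω' hω' z hz hz0 => by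
    obtain ⟨g, -, b, hb, e1, rfl⟩ := hP.pair S hu hu0 hω hω' hz hz0
    have a1 := (ncard_Sb_conj (ω := ω) hz e1 hb (mem_Cs_conj e1 hb)).trans hs
    have a2 := (ncard_Sb_conj (ω := ω) hz e1 hb (mem_Cn_conj e1 hb)).trans ht
    have a3 : Nat.card (Sb f z (g • ω)) = q * (s + t + 1) := by
      rw [← card_Sb_split hz hz0, a1, a2, hq]; ring
    refine ⟨a1, a2, ?_, a3, ?_⟩
    · have b1 := card_sing (f := f) hu hu0
      have b2 := card_sing (f := f) hz hz0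
      rw [card_hyp_orth S.nd hu hu0 hk] at b1
      rw [card_hyp_orth S.nd hz hz0 hk] at b2
      omega
    · have b1 := card_orbit_aux hz (g • ω)
      rw [tau_orth, Lam_orth, AddSubgroup.card_bot, mul_one, mul_one, a3,
        card_perp_pow S.nd hz0 (k := k + 1) hk, hq] at b1
      exact Nat.eq_of_mul_eq_mul_left (show 0 < q by omega) (by rw [pow_succ'] at b1; linarith)
  obtain ⟨r, hr⟩ : ∃ r, {c | SO f u ω c}.ncard = r := ⟨_, rfl⟩
  have hT := (key ω hω u hu hu0).2.2.2.2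
  rw [hr] at hT
  have hr' : ∀ ω' ∈ Y, ∀ z, f.Q z = 0 → z ≠ 0 → {c | SO f z ω' c}.ncard = r :=
    fun ω' hω' z hz hz0 => Nat.eq_of_mul_eq_mul_right (show 0 < s + t + 1 by omega)
      ((key ω' hω' z hz hz0).2.2.2.2.trans hT.symm)
  obtain ⟨e, -, he⟩ := (Nat.dvd_prime_pow hp).1
    (show r ∣ p ^ (a * k) from Dvd.intro _ (by rw [hT, hpq, pow_mul]))
  obtain ⟨μ, hμ⟩ : r ∣ Y.card := dvd_card_of_equiv Y (SO f u) (fun c _ => SO.refl u c)
    (fun c hc d hd => ⟨S.cl hu (S.pinv u) c hc d hd, fun e =>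
      ⟨(hd.symm hu).trans hu, hd.trans hu⟩⟩) fun c hc => (hr' c hc u hu hu0).symm.dvd
  rw [mul_comm] at hμ
  obtain ⟨y, hy, hy'⟩ := exists_Cs_not_mem S.nd (by omega) hu hu0 hn
  have y0 : y ≠ 0 := fun e => hy.2.2 (e ▸ zero_mem _)
  obtain ⟨w, w1, w2, w3, w4⟩ := heis_Sb S.nd hu hy hy'
  rw [(key ω hω u hu hu0).2.2.2.1, (key ω hω y hy.2.1 y0).2.2.2.1,
    Module.natCard_eq_pow_finrank (K := F), hk, hq] at w4
  have w5 : (s + t + 1) ^ 2 ≤ q ^ k * w ^ 2 := by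
    have : q ^ 2 * (s + t + 1) ^ 2 ≤ q ^ 2 * (q ^ k * w ^ 2) := by
      rw [pow_add] at w4; linarith
    exact Nat.le_of_mul_le_mul_left this (pow_pos (by omega) 2)
  have w6 : p * w ≤ q := by
    rw [hq, hpq] at w1 w2
    obtain ⟨i, hi, rfl⟩ := (Nat.dvd_prime_pow hp).1 w1
    rw [← pow_succ', hpq]
    exact Nat.pow_le_pow_right hp.pos (lt_of_le_of_ne hi fun e => w2 (by rw [e]))
  have han : s = 0 → ∀ ω ∈ Y, ∀ w ∈ Sb f u ω, f.Q w = 0 → w ∈ F ∙ u := fun e ω' hω' w hw hQ => by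
    have b1 := (key ω' hω' u hu hu0).1
    rw [e, mul_zero, Set.ncard_eq_zero] at b1
    by_contra hc
    exact Set.eq_empty_iff_forall_notMem.1 b1 w ⟨⟨orth_of_mem_Sb hu hw, hQ, hc⟩, hw⟩
  have r0 : 0 < r := he ▸ pow_pos hp.pos e
  have r2 : 2 ≤ r := by
    by_contra hc
    have b1 := hr' ω hω u hu hu0
    rw [show r = 1 by omega, Set.ncard_eq_one] at b1
    obtain ⟨c, b1⟩ := b1
    obtain ⟨g, hg⟩ := exists_isE hu hy.1 (f.orth_isLam y)
    have b2 : ω ∈ ({c} : Set X) := b1 ▸ SO.refl u ω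
    have b3 : g • ω ∈ ({c} : Set X) := b1 ▸ ⟨g, _, _, hg, rfl⟩
    exact hy' (Fx.mem_Sb ⟨g, hg, b3.trans b2.symm⟩)
  obtain ⟨l, hl⟩ := exists_lam_SO S h2 h1 hω (by rw [hq, hv]) (hr' ω hω)
  have d1 := class_dvd S (by omega) hu hu0 (C := Cs f u) (fun w hw => ⟨hw.1, hw.2.2⟩) (D := q * N)
    (fun w hw => dvd_of_eq (hN.symm.trans (congrArg Set.ncard (Set.ext fun w' =>
      ⟨fun e => ⟨e, e.2.1.trans hw.2.1.symm⟩, fun e => e.1⟩))))
    (fun ω' hω' => hr' ω' hω' u hu hu0) fun ω' hω' => (key ω' hω' u hu hu0).1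
  have d2 := class_dvd S (by omega) hu hu0 (C := Cn f u)
    (fun w hw => ⟨hw.1, not_mem_span_of_Q hu hw.2⟩) (D := q * D)
    (fun w hw => (hD _ hw.2).trans (dvd_of_eq (congrArg Set.ncard (Set.ext fun w' =>
      ⟨fun e => ⟨⟨e.1, e.2 ▸ hw.2⟩, e.2⟩, fun e => ⟨e.1.1, e.2⟩⟩))))
    (fun ω' hω' => hr' ω' hω' u hu hu0) fun ω' hω' => (key ω' hω' u hu hu0).2.1
  have hsN : s ≤ N := by
    have : q * s ≤ q * N := by rw [← hs, ← hN]; exact Set.ncard_le_ncard fun w hw => hw.1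
    exact Nat.le_of_mul_le_mul_left this (by omega)
  have d3 := dvd_root_count S h2 h1 hω (m := q * (N - s)) fun z hz hz0 => by
    have b1 := Set.ncard_inter_add_ncard_sdiff_eq_ncard (Cs f z) (Sb f z ω)
    obtain ⟨b2, -, b3, -⟩ := key ω hω z hz hz0
    rw [b3, show Cs f z ∩ Sb f z ω = {w | w ∈ Cs f z ∧ w ∈ Sb f z ω} from rfl, b2] at b1
    rw [Nat.mul_sub]
    exact Nat.eq_sub_of_add_eq' b1
  refine ⟨e, r, s + t + 1, μ, l, s, t, he, r2, hT, hμ, ?_, ?_, fun e => ?_, rfl, ?_, ?_, ?_,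
    fun ω' hω' => (key ω' hω' u hu hu0).2.2.2.1, han⟩
  · zify [h1.le, show 1 ≤ r by omega] at hl hμ
    rw [← hμ, hl]
  · calc _ ≤ p ^ 2 * (q ^ k * w ^ 2) := by gcongr
      _ = q ^ k * (p * w) ^ 2 := by ring
      _ ≤ q ^ k * q ^ 2 := by gcongr
      _ = _ := by ring
  · rw [w3 fun c hc => ?_, one_pow, mul_one] at w5
    · exact w5
    · by_contra c0
      exact hy.2.2 ((Submodule.smul_mem_iff _ c0).1
        (han e ω hω _ hc (by rw [orth_Q_smul, hy.2.1, mul_zero])))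
  · rw [hμ, show q * N * r = q * r * N by ring, show μ * r * (q * s) = q * r * (μ * s) by ring] at d1
    exact Nat.dvd_of_mul_dvd_mul_left (by positivity) d1
  · rw [hμ, show q * D * r = q * r * D by ring, show μ * r * (q * t) = q * r * (μ * t) by ring] at d2
    exact Nat.dvd_of_mul_dvd_mul_left (by positivity) d2
  · rw [← hv, ← Int.natCast_dvd_natCast] at d3
    push_cast [h1.le, show 1 ≤ q by omega, hsN] at d3
    rw [hμ] at d3
    push_cast at d3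
    rwa [mul_assoc]

end Cfsg.Agent.T2
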