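import Cfsg.Agent.Lib.T2.OmT3
import Cfsg.Agent.Lib.T2.OmE

/-!
Orthogonal groups acting doubly transitively: the stabiliser of a singular point is intransitive.
-/

set_option autoImplicit false

namespace Cfsg.Agent.T2

open Module Cfsg.Agent.Forms Cfsg.Agent.Forms.Form Cfsg.Agent.Cls Cfsg.Agent.Deg Cfsg.Agent.MI Finset

variable {F : Type*} [Field F] {V : Type*} [AddCommGroup V] [Module F V]
  {f : Form (Param.orth F) V} [Fintype F] [Finite V] {u : V}
  {X : Type*} [MulAction f.Isom X] {Y : Finset X}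

theorem exists_card_pts (f : Form (Param.orth F) V) : ∃ v : ℕ,
    v * (Nat.card F - 1) = {w | f.Q w = 0 ∧ w ≠ 0}.ncard ∧
      (v : ℤ) * (Nat.card F - 1) = Nat.card {v // f.Q v = 0} - 1 := by
  classical
  have := Fintype.ofFinite V
  obtain ⟨v, hv⟩ := dvd_card_of_smul (F := F) (univ.filter fun w => f.Q w = 0 ∧ w ≠ 0)
    (fun w hw => (mem_filter.1 hw).2.2) fun w hw s hs => mem_filter.2 ⟨mem_univ _,
      by rw [f.Q_smul, (mem_filter.1 hw).2.1, mul_zero], smul_ne_zero hs (mem_filter.1 hw).2.2⟩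
  rw [← Set.ncard_coe_finset, coe_filter_univ, mul_comm] at hv
  refine ⟨v, hv.symm, ?_⟩
  have e := Set.ncard_sdiff_singleton_add_one (s := {w | f.Q w = 0}) (a := 0) f.Q_zero
  rw [show {w | f.Q w = 0} \ {0} = {w | f.Q w = 0 ∧ w ≠ 0} from rfl, hv] at e
  have q1 : 1 ≤ Nat.card F := Nat.card_pos
  zify [q1] at e
  rw [show Nat.card {v // f.Q v = 0} = {w | f.Q w = 0}.ncard from rfl, ← e]
  ring

variable (S : Sys f (commutator f.Isom) Y) (h2 : TwoY (commutator f.Isom) Y) (h1 : 1 < Y.card)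
include S h2 h1

theorem om_not_PTr_even {j : ℕ} (hk : finrank F V = 2 * j + 6 + 2) {ε : ℤ} (hε : ε = 1 ∨ ε = -1)
    {q x : ℕ} (hq : Nat.card F = q) (hx : x = q ^ (j + 3))
    (h0 : (Nat.card {v // f.Q v = 0} : ℤ) = q * x ^ 2 + ε * (q - 1) * x)
    (hc : ∀ c, c ≠ 0 → (Nat.card {v // f.Q v = c} : ℤ) = q * x ^ 2 - ε * x)
    (hB : 4 ≤ q ∨ ε = -1 → ((q : ℤ) * x - ε) * (x + ε) ≤ Y.card * (q - 1))
    (hB' : ε = 1 → (x : ℤ) * (q * x - 1) ≤ Y.card * (q - 1)) (hu : f.Q u = 0) (hu0 : u ≠ 0) :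
    ¬ PTr (commutator f.Isom) u Y := by
  intro hP
  obtain ⟨p, hpF⟩ := CharP.exists F
  obtain ⟨a, hp, ha⟩ := FiniteField.card F p
  rw [← Nat.card_eq_fintype_card, hq] at ha
  have q2 : 2 ≤ q := hq ▸ Finite.one_lt_card
  have εε : ε * ε = 1 := by rcases hε with rfl | rfl <;> rfl
  obtain ⟨y, hy⟩ : ∃ y, y = q ^ (j + 2) := ⟨_, rfl⟩
  have hxy : x = q * y := by rw [hx, hy]; ring
  have hxx : q ^ (2 * j + 6) = x ^ 2 := by rw [hx]; ring
  have y1 : 1 ≤ y := hy ▸ Nat.one_le_pow _ _ (by omega)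
  have x1 : 1 ≤ x := hx ▸ Nat.one_le_pow _ _ (by omega)
  have x0 : 0 ≤ (x : ℤ) - ε := by omega
  have y0 : 0 ≤ (y : ℤ) + ε := by omega
  obtain ⟨v, v1, v2⟩ := exists_card_pts f
  rw [hq] at v1 v2
  have v3 : (v : ℤ) * (q - 1) = (q * x - ε) * (x + ε) := by
    rw [v2, h0]; linear_combination εε
  have hL : ∀ c, ({w | f.B w u = 0 ∧ f.Q w = c}.ncard : ℤ) + (q - 1) * x ^ 2 =
      Nat.card {v // f.Q v = c} := fun c => by
    have := card_perp_Q S.nd hu hu0 hk c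
    rw [hq, hxx] at this
    zify [show 1 ≤ q by omega] at this
    exact this
  obtain ⟨N, hN⟩ := Int.eq_ofNat_of_zero_le (mul_nonneg x0 y0)
  obtain ⟨D, hD⟩ := Int.eq_ofNat_of_zero_le (mul_nonneg (Int.natCast_nonneg y) x0)
  have hxy' : (x : ℤ) = q * y := by exact_mod_cast hxy
  obtain ⟨e, r, T, μ, l, s, t, a1, a2, a3, a4, a5, a6, -, a7, a8, a9, a10, -⟩ :=
    om_struct S h2 h1 hk (by omega) hu hu0 hP hp hq ha v1 (N := N) (D := D) (by
      have e1 := card_Cs_add (f := f) hu hu0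
      have e2 := hL 0
      rw [h0, ← e1, hq] at e2
      zify
      rw [← hN]
      push_cast at e2
      linear_combination e2 + (x - ε) * hxy' + q * εε) fun c c0 => dvd_of_eq (by
      have e2 := hL c
      rw [hc c c0] at e2
      zify
      rw [← hD]
      linear_combination -e2 - (x - ε) * hxy')
  have q1 : (0 : ℤ) < q - 1 := by omega
  have b1 : 4 ≤ q ∨ ε = -1 → v ≤ μ * r := fun h => by
    have := hB h
    rw [← v3] at this
    exact_mod_cast a4 ▸ le_of_mul_le_mul_right this q1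
  refine om_num_even hp a.2 ha hy hxy hε a1 a2 (a3.trans hxx) v3 a5
    (a6.trans (le_of_eq (by rw [pow_add, hxx, mul_comm]))) a7 (hN ▸ by exact_mod_cast a8)
    (hD ▸ by exact_mod_cast a9) b1 ?_ (hN ▸ a10)
  rcases hε with rfl | rfl
  · zify
    refine le_of_mul_le_mul_right ?_ q1
    have := mul_le_mul_of_nonneg_left (hB' rfl) (show (0 : ℤ) ≤ x + 1 by omega)
    rw [a4] at this
    push_cast at this
    rw [mul_assoc, v3]
    linarith
  · exact Nat.mul_le_mul (Nat.le_succ x) (b1 (Or.inr rfl))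

end Cfsg.Agent.T2
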