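import Cfsg.Agent.Lib.T2.OmT4
import Cfsg.Agent.Lib.T2.OmO
import Cfsg.Agent.Lib.T2.OmR8
import Cfsg.Agent.Lib.T2.OmA

/-!
Odd-dimensional orthogonal groups acting doubly transitively: the stabiliser of a singular point is intransitive.
-/

set_option autoImplicit false

namespace Cfsg.Agent.T2

open Module Cfsg.Agent.Forms Cfsg.Agent.Forms.Form Cfsg.Agent.Cls Cfsg.Agent.Deg Cfsg.Agent.MI Finset

variable {F : Type*} [Field F] {V : Type*} [AddCommGroup V] [Module F V]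
  {f : Form (Param.orth F) V} [Fintype F] [Finite V] {u : V}
  {X : Type*} [MulAction f.Isom X] {Y : Finset X}

theorem om_not_PTr_odd (S : Sys f (commutator f.Isom) Y) (h2 : TwoY (commutator f.Isom) Y)
    (h1 : 1 < Y.card) {j : ℕ} (hk : finrank F V = 2 * j + 5 + 2) (h2F : (2 : F) ≠ 0)
    {q x : ℕ} (hq : Nat.card F = q) (hx : x = q ^ (j + 2))
    (h0 : (Nat.card {v // f.Q v = 0} : ℤ) = q ^ 2 * x ^ 2)
    (hc : ∀ c, c ≠ 0 → (Nat.card {v // f.Q v = c} : ℤ) = q ^ 2 * x ^ 2 + q * x ∨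
      (Nat.card {v // f.Q v = c} : ℤ) = q ^ 2 * x ^ 2 - q * x)
    (hB : 5 ≤ q → (q : ℤ) ^ 2 * x ^ 2 - 1 ≤ Y.card * (q - 1))
    (hB' : q = 3 → 3 * x * (3 * x - 1) ≤ 2 * Y.card) (hu : f.Q u = 0) (hu0 : u ≠ 0) :
    ¬ PTr (commutator f.Isom) u Y := by
  intro hP
  obtain ⟨p, hpF⟩ := CharP.exists F
  obtain ⟨a, hp, ha⟩ := FiniteField.card F p
  rw [← Nat.card_eq_fintype_card, hq] at ha
  have q2 : 2 ≤ q := hq ▸ Finite.one_lt_card
  have p2 : p ≠ 2 := by
    rintro rfl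
    exact h2F (by exact_mod_cast CharP.cast_eq_zero F 2)
  have hxx : q ^ (2 * j + 5) = q * x ^ 2 := by rw [hx]; ring
  have x1 : 1 ≤ x := hx ▸ Nat.one_le_pow _ _ (by omega)
  have x2 : 1 ≤ x ^ 2 := Nat.one_le_pow _ _ x1
  obtain ⟨v, v1, v2⟩ := exists_card_pts f
  rw [hq] at v1 v2
  rw [h0] at v2
  have hL : ∀ c, ({w | f.B w u = 0 ∧ f.Q w = c}.ncard : ℤ) + (q - 1) * (q * x ^ 2) =
      Nat.card {v // f.Q v = c} := fun c => by
    have := card_perp_Q S.nd hu hu0 hk c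
    rw [hq, hxx] at this
    zify [show 1 ≤ q by omega] at this
    exact this
  have hC : ∀ c, c ≠ 0 → {w | f.B w u = 0 ∧ f.Q w = c}.ncard = q * x * (x + 1) ∨
      {w | f.B w u = 0 ∧ f.Q w = c}.ncard = q * x * (x - 1) := fun c c0 => by
    have e := hL c
    zify [x1]
    exact (hc c c0).imp (fun h => by linear_combination e + h) fun h => by linear_combination e + h
  obtain ⟨e, r, T, μ, l, s, t, a1, a2, a3, a4, a5, a6, a6', a7, a8, a9, -, a10, a11⟩ :=
    om_struct S h2 h1 hk (by omega) hu hu0 hP hp hq ha v1 (N := x ^ 2 - 1) (D := x) (by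
      have e1 := card_Cs_add (f := f) hu hu0
      have e2 := hL 0
      rw [h0, ← e1, hq] at e2
      zify [x2]
      push_cast at e2
      linear_combination e2) fun c c0 => by
      rcases hC c c0 with h | h <;> exact h ▸ Dvd.intro _ rfl
  have q1 : (0 : ℤ) < q - 1 := by omega
  obtain ⟨b1, b2, b3⟩ := om_num_odd hp p2 a.2 ha hx a1 a2 (a3.trans hxx) v2 a5
    (a6.trans (le_of_eq (by rw [pow_add, hxx]; ring))) (hxx ▸ a6') a7
    (by zify [x2] at a8; exact a8) a9 (fun h => by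
      have := hB h
      rw [← v2] at this
      exact_mod_cast a4 ▸ le_of_mul_le_mul_right this q1) (a4 ▸ hB')
  have hn : Y.card = Nat.card F ^ (2 * j + 5 + 1) := by rw [a4, b1, hq, pow_succ q (2 * j + 5), hxx]; ring
  by_cases hr : ∀ ω ∈ Y, Reg f u ω
  · exact om_reg_false' S hk (by omega) h2F hu hu0 hP hr hn
  · push Not at hr
    obtain ⟨ω, hω, hr⟩ := hr
    refine om_aniso_false S (by omega) h2F hu hu0 hP hn (hq ▸ hx) (hq ▸ hC) hω (a11 b2 ω hω) ?_
      (by rw [a10 ω hω, hq]; gcongr)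
    by_contra hc
    push Not at hc
    exact hr ⟨hc, tau_orth u ω⟩

end Cfsg.Agent.T2
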