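/-
A doubly transitive action whose permutation module embeds in that of a rank three action: the degree is determined
by an eigenvalue of the strongly regular graph.
-/
import Cfsg.Agent.Lib.T2.Des

set_option autoImplicit false

namespace Cfsg.Agent.T2

open MulAction Finset Matrix

variable {G Ω X : Type*} [Group G] [MulAction G Ω] [MulAction G X]

/-- The matrix of a relation. -/
noncomputable def rmat {α β : Type*} (r : α → β → Prop) : Matrix α β ℚ := by
  classical exact Matrix.of fun a b => if r a b then 1 else 0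

theorem rmat_pos {α β : Type*} {r : α → β → Prop} {a : α} {b : β} (h : r a b) : rmat r a b = 1 := by
  simp [rmat, h]

theorem rmat_neg {α β : Type*} {r : α → β → Prop} {a : α} {b : β} (h : ¬ r a b) : rmat r a b = 0 := by
  simp [rmat, h]

theorem rmat_congr {α β : Type*} {r : α → β → Prop} {a a' : α} {b b' : β} (h : r a b ↔ r a' b') :
    rmat r a b = rmat r a' b' := by
  by_cases e : r a b
  · rw [rmat_pos e, rmat_pos (h.1 e)]
  · rw [rmat_neg e, rmat_neg (mt h.2 e)]

/-- The all one matrix. -/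
def jm (α β : Type*) : Matrix α β ℚ := Matrix.of fun _ _ => 1

@[simp] theorem jm_apply {α β : Type*} (a : α) (b : β) : jm α β a b = 1 := rfl

/-- Invariant matrices. -/
def MInv (G : Type*) [Group G] {α β : Type*} [MulAction G α] [MulAction G β] (M : Matrix α β ℚ) : Prop :=
  ∀ (g : G) a b, M (g • a) (g • b) = M a b

theorem MInv.mul {α β γ : Type*} [MulAction G α] [MulAction G β] [MulAction G γ] [Fintype β] {M : Matrix α β ℚ}
    {M' : Matrix β γ ℚ} (h : MInv G M) (h' : MInv G M') : MInv G (M * M') := fun g a c => by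
  simp only [Matrix.mul_apply]
  rw [← Equiv.sum_comp (MulAction.toPerm g)]
  exact Finset.sum_congr rfl fun b _ => by rw [toPerm_apply, h, h']

theorem MInv.transpose {α β : Type*} [MulAction G α] [MulAction G β] {M : Matrix α β ℚ} (h : MInv G M) :
    MInv G Mᵀ := fun g a b => h g b a

theorem minv_jm {α β : Type*} [MulAction G α] [MulAction G β] : MInv G (jm α β) := fun _ _ _ => rfl

theorem minv_rmat {α β : Type*} [MulAction G α] [MulAction G β] {r : α → β → Prop}
    (h : ∀ (g : G) a b, r a b → r (g • a) (g • b)) : MInv G (rmat r) := fun g a b =>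
  rmat_congr ⟨fun e => by simpa using h g⁻¹ _ _ e, h g a b⟩

theorem Two.minv [DecidableEq Ω] (h : Two G Ω) {M : Matrix Ω Ω ℚ} (hM : MInv G M) {a b : Ω} (hab : a ≠ b) :
    M = (M a a - M a b) • (1 : Matrix Ω Ω ℚ) + M a b • jm Ω Ω := by
  ext c d
  by_cases e : c = d
  · subst e
    obtain ⟨g, rfl⟩ := h.trans a c
    simp [hM g]
  · obtain ⟨g, rfl, rfl⟩ := h a b c d hab e
    simp [hM g, Matrix.one_apply_ne e]

theorem sum_rmat {α β : Type*} [Fintype β] (r : α → β → Prop) (a : α) :
    ∑ b, rmat r a b = ({b | r a b}.ncard : ℚ) := by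
  classical
  rw [show {b | r a b} = ((univ.filter (r a) : Finset β) : Set β) by ext; simp, Set.ncard_coe_finset]
  simp only [rmat, Matrix.of_apply, Finset.sum_boole]

theorem sum_rmat_mul {α β γ : Type*} [Fintype β] (r : α → β → Prop) (s : β → γ → Prop) (a : α) (c : γ) :
    (rmat r * rmat s) a c = ({b | r a b ∧ s b c}.ncard : ℚ) := by
  rw [← sum_rmat (fun (_ : Unit) b => r a b ∧ s b c) (), Matrix.mul_apply]
  refine Finset.sum_congr rfl fun b _ => ?_
  by_cases e1 : r a b <;> by_cases e2 : s b c <;> simp [rmat, e1, e2]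

/-- The rank three hypothesis. -/
structure Rk3 (G : Type*) [Group G] {X : Type*} [MulAction G X] (A : X → X → Prop) : Prop where
  irr : ∀ x, ¬ A x x
  symm : ∀ x y, A x y → A y x
  inv : ∀ (g : G) x y, A x y → A (g • x) (g • y)
  tr : ∀ x y : X, ∃ g : G, g • x = y
  adj : ∀ x y y', A x y → A x y' → ∃ g : G, g • x = x ∧ g • y = y'
  non : ∀ x y y', x ≠ y → ¬ A x y → x ≠ y' → ¬ A x y' → ∃ g : G, g • x = x ∧ g • y = y'

theorem Rk3.minv [DecidableEq X] {A : X → X → Prop} (R : Rk3 G A) {M : Matrix X X ℚ} (hM : MInv G M) {x y z : X}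
    (hy : A x y) (hz : x ≠ z) (hz' : ¬ A x z) :
    M = (M x x - M x z) • (1 : Matrix X X ℚ) + (M x y - M x z) • rmat A + M x z • jm X X := by
  ext c d
  obtain ⟨g, rfl⟩ := R.tr x c
  obtain ⟨d, rfl⟩ : ∃ d', d = g • d' := ⟨g⁻¹ • d, by simp⟩
  have hA := minv_rmat R.inv
  simp only [Matrix.add_apply, Matrix.smul_apply, hM g, hA g, jm_apply, smul_eq_mul, Matrix.one_apply,
    smul_left_cancel_iff]
  by_cases e : x = d
  · subst e
    simp [rmat_neg (R.irr x)]
  by_cases e' : A x d
  · obtain ⟨k, e1, rfl⟩ := R.adj x y d hy e'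
    rw [if_neg e, rmat_pos e']
    conv_lhs => rw [← e1, hM k]
    ring
  · obtain ⟨k, e1, rfl⟩ := R.non x z d hz hz' e e'
    rw [if_neg e, rmat_neg e']
    conv_lhs => rw [← e1, hM k]
    ring

theorem Two.srg [Finite Ω] [Finite X] (h : Two G Ω) {I : Ω → X → Prop}
    (hI : ∀ (g : G) a x, I a x → I (g • a) (g • x)) {a₀ b₀ : Ω} {x₀ : X} (h1 : I a₀ x₀) (h2 : ¬ I b₀ x₀)
    {A : X → X → Prop} (R : Rk3 G A) {x y z : X} (hy : A x y) (hz : x ≠ z) (hz' : ¬ A x z) {n v k m : ℚ}
    (hn : n = Nat.card Ω) (hv : v = Nat.card X) (hk : k = {w | A x w}.ncard)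
    (hm : m = {w | A x w ∧ A w z}.ncard) :
    ∃ l θ : ℚ, k * (k - l - 1) = (v - k - 1) * m ∧ θ ^ 2 - (l - m) * θ - (k - m) = 0 ∧
      (n - 1) * (l - m - 2 * θ) = -((v - 1) * θ + k) := by
  classical
  have := Fintype.ofFinite Ω
  have := Fintype.ofFinite X
  rw [Nat.card_eq_fintype_card] at hn hv
  have hne : a₀ ≠ b₀ := fun e => h2 (e ▸ h1)
  set N := rmat I with hN
  set B := rmat A with hB
  have iN : MInv G N := minv_rmat hI
  have iB : MInv G B := minv_rmat R.inv
  have Bxx : B x x = 0 := rmat_neg (R.irr x)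
  have Bxy : B x y = 1 := rmat_pos hy
  have Bxz : B x z = 0 := rmat_neg hz'
  have hxy : x ≠ y := fun e => R.irr x (e ▸ hy)
  have Bt : Bᵀ = B := by
    ext c d; exact rmat_congr ⟨R.symm _ _, R.symm _ _⟩
  have BJ : B * jm X X = k • jm X X := by
    ext c d
    obtain ⟨g, rfl⟩ := R.tr x c
    obtain ⟨d, rfl⟩ : ∃ d', d = g • d' := ⟨g⁻¹ • d, by simp⟩
    rw [iB.mul minv_jm g]
    simp [Matrix.mul_apply, hB, sum_rmat, hk]
  have Jt : (jm X X)ᵀ = jm X X := rfl
  have JB : jm X X * B = k • jm X X := by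
    have := congrArg Matrix.transpose BJ
    rwa [Matrix.transpose_mul, Bt, Matrix.transpose_smul, Jt] at this
  have JJ : jm X X * jm X X = v • jm X X := by
    ext c d; simp [Matrix.mul_apply, hv]
  have BB := R.minv (iB.mul iB) hy hz hz'
  have e1 : (B * B) x x = k := by
    rw [hB, sum_rmat_mul, hk]
    congr 2; ext w; exact ⟨fun h => h.1, fun h => ⟨h, R.symm _ _ h⟩⟩
  have e2 : (B * B) x z = m := by rw [hB, sum_rmat_mul, hm]
  rw [e1, e2, ← hB] at BB
  set l := (B * B) x y
  have hl : k * (k - l - 1) = (v - k - 1) * m := by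
    have e : B * B * jm X X = (k * k) • jm X X := by
      rw [Matrix.mul_assoc, BJ, Matrix.mul_smul, BJ, smul_smul]
    rw [BB] at e
    simp only [Matrix.add_mul, Matrix.smul_mul, Matrix.one_mul, BJ, JJ] at e
    have := congrFun (congrFun e x) x
    simp at this
    linarith
  -- block size and replication number
  set k₀ := (Nᵀ * jm Ω X) x x with hk₀
  have NJ : ∀ (c d : X), (Nᵀ * jm Ω X) c d = k₀ := fun c d => by
    obtain ⟨g, rfl⟩ := R.tr x c
    obtain ⟨d, rfl⟩ : ∃ d', d = g • d' := ⟨g⁻¹ • d, by simp⟩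
    rw [iN.transpose.mul minv_jm g]
    simp [hk₀, Matrix.mul_apply]
  have NJ' : ∀ (c : X) (d : Ω), (Nᵀ * jm Ω Ω) c d = k₀ := fun c d => by
    rw [← NJ c c]; simp [Matrix.mul_apply]
  have NJN : Nᵀ * jm Ω Ω * N = (k₀ * k₀) • jm X X := by
    ext c d
    rw [Matrix.mul_apply]
    rw [Finset.sum_congr rfl fun j _ => by rw [NJ' c j], ← Finset.mul_sum]
    have := NJ d d
    simp only [Matrix.mul_apply, jm_apply, mul_one, Matrix.transpose_apply] at this
    simp [this]
  have NN := h.minv (iN.mul iN.transpose) hne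
  set r₀ := (N * Nᵀ) a₀ a₀ with hr₀
  set l₀ := (N * Nᵀ) a₀ b₀ with hl₀
  have N2 : ∀ a c, N a c * N a c = N a c := fun a c => by
    by_cases e : I a c
    · simp [hN, rmat_pos e]
    · simp [hN, rmat_neg e]
  have hγ : 0 < r₀ - l₀ := by
    rw [hr₀, hl₀, Matrix.mul_apply, Matrix.mul_apply, ← Finset.sum_sub_distrib]
    refine Finset.sum_pos' (fun c _ => ?_) ⟨x₀, Finset.mem_univ _, ?_⟩
    · by_cases e : I a₀ c <;> by_cases e' : I b₀ c <;> simp [hN, rmat, e, e']
    · simp [hN, rmat, h1, h2]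
  have row : ∀ a, ∑ c, N a c = r₀ := fun a => by
    have := congrFun (congrFun NN a) a
    simp only [Matrix.mul_apply, Matrix.transpose_apply, N2] at this
    simpa using this
  have col : ∀ c, ∑ a, N a c = k₀ := fun c => by
    simpa [Matrix.mul_apply] using NJ c c
  have c1 : v * k₀ = n * r₀ := by
    have : ∑ c, ∑ a, N a c = ∑ a, ∑ c, N a c := Finset.sum_comm
    simpa [row, col, hv, hn] using this
  have c2 : r₀ * k₀ = (r₀ - l₀) + l₀ * n := by
    have e : ∑ b, (N * Nᵀ) a₀ b = r₀ * k₀ := by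
      simp only [Matrix.mul_apply, Matrix.transpose_apply]
      rw [Finset.sum_comm]
      simp only [← Finset.mul_sum, col, ← Finset.sum_mul, row]
    rw [NN] at e
    simp [Finset.sum_add_distrib, Matrix.one_apply, ← hn] at e
    linarith
  have MM := R.minv (iN.transpose.mul iN) hy hz hz'
  have e3 : (Nᵀ * N) x x = k₀ := by simp only [Matrix.mul_apply, Matrix.transpose_apply, N2, col]
  rw [e3, ← hB] at MM
  set s := (Nᵀ * N) x y
  set t := (Nᵀ * N) x z
  have c3 : (k₀ - t) + (s - t) * k + t * v = k₀ * r₀ := by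
    have e : ∑ c, (Nᵀ * N) x c = k₀ * r₀ := by
      simp only [Matrix.mul_apply, Matrix.transpose_apply]
      rw [Finset.sum_comm]
      simp only [← Finset.mul_sum, row, ← Finset.sum_mul, col]
    have e' := congrFun (congrFun BJ x) x
    simp only [Matrix.mul_apply, jm_apply, mul_one, Matrix.smul_apply, smul_eq_mul] at e'
    rw [MM] at e
    simp [Finset.sum_add_distrib, Matrix.one_apply, ← hv, ← Finset.mul_sum, e'] at e
    linarith
  have c4 : (n - 1) * (r₀ - l₀) = (v - 1) * (k₀ - t) - (s - t) * k := by linear_combination c3 - c1 + c2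
  have hn1 : 1 < n := by
    rw [hn]; exact_mod_cast Fintype.one_lt_card_iff.2 ⟨a₀, b₀, hne⟩
  have M2 : Nᵀ * N * (Nᵀ * N) = (r₀ - l₀) • (Nᵀ * N) + (l₀ * (k₀ * k₀)) • jm X X := by
    rw [Matrix.mul_assoc, ← Matrix.mul_assoc N, NN, ← Matrix.mul_assoc]
    simp only [Matrix.mul_add, Matrix.add_mul, Matrix.mul_smul, Matrix.smul_mul, Matrix.mul_one, NJN, smul_smul]
  by_cases hs : s - t = 0
  · exfalso
    have T := h.minv ((iN.mul iB).mul iN.transpose) hne
    generalize (N * B * Nᵀ) a₀ a₀ = a' at T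
    generalize (N * B * Nᵀ) a₀ b₀ = b' at T
    have e : Nᵀ * N * B * (Nᵀ * N) = (a' - b') • (Nᵀ * N) + (b' * (k₀ * k₀)) • jm X X := by
      rw [show Nᵀ * N * B * (Nᵀ * N) = Nᵀ * (N * B * Nᵀ) * N by simp only [Matrix.mul_assoc], T]
      simp only [Matrix.mul_add, Matrix.add_mul, Matrix.mul_smul, Matrix.smul_mul, Matrix.mul_one, NJN, smul_smul]
    rw [MM, hs] at e
    simp only [zero_smul, add_zero, Matrix.mul_add, Matrix.add_mul, Matrix.mul_smul, Matrix.smul_mul,
      Matrix.mul_one, Matrix.one_mul, JB, BJ, JJ] at e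
    have f1 := congrFun (congrFun e x) y
    have f2 := congrFun (congrFun e x) z
    simp [Bxy, Bxz, Matrix.one_apply_ne hxy, Matrix.one_apply_ne hz] at f1 f2
    have : (k₀ - t) * (k₀ - t) = 0 := by linarith
    rw [hs, mul_self_eq_zero.1 this] at c4
    nlinarith [mul_pos (sub_pos.2 hn1) hγ]
  · rw [MM] at M2
    simp only [Matrix.mul_add, Matrix.add_mul, Matrix.mul_smul, Matrix.smul_mul,
      Matrix.mul_one, Matrix.one_mul, JB, BJ, JJ] at M2
    rw [BB] at M2
    have f0 := congrFun (congrFun M2 x) x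
    have f1 := congrFun (congrFun M2 x) y
    have f2 := congrFun (congrFun M2 x) z
    simp [Bxx, Bxy, Bxz, Matrix.one_apply_ne hxy, Matrix.one_apply_ne hz] at f0 f1 f2
    have g1 : r₀ - l₀ = 2 * (k₀ - t) + (s - t) * (l - m) :=
      mul_left_cancel₀ hs (by linear_combination f2 - f1)
    refine ⟨l, -(k₀ - t) / (s - t), hl, ?_, ?_⟩
    · field_simp
      linear_combination f2 - f0 - (k₀ - t) * g1
    · field_simp
      linear_combination c4 - (n - 1) * g1

end Cfsg.Agent.T2
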