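/-
Doubly transitive actions of classical groups: the action on singular points.
-/
import Cfsg.Agent.Lib.T2.Srg
import Cfsg.Agent.Lib.MI.Tr

set_option autoImplicit false

namespace Cfsg.Agent.T2

open MulAction Module Cfsg.Agent.Forms Cfsg.Agent.Forms.Form Cfsg.Agent.Cls Cfsg.Agent.MI

variable {F : Type*} [Field F] {P : Param F} {V : Type*} [AddCommGroup V] [Module F V] {f : Form P V}

/-- The singular points. -/
def Pt (f : Form P V) : Type _ := {p : Submodule F V // ∃ u, u ≠ 0 ∧ f.Q u = 0 ∧ p = F ∙ u}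

theorem isom_ne_zero (g : f.Isom) {u : V} (h : u ≠ 0) : g.1 u ≠ 0 := by simpa using h

instance instMulActionPt : MulAction f.Isom (Pt f) where
  smul g p := ⟨p.1.map (g.1 : V →ₗ[F] V), by
    obtain ⟨u, h0, hQ, e⟩ := p.2
    exact ⟨g.1 u, isom_ne_zero g h0, by rw [Isom.map_Q, hQ], by rw [e, Submodule.map_span, Set.image_singleton]; rfl⟩⟩
  one_smul p := Subtype.ext (Submodule.map_id _)
  mul_smul g h p := Subtype.ext (Submodule.map_comp _ _ _)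

instance instFinitePt [Finite V] : Finite (Pt f) :=
  Finite.of_injective (fun p : Pt f => (p.1 : Set V)) fun _ _ h => Subtype.ext (SetLike.coe_injective h)

/-- The point spanned by a singular vector. -/
def pt (u : V) (h0 : u ≠ 0) (hQ : f.Q u = 0) : Pt f := ⟨F ∙ u, u, h0, hQ, rfl⟩

theorem exists_pt (x : Pt f) : ∃ u h0 hQ, x = pt u h0 hQ := by
  obtain ⟨u, h0, hQ, e⟩ := x.2
  exact ⟨u, h0, hQ, Subtype.ext e⟩

theorem smul_pt (g : f.Isom) (u : V) (h0 : u ≠ 0) (hQ : f.Q u = 0) :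
    g • pt u h0 hQ = pt (g.1 u) (isom_ne_zero g h0) (by rw [Isom.map_Q, hQ]) :=
  Subtype.ext (by
    show (F ∙ u).map (g.1 : V →ₗ[F] V) = F ∙ g.1 u
    rw [Submodule.map_span, Set.image_singleton]; rfl)

theorem pt_eq_iff {u w : V} {h0 : u ≠ 0} {hQ : f.Q u = 0} {h0' : w ≠ 0} {hQ' : f.Q w = 0} :
    pt u h0 hQ = pt w h0' hQ' ↔ u ∈ F ∙ w := by
  constructor
  · intro h
    have : (F ∙ u) = F ∙ w := congrArg Subtype.val h
    exact this ▸ Submodule.mem_span_singleton_self u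
  · intro h
    obtain ⟨a, rfl⟩ := Submodule.mem_span_singleton.1 h
    exact Subtype.ext (Submodule.span_singleton_smul_eq (IsUnit.mk0 a (left_ne_zero_of_smul h0)) w)

theorem smul_pt_eq_iff {G : Subgroup f.Isom} (g : G) {u w : V} {h0 : u ≠ 0} {hQ : f.Q u = 0} {h0' : w ≠ 0}
    {hQ' : f.Q w = 0} : g • pt u h0 hQ = pt w h0' hQ' ↔ g.1.1 u ∈ F ∙ w := by
  rw [Subgroup.smul_def, smul_pt, pt_eq_iff]

theorem exists_smul_of_mem {u w : V} (h0 : u ≠ 0) (h : u ∈ F ∙ w) : ∃ a : F, a ≠ 0 ∧ u = a • w := by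
  obtain ⟨a, rfl⟩ := Submodule.mem_span_singleton.1 h
  exact ⟨a, left_ne_zero_of_smul h0, rfl⟩

theorem ncard_pt [Finite F] [Finite V] {S : Set V} (h0 : ∀ u ∈ S, u ≠ 0 ∧ f.Q u = 0)
    (hs : ∀ a : F, a ≠ 0 → ∀ u ∈ S, a • u ∈ S) {T : Set (Pt f)} (hT : ∀ u h0 hQ, pt u h0 hQ ∈ T ↔ u ∈ S) :
    T.ncard * (Nat.card F - 1) = S.ncard := by
  classical
  choose r r0 rQ hr using fun x : Pt f => exists_pt x
  rw [← Nat.card_units, ← Nat.card_coe_set_eq, ← Nat.card_prod, ← Nat.card_coe_set_eq]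
  refine Nat.card_eq_of_bijective (fun p => ⟨(p.2 : F) • r p.1, hs _ p.2.ne_zero _ ((hT _ _ _).1 (hr p.1.1 ▸ p.1.2))⟩)
    ⟨?_, ?_⟩
  · rintro ⟨x, a⟩ ⟨y, b⟩ e
    have e' : (a : F) • r x = (b : F) • r y := congrArg Subtype.val e
    have : x.1 = y.1 := by
      rw [hr x.1, hr y.1, pt_eq_iff]
      exact Submodule.mem_span_singleton.2 ⟨(a : F)⁻¹ * b, by rw [mul_smul, ← e', inv_smul_smul₀ a.ne_zero]⟩
    obtain rfl : x = y := Subtype.ext this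
    rw [Units.ext (smul_left_injective F (r0 x) e')]
  · rintro ⟨u, hu⟩
    obtain ⟨a, ha, e⟩ := exists_smul_of_mem (h0 u hu).1 (pt_eq_iff.1 (hr (pt u (h0 u hu).1 (h0 u hu).2)))
    exact ⟨(⟨pt u (h0 u hu).1 (h0 u hu).2, (hT u (h0 u hu).1 (h0 u hu).2).2 hu⟩, Units.mk0 a ha),
      Subtype.ext e.symm⟩

theorem Q_smul_eq_zero {u : V} (a : F) (h : f.Q u = 0) : f.Q (a • u) = 0 :=
  ((f.isLam_zero_of_Q h).smul a |>.1).symm.trans (by simp)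

theorem card_pt [Finite F] [Finite V] :
    Nat.card (Pt f) * (Nat.card F - 1) = {w | f.Q w = 0 ∧ w ≠ 0}.ncard := by
  rw [← Set.ncard_univ]
  exact ncard_pt (S := {w | f.Q w = 0 ∧ w ≠ 0}) (fun u h => ⟨h.2, h.1⟩)
    (fun a ha u h => ⟨Q_smul_eq_zero a h.1, smul_ne_zero ha h.2⟩)
    fun u h0 hQ => iff_of_true trivial (And.intro hQ h0)

/-- Distinct orthogonal points. -/
def Perp (x y : Pt f) : Prop := x ≠ y ∧ ∀ u ∈ x.1, ∀ w ∈ y.1, f.B u w = 0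

theorem perp_pt {u w : V} {h0 : u ≠ 0} {hQ : f.Q u = 0} {h0' : w ≠ 0} {hQ' : f.Q w = 0} :
    Perp (pt u h0 hQ) (pt w h0' hQ') ↔ w ∉ F ∙ u ∧ f.B w u = 0 := by
  rw [Perp, ne_comm, Ne, pt_eq_iff]
  refine and_congr_right fun _ => ⟨fun h => f.B_eq_zero_symm (h u (Submodule.mem_span_singleton_self u) w
    (Submodule.mem_span_singleton_self w)), fun h x hx y hy => ?_⟩
  obtain ⟨a, rfl⟩ := Submodule.mem_span_singleton.1 hx
  obtain ⟨b, rfl⟩ := Submodule.mem_span_singleton.1 hy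
  rw [B_smul_left, B_smul_right, f.B_eq_zero_symm h, mul_zero, mul_zero]

variable [FiniteDimensional F V] {G : Subgroup f.Isom}

theorem exists_map_sing (hf : f.Nondeg) (hb : Big f) (ein : ∀ {g u v l}, f.Q u = 0 → IsE g u v l → g ∈ G)
    {u u' : V} (hu : f.Q u = 0) (hu0 : u ≠ 0) (hu' : f.Q u' = 0) (hu0' : u' ≠ 0) :
    ∃ g ∈ G, ∃ s : F, s ≠ 0 ∧ g.1 u = s • u' := by
  obtain ⟨z, hz, h1, h2⟩ := exists_nonorth hf hb hu hu0 hu' hu0'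
  obtain ⟨g, v, l, s, hs, hg, e⟩ := exists_isE_map hz hu hu' h1 h2
  exact ⟨g, ein hz hg, s, hs, e⟩

theorem pt_trans (hf : f.Nondeg) (hb : Big f) (ein : ∀ {g u v l}, f.Q u = 0 → IsE g u v l → g ∈ G) (x y : Pt f) :
    ∃ g : G, g • x = y := by
  obtain ⟨u, h0, hQ, rfl⟩ := exists_pt x
  obtain ⟨w, h0', hQ', rfl⟩ := exists_pt y
  obtain ⟨g, hg, s, -, e⟩ := exists_map_sing hf hb ein hQ h0 hQ' h0'
  exact ⟨⟨g, hg⟩, (smul_pt_eq_iff _).2 (Submodule.mem_span_singleton.2 ⟨s, e.symm⟩)⟩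

theorem index_stab_pt (hf : f.Nondeg) (hb : Big f) (ein : ∀ {g u v l}, f.Q u = 0 → IsE g u v l → g ∈ G)
    (x : Pt f) : (stabilizer G x).index = Nat.card (Pt f) :=
  have : IsPretransitive G (Pt f) := ⟨pt_trans hf hb ein⟩
  index_stabilizer_of_transitive G x

theorem rk3_pt (hf : f.Nondeg) (hb : Big f) (ein : ∀ {g u v l}, f.Q u = 0 → IsE g u v l → g ∈ G)
    (hadj : ∀ u y y', f.Q u = 0 → u ≠ 0 → y ∈ Cs f u → y' ∈ Cs f u →
      ∃ g ∈ G, g.1 u ∈ F ∙ u ∧ g.1 y ∈ F ∙ y') : Rk3 G (Perp (f := f)) where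
  irr x h := h.1 rfl
  symm x y h := ⟨h.1.symm, fun u hu w hw => f.B_eq_zero_symm (h.2 w hw u hu)⟩
  inv g x y h := ⟨fun e => h.1 (smul_left_cancel g e), by
    rintro _ ⟨u, hu, rfl⟩ _ ⟨w, hw, rfl⟩
    exact (Isom.map_B g.1 u w).trans (h.2 u hu w hw)⟩
  tr := pt_trans hf hb ein
  adj x y y' h h' := by
    obtain ⟨u, h0, hQ, rfl⟩ := exists_pt x
    obtain ⟨w, h1, hQ1, rfl⟩ := exists_pt y
    obtain ⟨w', h2, hQ2, rfl⟩ := exists_pt y'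
    rw [perp_pt] at h h'
    obtain ⟨g, hg, e1, e2⟩ := hadj u w w' hQ h0 ⟨h.2, hQ1, h.1⟩ ⟨h'.2, hQ2, h'.1⟩
    exact ⟨⟨g, hg⟩, (smul_pt_eq_iff _).2 e1, (smul_pt_eq_iff _).2 e2⟩
  non x y y' h1 h h1' h' := by
    obtain ⟨u, h0, hQ, rfl⟩ := exists_pt x
    obtain ⟨w, h2, hQ1, rfl⟩ := exists_pt y
    obtain ⟨w', h3, hQ2, rfl⟩ := exists_pt y'
    rw [perp_pt] at h h'
    rw [ne_comm, Ne, pt_eq_iff] at h1 h1'
    obtain ⟨g, v, l, s, hs, hg, e⟩ := exists_isE_map hQ hQ1 hQ2 (B_ne_symm fun e => h ⟨h1, e⟩)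
      (B_ne_symm fun e => h' ⟨h1', e⟩)
    exact ⟨⟨g, ein hQ hg⟩, (smul_pt_eq_iff _).2 (by
      rw [hg.apply_self hQ]; exact Submodule.mem_span_singleton_self u),
      (smul_pt_eq_iff _).2 (Submodule.mem_span_singleton.2 ⟨s, e.symm⟩)⟩

omit [FiniteDimensional F V] in
theorem ncard_Cs [Finite F] [Finite V] {u e : V} (he : f.HypPair u e) :
    {w | (w ≠ 0 ∧ f.Q w = 0) ∧ f.B w u = 0 ∧ f.B w e = 0}.ncard * Nat.card F = (Cs f u).ncard := by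
  rw [← Nat.card_coe_set_eq, ← Nat.card_prod, ← Nat.card_coe_set_eq]
  have hB : ∀ (w : V) (s : F), f.B w e = 0 → f.B (w + s • u) e = s := fun w s h => by
    rw [B_add_left, B_smul_left, h, he.Bue, zero_add, mul_one]
  refine Nat.card_eq_of_bijective (fun p => ⟨p.1.1 + p.2 • u, ?_, ?_, fun h => ?_⟩) ⟨?_, ?_⟩
  · rw [B_add_left, B_smul_left, p.1.2.2.1, he.Buu, mul_zero, add_zero]
  · rw [Q_add_smul he.Qu p.1.2.2.1, p.1.2.1.2]
  · obtain ⟨a, ha⟩ := Submodule.mem_span_singleton.1 h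
    have h1 := hB p.1.1 p.2 p.1.2.2.2
    rw [← ha, B_smul_left, he.Bue, mul_one] at h1
    rw [h1] at ha
    exact p.1.2.1.1 (by simpa using ha.symm)
  · rintro ⟨w, s⟩ ⟨w', s'⟩ h
    have h' : w.1 + s • u = w'.1 + s' • u := congrArg Subtype.val h
    have := hB w.1 s w.2.2.2
    rw [h', hB _ _ w'.2.2.2] at this
    subst this
    rw [Subtype.ext (add_right_cancel h')]
  · rintro ⟨y, h1, h2, h3⟩
    refine ⟨(⟨y + (-f.B y e) • u, ⟨fun h => h3 ?_, ?_⟩, ?_, ?_⟩, f.B y e), Subtype.ext (by simp)⟩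
    · exact Submodule.mem_span_singleton.2 ⟨f.B y e, by rw [neg_smul, add_neg_eq_zero] at h; exact h.symm⟩
    · rw [Q_add_smul he.Qu h1, h2]
    · rw [B_add_left, B_smul_left, h1, he.Buu, mul_zero, add_zero]
    · rw [B_add_left, B_smul_left, he.Bue, mul_one, add_neg_cancel]

variable {Ω : Type*} [MulAction G Ω] [Finite Ω] [Finite F] [Finite V]

/-- The point stabiliser is intransitive: the degree comes from the strongly regular graph. Here `t = |F|`,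
`v` is the number of points, `k` the number of points orthogonal to a given one. -/
theorem Two.pol (h : Two G Ω) (hf : f.Nondeg) (hb : Big f) (ein : ∀ {g u v l}, f.Q u = 0 → IsE g u v l → g ∈ G)
    (hadj : ∀ u y y', f.Q u = 0 → u ≠ 0 → y ∈ Cs f u → y' ∈ Cs f u →
      ∃ g ∈ G, g.1 u ∈ F ∙ u ∧ g.1 y ∈ F ∙ y') {u e y : V} (he : f.HypPair u e) (hy : y ∈ Cs f u)
    (hP : ¬ ∀ a b : Ω, ∃ g : G, g.1.1 u ∈ F ∙ u ∧ g • a = b) {n t v k : ℚ} (hn : n = Nat.card Ω)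
    (ht : t = Nat.card F) (hv : v * (t - 1) = {w | f.Q w = 0 ∧ w ≠ 0}.ncard) (hk : k * (t - 1) = (Cs f u).ncard) :
    ∃ l θ : ℚ, k * (k - l - 1) = (v - k - 1) * (k / t) ∧ θ ^ 2 - (l - k / t) * θ - (k - k / t) = 0 ∧
      (n - 1) * (l - k / t - 2 * θ) = -((v - 1) * θ + k) := by
  have h1 : 1 < Nat.card F := Finite.one_lt_card
  have ht1 : t - 1 ≠ 0 := by rw [ht, sub_ne_zero]; exact_mod_cast h1.ne'
  have ht0 : t ≠ 0 := by rw [ht]; exact_mod_cast (by omega : Nat.card F ≠ 0)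
  have cast : ∀ a b : ℕ, a * (Nat.card F - 1) = b → (a : ℚ) * (t - 1) = b := fun a b h => by
    rw [← h, ht]; push_cast [h1.le]; rfl
  obtain ⟨I, hI, a, b, x, i1, i2⟩ := exists_inc' (G := G) (Ω := Ω) (x₀ := pt u he.u_ne_zero he.Qu) fun hc =>
    hP fun a b => let ⟨g, e1, e2⟩ := hc a b; ⟨g, (smul_pt_eq_iff g).1 e1, e2⟩
  have hy0 : y ≠ 0 := fun e => hy.2.2 (e ▸ Submodule.zero_mem _)
  have hue : f.B e u ≠ 0 := by rw [he.Beu]; exact P.ε_ne_zero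
  have heu : e ∉ F ∙ u := not_mem_span_of_B he.Buu hue
  refine h.srg hI i1 i2 (rk3_pt hf hb ein hadj) (x := pt u he.u_ne_zero he.Qu) (y := pt y hy0 hy.2.1)
    (z := pt e he.e_ne_zero he.Qe) (perp_pt.2 ⟨hy.2.2, hy.1⟩) (fun e => heu (pt_eq_iff.1 e.symm))
    (fun h => hue (perp_pt.1 h).2) hn (mul_right_cancel₀ ht1 ?_) (mul_right_cancel₀ ht1 ?_)
    (mul_right_cancel₀ ht1 ?_)
  · rw [hv, cast _ _ card_pt]
  · rw [hk, cast _ _ (ncard_pt (S := Cs f u) (fun w hw => ⟨fun e => hw.2.2 (e ▸ Submodule.zero_mem _), hw.2.1⟩)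
      (fun a ha w hw => ⟨by rw [B_smul_left, hw.1, mul_zero], Q_smul_eq_zero a hw.2.1,
        fun h => hw.2.2 ((Submodule.smul_mem_iff _ ha).1 h)⟩)
      fun w h0 hQ => perp_pt.trans ⟨fun h => ⟨h.2, hQ, h.1⟩, fun h => ⟨h.2.2, h.1⟩⟩)]
  · rw [cast _ _ (ncard_pt (S := {w | (w ≠ 0 ∧ f.Q w = 0) ∧ f.B w u = 0 ∧ f.B w e = 0}) (fun w hw => hw.1)
      (fun a ha w hw => ⟨⟨smul_ne_zero ha hw.1.1, Q_smul_eq_zero a hw.1.2⟩, by rw [B_smul_left, hw.2.1, mul_zero],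
        by rw [B_smul_left, hw.2.2, mul_zero]⟩) fun w h0 hQ => ?_), div_mul_eq_mul_div, hk, ← ncard_Cs he, ht]
    · push_cast
      rw [← ht, mul_div_cancel_right₀ _ ht0]
    · simp only [Set.mem_ofPred_eq, perp_pt]
      refine ⟨fun h => ⟨⟨h0, hQ⟩, h.1.2, f.B_eq_zero_symm h.2.2⟩, fun h => ⟨⟨fun hc => ?_, h.2.1⟩,
        not_mem_span_of_B h.2.1 hue, f.B_eq_zero_symm h.2.2⟩⟩
      obtain ⟨a, ha, rfl⟩ := exists_smul_of_mem h0 hc
      have := h.2.2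
      rw [B_smul_left, he.Bue, mul_one] at this
      exact ha this

/-- The point stabiliser is intransitive: Fisher's inequality. -/
theorem Two.card_le_pt (h : Two G Ω) {u : V} (hu0 : u ≠ 0) (hu : f.Q u = 0)
    (hP : ¬ ∀ a b : Ω, ∃ g : G, g.1.1 u ∈ F ∙ u ∧ g • a = b) : Nat.card Ω ≤ Nat.card (Pt f) := by
  obtain ⟨I, hI, a, b, x, i1, i2⟩ := exists_inc' (G := G) (Ω := Ω) (x₀ := pt u hu0 hu) fun hc =>
    hP fun a b => let ⟨g, e1, e2⟩ := hc a b; ⟨g, (smul_pt_eq_iff g).1 e1, e2⟩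
  exact h.card_le hI i1 i2

/-- The point stabiliser is transitive. -/
theorem Two.exists_lam_pt [Nontrivial Ω] (h : Two G Ω) (hf : f.Nondeg) (hb : Big f)
    (ein : ∀ {g u v l}, f.Q u = 0 → IsE g u v l → g ∈ G) {u : V} (hu0 : u ≠ 0) (hu : f.Q u = 0)
    (hP : ∀ a b : Ω, ∃ g : G, g.1.1 u ∈ F ∙ u ∧ g • a = b) {R : Subgroup G}
    (hR : ∀ g : G, g.1.1 u ∈ F ∙ u → ∀ r ∈ R, g * r * g⁻¹ ∈ R) (a : Ω) :
    ∃ l, (Nat.card Ω - 1) * l = Nat.card (Pt f) * ((orbit R a).ncard - 1) := by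
  rw [← index_stab_pt hf hb ein (pt u hu0 hu)]
  exact h.exists_lam (fun g hg => hR g ((smul_pt_eq_iff g).1 hg))
    (fun a b => let ⟨g, e1, e2⟩ := hP a b; ⟨g, (smul_pt_eq_iff g).2 e1, e2⟩) a

omit [MulAction G Ω] [Finite Ω] in
/-- The same for `G` acting on a finite set `Y`. -/
theorem pol_sys {X : Type*} [MulAction f.Isom X] {Y : Finset X} (S : Sys f G Y)
    (h2 : ∀ a ∈ Y, ∀ b ∈ Y, ∀ c ∈ Y, ∀ d ∈ Y, a ≠ b → c ≠ d → ∃ g ∈ G, g • a = c ∧ g • b = d)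
    (hadj : ∀ u y y', f.Q u = 0 → u ≠ 0 → y ∈ Cs f u → y' ∈ Cs f u →
      ∃ g ∈ G, g.1 u ∈ F ∙ u ∧ g.1 y ∈ F ∙ y') {u e y : V} (he : f.HypPair u e) (hy : y ∈ Cs f u)
    (hP : ¬ ∀ a ∈ Y, ∀ b ∈ Y, ∃ g ∈ G, ∃ s : F, s ≠ 0 ∧ g.1 u = s • u ∧ g • a = b) {n t v k : ℚ} (hn : n = Y.card)
    (ht : t = Nat.card F) (hv : v * (t - 1) = {w | f.Q w = 0 ∧ w ≠ 0}.ncard) (hk : k * (t - 1) = (Cs f u).ncard) :
    (∃ l θ : ℚ, k * (k - l - 1) = (v - k - 1) * (k / t) ∧ θ ^ 2 - (l - k / t) * θ - (k - k / t) = 0 ∧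
      (n - 1) * (l - k / t - 2 * θ) = -((v - 1) * θ + k)) ∧ Y.card ≤ Nat.card (Pt f) := by
  letI : MulAction G Y :=
    { smul := fun g y => ⟨g.1 • y.1, S.inv _ g.2 _ y.2⟩
      one_smul := fun y => Subtype.ext (one_smul _ _)
      mul_smul := fun g h y => Subtype.ext (mul_smul g.1 h.1 y.1) }
  have h : Two G Y := fun a b c d e1 e2 => by
    obtain ⟨g, hg, e3, e4⟩ := h2 a a.2 b b.2 c c.2 d d.2 (fun e => e1 (Subtype.ext e)) fun e => e2 (Subtype.ext e)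
    exact ⟨⟨g, hg⟩, Subtype.ext e3, Subtype.ext e4⟩
  have hP' : ¬ ∀ a b : Y, ∃ g : G, g.1.1 u ∈ F ∙ u ∧ g • a = b := fun hc => hP fun a ha b hb => by
    obtain ⟨g, e1, e2⟩ := hc ⟨a, ha⟩ ⟨b, hb⟩
    obtain ⟨s, hs, e⟩ := exists_smul_of_mem (isom_ne_zero g.1 he.u_ne_zero) e1
    exact ⟨g.1, g.2, s, hs, e, congrArg Subtype.val e2⟩
  have hc : Nat.card Y = Y.card := by simp
  exact ⟨h.pol S.nd S.big S.ein hadj he hy hP' (by rw [hn, hc]) ht hv hk,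
    hc ▸ h.card_le_pt he.u_ne_zero he.Qu hP'⟩

end Cfsg.Agent.T2
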