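import Cfsg.Agent.Lib.T2.Des
import Cfsg.Agent.Lib.SLn.MinIndexMain
import Cfsg.Agent.Lib.SLn.LinAux

/-! Doubly transitive actions of `SL_k(q)`: the groups of transvections with a common axis. -/

set_option autoImplicit false

namespace Cfsg.Agent.T2

open MulAction Matrix Cfsg.Agent.SLn
open scoped Pointwise

theorem card_eq_of_intrans {G G' Ω X : Type*} [Group G] [Group G'] [MulAction G Ω] [MulAction G' X] [Finite Ω]
    [Finite X] (σ : G →* G') (hσ : Function.Surjective σ) (h : Two G Ω) (h' : Two G' X) {x₀ : X}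
    (hP : ¬ ∀ a b : Ω, ∃ p : G, σ p • x₀ = x₀ ∧ p • a = b) : Nat.card Ω = Nat.card X := by
  letI : MulAction G X := MulAction.compHom X σ
  have h2 : Two G X := h'.comp fun g => (hσ g).imp fun p e a => by rw [← e]; rfl
  obtain ⟨I, hI, a, b, x, h3, h4⟩ := exists_inc' (G := G) (x₀ := x₀) hP
  obtain ⟨g, rfl⟩ := h.trans b a
  exact le_antisymm (h.card_le hI h3 h4)
    (h2.card_le (I := fun x a => I a x) (fun g x a => hI g a x) h3 (mt (inv_iff hI g b x).1 h4))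

variable {ι F Ω : Type*} [Fintype ι] [DecidableEq ι] [Field F] [MulAction (SpecialLinearGroup ι F) Ω]

/-- The transvections with axis `φ`. -/
abbrev Rx (φ : ι → F) : Subgroup (SpecialLinearGroup ι F) := (tvHom φ (kerv φ) le_rfl).range

theorem tv_mem_Rx {w φ : ι → F} (h : φ ⬝ᵥ w = 0) : tv w φ h ∈ Rx φ := ⟨Multiplicative.ofAdd ⟨w, h⟩, rfl⟩

theorem tvHom_inj {φ : ι → F} (hφ : φ ≠ 0) : Function.Injective (tvHom φ (kerv φ) le_rfl) :=
  (injective_iff_map_eq_one _).2 fun a e => by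
    have h : vecMulVec a.toAdd.1 φ = 0 := by simpa [coe_tvHom] using congrArg Subtype.val e
    exact Subtype.ext ((vecMulVec_eq_zero.1 h).resolve_right hφ)

theorem conj_Rx {φ : ι → F} {g : SpecialLinearGroup ι F} {c : F}
    (hg : φ ᵥ* (g⁻¹ : SpecialLinearGroup ι F).1 = c • φ) : ∀ r ∈ Rx φ, g * r * g⁻¹ ∈ Rx φ := by
  rintro _ ⟨a, rfl⟩
  have e := coe_conj_of_eq g (coe_tvHom φ _ le_rfl a)
  rw [hg, vecMulVec_smul, ← smul_vecMulVec] at e
  exact (Subtype.ext e : _ = tv _ φ (inv_coe_of_eq e).1) ▸ tv_mem_Rx _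

theorem ob_mul {φ : ι → F} (hφ : φ ≠ 0) (ω : Ω) : (orbit (Rx φ) ω).ncard *
    Nat.card (axA (stabilizer (SpecialLinearGroup ι F) ω) φ) = Nat.card (kerv φ) := by
  have h := ncard_orbit_mul (Rx φ) ω
  rw [← Subgroup.map_comap_eq, Subgroup.card_map_of_injective (tvHom_inj hφ),
    ← Nat.card_congr (MonoidHom.ofInjective (tvHom_inj hφ)).toEquiv] at h
  rw [← card_fix_tvHom]
  exact h

theorem card_axA_scal (H : Subgroup (SpecialLinearGroup ι F)) (φ : ι → F) {c : F} (hc : c ≠ 0) :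
    Nat.card (axA H (c • φ)) = Nat.card (axA H φ) :=
  Nat.card_congr
    { toFun := fun w => ⟨c • w.1, (HasTv.smul_swap c).2 w.2⟩
      invFun := fun w => ⟨c⁻¹ • w.1, (HasTv.smul_swap c).1 (by rw [smul_inv_smul₀ hc]; exact w.2)⟩
      left_inv := fun w => Subtype.ext (inv_smul_smul₀ hc _)
      right_inv := fun w => Subtype.ext (smul_inv_smul₀ hc _) }

theorem smul_ob {φ : ι → F} {g : SpecialLinearGroup ι F} (hg : φ ᵥ* (g⁻¹ : SpecialLinearGroup ι F).1 = φ) (ω : Ω) :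
    g • orbit (Rx φ) ω = orbit (Rx φ) (g • ω) := by
  ext x
  constructor
  · rintro ⟨_, ⟨r, rfl⟩, rfl⟩
    exact ⟨⟨_, conj_Rx (c := 1) (by rw [hg, one_smul]) _ r.2⟩, by simp [Subgroup.smul_def, mul_smul]⟩
  · rintro ⟨r, rfl⟩
    exact ⟨_, ⟨⟨_, conj_Rx (g := g⁻¹) (c := 1) (by rw [vecMul_inv_of_eq (g := g⁻¹) hg, one_smul]) _ r.2⟩, rfl⟩,
      by simp [Subgroup.smul_def, mul_smul]⟩

variable [Finite F] [Finite Ω]
  (hno : ∀ (ω : Ω) (w φ : ι → F), HasTv (stabilizer (SpecialLinearGroup ι F) ω) w φ → w = 0 ∨ φ = 0)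
include hno

theorem ob_card {φ : ι → F} (hφ : φ ≠ 0) (ω : Ω) : (orbit (Rx φ) ω).ncard = Nat.card (kerv φ) := by
  rw [← ob_mul hφ ω, AddSubgroup.card_eq_one.2 (eq_bot_iff.2 fun w hw => (hno ω w φ hw).resolve_right hφ), mul_one]

theorem fix_ob (hn : 4 ≤ Fintype.card ι) (hΩ : Nat.card Ω = Nat.card F ^ Fintype.card ι) {w φ ψ : ι → F} (hφ : φ ≠ 0)
    (h1 : φ ⬝ᵥ w = 0) (h2 : ψ ⬝ᵥ w = 0) (ω : Ω) : tv w ψ h2 • ω ∈ orbit (Rx φ) ω := by
  classical
  have hq : 1 < Nat.card F := Finite.one_lt_card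
  rcases exists_dot_eq_zero_dot_eq_one φ ψ with ⟨c, rfl⟩ | ⟨u, hu0, hu1⟩
  · have h3 : φ ⬝ᵥ c • w = 0 := by rw [dotProduct_smul, h1, smul_zero]
    have e : tv w (c • φ) h2 = tv (c • w) φ h3 := Subtype.ext (by simp [smul_vecMulVec, vecMulVec_smul])
    exact ⟨⟨_, tv_mem_Rx h3⟩, by rw [e]; rfl⟩
  set U : Submodule F (ι → F) := kerv φ ⊓ kerv ψ with hU
  have hUc : Nat.card U * Nat.card F = Nat.card (kerv φ) :=
    card_inf_kerv_mul (kerv φ) hu0 (by rw [hu1]; exact one_ne_zero)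
  have hUq : Nat.card F < Nat.card U := by
    have h3 := card_kerv hφ
    have h4 : Nat.card F ^ 3 ≤ Nat.card F ^ (Fintype.card ι - 1) := Nat.pow_le_pow_right (by omega) (by omega)
    by_contra h
    have h5 := Nat.mul_le_mul_right (Nat.card F) (not_lt.1 h)
    nlinarith
  set X : Set (Set Ω) := Set.range (orbit (Rx φ)) with hX
  have hXc : Nat.card X ≤ Nat.card F := by
    have h3 : Nat.card Ω = Nat.card (orbitRel.Quotient (Rx φ) Ω) * Nat.card (kerv φ) := by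
      have := Fintype.ofFinite (orbitRel.Quotient (Rx φ) Ω)
      rw [Nat.card_congr (selfEquivSigmaOrbits (Rx φ) Ω), Nat.card_sigma,
        Finset.sum_congr rfl fun o _ => (Nat.card_coe_set_eq _).trans (ob_card hno hφ o.out)]
      simp
    rw [hΩ, ← card_kerv_mul hφ, mul_comm] at h3
    rw [Nat.eq_of_mul_eq_mul_right Nat.card_pos h3, hX, show orbit (Rx φ) = orbitRel.Quotient.orbit ∘
      Quotient.mk'' (s₁ := orbitRel (Rx φ) Ω) from rfl, Quotient.mk''_surjective.range_comp]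
    exact Finite.card_range_le _
  have hXg : ∀ g : SpecialLinearGroup ι F, φ ᵥ* (g⁻¹ : SpecialLinearGroup ι F).1 = φ → ∀ B ∈ X, g • B ∈ X := by
    rintro g hg _ ⟨a, rfl⟩
    exact ⟨_, (smul_ob hg a).symm⟩
  obtain ⟨r, f, e1, e2⟩ := burnside_uniform (tvHom ψ U inf_le_right) X
    (fun b => hXg _ (tvHom_fix inf_le_left b)) (fun b c hb hc => by
      obtain ⟨g, hg, hg'⟩ := tvHom_conj inf_le_right hUq b c hb hc
      refine ⟨g, hg, fun B => ⟨hXg g (hg' φ inf_le_left) B, fun h => ?_⟩⟩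
      have := hXg g⁻¹ (vecMul_inv_of_eq (g := g⁻¹) (hg' φ inf_le_left)) _ h
      rwa [inv_smul_smul] at this)
  rw [show Nat.card (Multiplicative U) = Nat.card U from rfl] at e1 e2
  by_contra hc
  have := Fintype.ofFinite X
  have hlt : r * Nat.card U < Nat.card X * Nat.card U := by
    rw [e2, finsum_eq_sum_of_fintype, Nat.card_eq_fintype_card (α := X), ← Finset.card_univ, ← smul_eq_mul,
      ← Finset.sum_const]
    refine Finset.sum_lt_sum (fun B _ => Finite.card_subtype_le _) ⟨⟨_, ω, rfl⟩, Finset.mem_univ _,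
      Finite.card_subtype_lt (x := Multiplicative.ofAdd (⟨w, h1, h2⟩ : U)) fun e => hc ?_⟩
    exact (show tv w ψ h2 • orbit (Rx φ) ω = orbit (Rx φ) ω from e) ▸ Set.smul_mem_smul_set (mem_orbit_self ω)
  have hr : r < Nat.card X := lt_of_mul_lt_mul_right hlt (Nat.zero_le _)
  obtain ⟨m, hm⟩ : ∃ m, Nat.card U = m + 1 := ⟨Nat.card U - 1, by omega⟩
  rw [hm, Nat.add_sub_cancel] at e1
  rcases lt_or_ge f r with h | h
  · nlinarith [Nat.mul_le_mul_left m (show f + 1 ≤ r from h)]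
  · nlinarith [Nat.mul_le_mul_left m h]

theorem not_four (hn : 4 ≤ Fintype.card ι) (hΩ : Nat.card Ω = Nat.card F ^ Fintype.card ι)
    (ht : ∀ a b : Ω, ∃ g : SpecialLinearGroup ι F, g • a = b) : False := by
  have hq : 1 < Nat.card F := Finite.one_lt_card
  have key : ∀ w φ : ι → F, w ≠ 0 → φ ≠ 0 → φ ⬝ᵥ w = 0 → ∀ ω : Ω, orbit (Rx φ) ω =
      Set.range fun ψ : kerv w => tv w ψ.1 ((dotProduct_comm _ _).trans ψ.2) • ω := fun w φ hw hφ h ω => by
    refine (Set.eq_of_subset_of_ncard_le (by rintro _ ⟨ψ, rfl⟩; exact fix_ob hno hn hΩ hφ h _ ω) ?_).symm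
    rw [ob_card hno hφ, Set.ncard_range_of_injective, card_kerv hφ, card_kerv hw]
    intro a b e
    have ha : HasTv (stabilizer (SpecialLinearGroup ι F) ω) w (-b.1 + a.1) := ⟨_,
      show (tv w b.1 ((dotProduct_comm _ _).trans b.2))⁻¹ * tv w a.1 ((dotProduct_comm _ _).trans a.2) ∈ _ by
        rw [mem_stabilizer_iff, mul_smul, inv_smul_eq_iff]; exact e, by
      rw [Matrix.SpecialLinearGroup.coe_mul, (inv_coe_of_eq (coe_tv _ _ _)).2, coe_tv, one_add_mul_one_add,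
        (dotProduct_comm _ _).trans b.2, zero_smul, add_zero, vecMulVec_add, neg_vecMulVec, vecMulVec_neg, add_assoc]⟩
    exact Subtype.ext (neg_add_eq_zero.1 ((hno ω _ _ ha).resolve_left hw)).symm
  obtain ⟨i⟩ : Nonempty ι := Fintype.card_pos_iff.1 (by omega)
  have hφ : (Pi.single i 1 : ι → F) ≠ 0 := by simp
  obtain ⟨ω⟩ : Nonempty Ω := (Nat.card_pos_iff.1 (hΩ ▸ by positivity)).1
  have h1 := eq_top_of_axisSub (stabilizer (SpecialLinearGroup ι F) (orbit (Rx (Pi.single i (1 : F))) ω))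
    (eq_top_iff.2 fun ψ _ => by
      by_cases hψ : ψ = 0
      · rw [hψ]; exact zero_mem _
      obtain ⟨y, hy⟩ : ∃ y, y ≠ 0 ∧ Pi.single i 1 ⬝ᵥ y = 0 ∧ ψ ⬝ᵥ y = 0 := by
        obtain ⟨z, hz⟩ := exists_not_comb_pair (by omega) (Pi.single i 1) ψ
        obtain ⟨y, h1, h2, h3⟩ := exists_dot_pair hz
        exact ⟨y, by rintro rfl; simp at h3, by rwa [dotProduct_comm], by rwa [dotProduct_comm]⟩
      intro u hu
      refine HasTv.of_tv_mem (h0 := hu) ?_
      rw [mem_stabilizer_iff, key y _ hy.1 hφ hy.2.1, ← key y _ hy.1 hψ hy.2.2]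
      exact smul_orbit (⟨_, tv_mem_Rx hu⟩ : Rx ψ) ω)
  have h2 : orbit (Rx (Pi.single i (1 : F))) ω = Set.univ := Set.eq_univ_of_forall fun b => by
    obtain ⟨g, rfl⟩ := ht ω b
    exact mem_stabilizer_iff.1 (h1 ▸ Subgroup.mem_top g) ▸ Set.smul_mem_smul_set (mem_orbit_self ω)
  have h3 := ob_card hno hφ ω
  rw [h2, Set.ncard_univ, hΩ, card_kerv hφ] at h3
  have := Nat.pow_right_injective hq h3
  omega

end Cfsg.Agent.T2
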