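import Cfsg.Agent.Lib.GLn.Spec2

/-! `SL₃(q)`, `q ≠ 2`, has no transitive action of degree `q³`. -/

set_option autoImplicit false

namespace Cfsg.Agent.T2

open MulAction Matrix
open scoped MatrixGroups

variable {F Ω : Type*} [Field F] [MulAction SL(3, F) Ω]

/-- The matrix lies in the stabiliser. -/
def InS (a : Ω) (M : Matrix (Fin 3) (Fin 3) F) : Prop := ∃ g : SL(3, F), g • a = a ∧ g.1 = M

theorem InS.mul {a : Ω} {A B : Matrix (Fin 3) (Fin 3) F} (h : InS a A) (h' : InS a B) : InS a (A * B) := by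
  obtain ⟨g, e, rfl⟩ := h
  obtain ⟨g', e', rfl⟩ := h'
  exact ⟨g * g', by rw [mul_smul, e', e], rfl⟩

theorem InS.cancel {a : Ω} {A B : Matrix (Fin 3) (Fin 3) F} (h : InS a (A * B)) (h' : InS a B) : InS a A := by
  obtain ⟨g, e, h⟩ := h
  obtain ⟨g', e', rfl⟩ := h'
  refine ⟨g * g'⁻¹, by rw [mul_smul, inv_smul_eq_iff.2 e'.symm, e], ?_⟩
  rw [Matrix.SpecialLinearGroup.coe_mul, h, mul_assoc, ← Matrix.SpecialLinearGroup.coe_mul, mul_inv_cancel,
    Matrix.SpecialLinearGroup.coe_one, mul_one]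

/-- A matrix of determinant one. -/
def mk3 (M : Matrix (Fin 3) (Fin 3) F) (h : M.det = 1) : SL(3, F) := ⟨M, h⟩

theorem coe_mk3 (M : Matrix (Fin 3) (Fin 3) F) (h : M.det = 1) : (mk3 M h).1 = M := rfl

/-- Unitriangular matrices. -/
def un (x y z : F) : SL(3, F) := mk3 !![1, x, y; 0, 1, z; 0, 0, 1] (by simp [det_fin_three])

/-- Diagonal matrices. -/
def dg : Fˣ × Fˣ →* SL(3, F) where
  toFun p := mk3 !![p.1, 0, 0; 0, p.2, 0; 0, 0, (p.1 : F)⁻¹ * (p.2 : F)⁻¹] (by
    simp [det_fin_three]; field_simp)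
  map_one' := Subtype.ext (by simp [coe_mk3, one_fin_three])
  map_mul' p q := Subtype.ext (by simp [coe_mk3, mul_comm, mul_left_comm, mul_assoc])

theorem coe_dg (p : Fˣ × Fˣ) : (dg p).1 = !![(p.1 : F), 0, 0; 0, p.2, 0; 0, 0, (p.1 : F)⁻¹ * (p.2 : F)⁻¹] := rfl

theorem coe_un (x y z : F) : (un x y z).1 = !![1, x, y; 0, 1, z; 0, 0, 1] := rfl

/-- A word in `SL₃(5)`. -/
def w5 : Matrix (Fin 3) (Fin 3) (ZMod 5) :=
  !![-1, 1, 0; 1, 1, 0; 0, 0, 2] * !![0, 0, 1; 1, 0, 0; 0, 1, 0] * !![-1, 1, 0; 1, 1, 0; 0, 0, 2] *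
    !![0, 0, 1; 1, 0, 0; 0, 1, 0] * !![-1, 1, 0; 1, 1, 0; 0, 0, 2] * !![2, 0, 0; 0, 1, 0; 0, 0, 3] *
    !![0, 0, 1; 1, 0, 0; 0, 1, 0] * !![0, 0, 1; 1, 0, 0; 0, 1, 0]

theorem w5_unip : (w5 - 1) ^ 3 = 0 := by decide +kernel

theorem w5_ne : w5 ≠ 1 := by decide +kernel

variable [Finite F] (ht : ∀ a b : Ω, ∃ g : SL(3, F), g • a = b) (hΩ : Nat.card Ω = Nat.card F ^ 3)
include ht hΩ

theorem InS.unip {a : Ω} {M : Matrix (Fin 3) (Fin 3) F} (h : InS a M) (h3 : (M - 1) ^ 3 = 0) : M = 1 := by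
  obtain ⟨g, e, rfl⟩ := h
  have := Fintype.ofFinite F
  obtain ⟨p, hp⟩ := CharP.exists F
  obtain ⟨n, h1, h2⟩ := FiniteField.card F p
  have := Fact.mk h1
  have hq : 1 < Nat.card F := Finite.one_lt_card
  have h4 : g ^ Nat.card F ^ 2 = 1 := Subtype.ext (by
    have := add_pow_char_pow_of_commute p (n * 2) (Commute.one_left (g.1 - 1))
    rw [add_sub_cancel, pow_mul, ← h2, ← Nat.card_eq_fintype_card, pow_eq_zero_of_le (by nlinarith) h3] at this
    simpa using this)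
  have h5 := (stabilizer SL(3, F) a).index_mul_card
  rw [index_stabilizer, Set.eq_univ_of_forall (s := orbit SL(3, F) a) (ht a), Set.ncard_univ, hΩ,
    GLn.card_SL_eq 2] at h5
  have h6 := Nat.eq_of_mul_eq_mul_left (by positivity) h5
  have h7 : (Nat.card F ^ 2).Coprime (Nat.card (stabilizer SL(3, F) a)) := by
    rw [h6]
    refine Nat.Coprime.pow_left _ (Nat.Coprime.prod_right fun i _ => ?_)
    refine Nat.Coprime.of_dvd_left (dvd_pow_self _ (show i + 2 ≠ 0 by omega)) ?_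
    exact (Nat.coprime_self_sub_right (Nat.one_le_pow _ _ (by omega))).2 (by simp)
  rw [orderOf_eq_one_iff.1 (Nat.eq_one_of_dvd_coprimes h7 (orderOf_dvd_of_pow_eq_one h4)
    (Subgroup.orderOf_dvd_natCard _ e)), Matrix.SpecialLinearGroup.coe_one]

theorem un_inj {a : Ω} {x y z x' y' z' : F} (h : un x y z • a = un x' y' z' • a) : x = x' ∧ y = y' ∧ z = z' := by
  have e : un x y z = un x' y' z' * un (x - x') (y - y' - x' * (z - z')) (z - z') :=
    Subtype.ext (by simp [coe_un]; ring)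
  rw [e, mul_smul, smul_left_cancel_iff] at h
  have := InS.unip ht hΩ ⟨_, h, rfl⟩ (by
    ext i j; fin_cases i <;> fin_cases j <;> simp [coe_un, one_fin_three, pow_succ])
  have h1 := congrFun (congrFun this 0) 1
  have h2 := congrFun (congrFun this 0) 2
  have h3 := congrFun (congrFun this 1) 2
  simp [coe_un, sub_eq_zero] at h1 h2 h3
  exact ⟨h1, by simpa [h3, sub_eq_zero] using h2, h3⟩

theorem un_surj (a b : Ω) : ∃ x y z : F, un x y z • a = b := by
  have : Finite Ω := Nat.finite_of_card_ne_zero (hΩ ▸ pow_ne_zero _ Nat.card_pos.ne')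
  obtain ⟨⟨x, y, z⟩, h⟩ := (Function.Injective.bijective_of_nat_card_le (f := fun p : F × F × F => un p.1 p.2.1 p.2.2 • a)
    (fun p q h => by simpa [Prod.ext_iff] using un_inj ht hΩ h) (by simp [hΩ, pow_succ, mul_assoc])).2 b
  exact ⟨x, y, z, h⟩

theorem un_fix {a : Ω} {p : Fˣ × Fˣ} {x y z : F} (h : dg p • a = a) (h' : dg p • un x y z • a = un x y z • a) :
    p.1 * x / p.2 = x ∧ p.1 * p.1 * p.2 * y = y ∧ p.1 * p.2 * p.2 * z = z := by
  have e : dg p * un x y z = un (p.1 * x / p.2) (p.1 * p.1 * p.2 * y) (p.1 * p.2 * p.2 * z) * dg p :=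
    Subtype.ext (by simp [coe_un, coe_dg]; constructor <;> field_simp)
  rw [← mul_smul, e, mul_smul, h] at h'
  exact un_inj ht hΩ h'

theorem exists_mono (hq : Nat.card F ≠ 2) : ∃ a : Ω, (∀ p : Fˣ × Fˣ, dg p • a = a) ∧
    InS a (!![0, 1, 0; -1, 0, 0; 0, 0, 1] : Matrix (Fin 3) (Fin 3) F) ∧
      InS a (!![0, 0, 1; 1, 0, 0; 0, 1, 0] : Matrix (Fin 3) (Fin 3) F) := by
  have h1 : 1 < Nat.card F := Finite.one_lt_card
  obtain ⟨r, hr, h2⟩ := Nat.exists_prime_and_dvd (show Nat.card F - 1 ≠ 1 by omega)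
  have := Fact.mk hr
  obtain ⟨s, hs⟩ := exists_prime_orderOf_dvd_card' (G := Fˣ) r (by rwa [Nat.card_units])
  have s1 : (s : F) ≠ 1 := fun e => hr.ne_one (by rw [← hs, Units.val_eq_one.1 e, orderOf_one])
  have sr : s ^ r = 1 := hs ▸ pow_orderOf_eq_one s
  have hP : IsPGroup r (powMonoidHom r : Fˣ × Fˣ →* Fˣ × Fˣ).ker := fun g => ⟨1, Subtype.ext ((pow_one r).symm ▸ g.2)⟩
  obtain ⟨a, ha⟩ := (hP.map dg).nonempty_fixed_point_of_prime_not_dvd_card Ω fun h => by
    rw [hΩ] at h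
    exact hr.one_lt.ne' (Nat.dvd_one.1 (Nat.sub_sub_self h1.le ▸ Nat.dvd_sub (hr.dvd_of_dvd_pow h) h2))
  have hd : ∀ p : Fˣ × Fˣ, p ^ r = 1 → dg p • a = a := fun p hp => ha ⟨_, p, hp, rfl⟩
  have mono : ∀ (g : SL(3, F)) (p p' : Fˣ × Fˣ), p ^ r = 1 → p' ^ r = 1 → dg (s, 1) * g = g * dg p →
      dg (1, s) * g = g * dg p' → g • a = a := fun g p p' h h' e e' => by
    obtain ⟨x, y, z, hb⟩ := un_surj ht hΩ a (g • a)
    have k1 := un_fix ht hΩ (hd (s, 1) (by simp [sr])) (by rw [hb, ← mul_smul, e, mul_smul, hd p h])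
    have k2 := un_fix ht hΩ (hd (1, s) (by simp [sr])) (by rw [hb, ← mul_smul, e', mul_smul, hd p' h'])
    simp only [Units.val_one, div_one, mul_one, one_mul, mul_left_eq_self₀, s1, false_or] at k1 k2
    rw [← hb, k1.1, k1.2.2, k2.2.1, show un (0 : F) 0 0 = 1 from Subtype.ext (by simp [coe_un, one_fin_three]), one_smul]
  refine ⟨a, fun p => mono _ (s, 1) (1, s) (by simp [sr]) (by simp [sr]) (by rw [← map_mul, mul_comm, map_mul])
    (by rw [← map_mul, mul_comm, map_mul]),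
    ⟨mk3 _ (by simp [det_fin_three]), mono _ (1, s) (s, 1) (by simp [sr]) (by simp [sr]) ?_ ?_, rfl⟩,
    ⟨mk3 _ (by simp [det_fin_three]), mono _ (1, s⁻¹) (s, s⁻¹) (by simp [sr]) (by simp [sr]) ?_ ?_, rfl⟩⟩ <;>
  exact Subtype.ext (by simp [coe_dg, coe_mk3])

theorem not_three (hq : Nat.card F ≠ 2) : False := by
  obtain ⟨a, hd, hn, hc⟩ := exists_mono ht hΩ hq
  have hD : ∀ x y z : F, x * y * z = 1 → InS a !![x, 0, 0; 0, y, 0; 0, 0, z] := fun x y z h =>
    ⟨dg (Units.mk0 x fun e => by simp [e] at h, Units.mk0 y fun e => by simp [e] at h), hd _, by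
      simp [coe_dg, eq_inv_of_mul_eq_one_right h, mul_comm]⟩
  have h2 : (2 : F) ≠ 0 := fun h => by
    have := congrFun (congrFun (hn.unip ht hΩ (by
      ext i j
      fin_cases i <;> fin_cases j <;> simp [one_fin_three, pow_succ] <;> first | linear_combination h | linear_combination -h)) 0) 0
    simp at this
  have h3 : (3 : F) ≠ 0 := fun h => by
    have := congrFun (congrFun (hc.unip ht hΩ (by
      ext i j
      fin_cases i <;> fin_cases j <;> simp [one_fin_three, pow_succ] <;> first | linear_combination h | linear_combination -h)) 0) 0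
    simp at this
  have tv : ∀ {b : F} {A B : Matrix (Fin 3) (Fin 3) F}, InS a A → InS a B → A = !![1, b, 0; 0, 1, 0; 0, 0, 1] * B →
      b = 0 := fun h h' e => by
    have := congrFun (congrFun (((e ▸ h).cancel h').unip ht hΩ (by
      ext i j
      fin_cases i <;> fin_cases j <;> simp [one_fin_three, pow_succ])) 0) 1
    simp [one_fin_three] at this
    exact this
  obtain ⟨n, n1, n2⟩ := id hn
  obtain ⟨x, y, z, hb⟩ := un_surj ht hΩ a ((n * un (1 : F) 0 0) • a)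
  have k1 := un_fix ht hΩ (hd (-1, -1)) (by
    rw [hb, ← mul_smul, show dg (-1, -1) * (n * un (1 : F) 0 0) = n * un 1 0 0 * dg (-1, -1) from
      Subtype.ext (by simp [coe_dg, coe_un, n2]), mul_smul, hd])
  simp only [Units.val_neg, Units.val_one] at k1
  obtain rfl : y = 0 := (mul_eq_zero.1 (show 2 * y = 0 by linear_combination -k1.2.1)).resolve_left h2
  obtain rfl : z = 0 := (mul_eq_zero.1 (show 2 * z = 0 by linear_combination -k1.2.2)).resolve_left h2
  have hK : InS a !![x, 1 + x, 0; -1, -1, 0; 0, 0, 1] := ⟨mk3 _ (by simp [det_fin_three]), by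
    rw [← smul_left_cancel_iff (un x 0 0), hb, ← mul_smul]
    exact congrArg (· • a) (Subtype.ext (by simp [coe_un, coe_mk3, n2])), rfl⟩
  obtain rfl : x = -2⁻¹ := by
    have := tv (b := -2 * x - 1) (hK.mul hn) (((hD (-1) 1 (-1) (by simp)).mul hK).mul (hD (-1) 1 (-1) (by simp)))
      (by simp; constructor <;> ring)
    field_simp
    linear_combination -this
  have hm : InS a !![-1, 1, 0; 1, 1, 0; 0, 0, -(2 : F)⁻¹] := by
    convert (hD 2 (-1) (-2⁻¹) (by field_simp)).mul hK using 1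
    simp [mul_add, h2]; norm_num
  have h5 : (5 : F) = 0 := by
    have := tv (b := 5 / 3) ((hm.mul (hD 1 2 2⁻¹ (by field_simp))).mul hm)
      (((hD (-2 * 2 / 3) 1 (-3 / (2 * 2)) (by field_simp)).mul hm).mul (hD 1 3 3⁻¹ (by field_simp)))
      (by simp; refine ⟨⟨?_, ?_⟩, ?_, ?_⟩ <;> field_simp <;> norm_num)
    simpa [h3] using this
  have := (CharP.charP_iff_prime_eq_zero (show Nat.Prime 5 by norm_num)).2 h5
  have : Fact (Nat.Prime 5) := ⟨by norm_num⟩
  let Φ : Matrix (Fin 3) (Fin 3) (ZMod 5) →+* Matrix (Fin 3) (Fin 3) F := (ZMod.castHom (dvd_refl 5) F).mapMatrix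
  have m5 : InS a (Φ !![-1, 1, 0; 1, 1, 0; 0, 0, 2]) := by
    convert hm using 1
    ext i j
    fin_cases i <;> fin_cases j <;> simp [Φ, map_ofNat]
    field_simp
    linear_combination h5
  have c5 : InS a (Φ !![0, 0, 1; 1, 0, 0; 0, 1, 0]) := by
    convert hc using 1
    ext i j
    fin_cases i <;> fin_cases j <;> simp [Φ]
  have d5 : InS a (Φ !![2, 0, 0; 0, 1, 0; 0, 0, 3]) := by
    convert hD 2 1 3 (by linear_combination h5) using 1
    ext i j
    fin_cases i <;> fin_cases j <;> simp [Φ, map_ofNat]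
  have := ((((((m5.mul c5).mul m5).mul c5).mul m5).mul d5).mul c5).mul c5
  simp only [← map_mul] at this
  have := this.unip ht hΩ (by rw [← map_one Φ, ← map_sub, ← map_pow, ← map_zero Φ]; exact congrArg Φ w5_unip)
  rw [← map_one Φ] at this
  exact absurd (Matrix.map_injective (ZMod.castHom (dvd_refl 5) F).injective this) w5_ne

end Cfsg.Agent.T2
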