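import Cfsg.Agent.Lib.T2.SLN
import Cfsg.Agent.Lib.T2.SL1
import Cfsg.Agent.Lib.T2.SL3

/-! The degrees of the doubly transitive actions of `SL_k(q)`, `k ≥ 3`. -/

set_option autoImplicit false

namespace Cfsg.Agent.T2

open MulAction Matrix Cfsg.Agent.SLn
open scoped LinearAlgebra.Projectivization

theorem sl {F : Type*} [Field F] [Fintype F] {k : ℕ} (hk : 3 ≤ k) {Ω : Type*} [Fintype Ω] [Nontrivial Ω]
    [MulAction (SpecialLinearGroup (Fin k) F) Ω] (h : Two (SpecialLinearGroup (Fin k) F) Ω) :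
    Fintype.card Ω * (Fintype.card F - 1) = Fintype.card F ^ k - 1 ∨
      (Fintype.card F = 2 ∧ (k = 3 ∨ k = 4) ∧ Fintype.card Ω = 8) := by
  classical
  simp only [← Nat.card_eq_fintype_card]
  have hq : 1 < Nat.card F := Finite.one_lt_card
  have hn : 3 ≤ Fintype.card (Fin k) := by simpa using hk
  set φ : Fin k → F := Pi.single ⟨0, by omega⟩ 1 with hφd
  have hφ : φ ≠ 0 := by simp [hφd]
  have hv : Nat.card (ℙ F (Fin k → F)) * (Nat.card F - 1) = Nat.card F ^ k - 1 := by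
    rw [← Projectivization.card, Nat.card_fun, Nat.card_eq_fintype_card (α := Fin k), Fintype.card_fin]
  have hX : Two (SpecialLinearGroup (Fin k) F) (ℙ F (Fin k → F)) := two_of inferInstance
  by_cases hP : ∀ a b : Ω, ∃ p : SpecialLinearGroup (Fin k) F,
      invTranspose p • Projectivization.mk F φ hφ = Projectivization.mk F φ hφ ∧ p • a = b
  swap
  · exact .inl (by rw [card_eq_of_intrans invTranspose invTranspose_surjective h hX hP, hv])
  set P := (stabilizer (SpecialLinearGroup (Fin k) F) (Projectivization.mk F φ hφ)).comap invTranspose with hPd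
  have hPi : P.index = Nat.card (ℙ F (Fin k → F)) := by
    rw [hPd, Subgroup.index_comap_of_surjective _ invTranspose_surjective, index_stabilizer,
      Set.eq_univ_of_forall (s := orbit _ _) (hX.trans _), Set.ncard_univ]
  have hPm : ∀ g ∈ P, ∃ c : F, c ≠ 0 ∧ φ ᵥ* (g⁻¹ : SpecialLinearGroup (Fin k) F).1 = c • φ := fun g hg => by
    obtain ⟨c, hc⟩ := (Projectivization.mk_eq_mk_iff _ _ _ _ _).1 (show invTranspose g • Projectivization.mk F φ hφ =
      Projectivization.mk F φ hφ from hg)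
    refine ⟨c, c.ne_zero, ?_⟩
    rw [← mulVec_transpose, ← Units.smul_def, hc]
    show _ = (invTranspose g).1 *ᵥ φ
    congr 1
    exact adjugate_transpose _
  obtain ⟨ω, ω', hω⟩ := exists_pair_ne Ω
  obtain ⟨l, e3⟩ := h.exists_lam (P := P) (R := Rx φ) (fun g hg => (hPm g hg).elim fun c hc => conj_Rx hc.2) hP ω
  have ha : ∀ (ω' : Ω) (ψ : Fin k → F), ψ ≠ 0 → Nat.card (axA (stabilizer (SpecialLinearGroup (Fin k) F) ω') ψ) =
      Nat.card (axA (stabilizer (SpecialLinearGroup (Fin k) F) ω) φ) := fun ω' ψ hψ => by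
    obtain ⟨g, rfl⟩ := exists_SL_vecMul (by omega) hφ hψ
    obtain ⟨p, hp, e⟩ := hP ω (g⁻¹ • ω')
    obtain ⟨c, hc, e'⟩ := hPm p hp
    rw [← smul_inv_smul g ω', card_axA_smul, ← e, ← card_axA_scal _ _ hc, ← e', card_axA_smul]
  obtain ⟨r, f, e1, e2⟩ := burnside_axis (Ω := Ω) hn hφ
    (Nat.card (axA (stabilizer (SpecialLinearGroup (Fin k) F) ω) φ))
  rw [Set.eq_univ_of_forall (s := Set.ofPred _) fun ω' => ha ω' φ hφ, Nat.card_univ] at e1 e2
  have h1 := ob_mul hφ ω
  have hK : stabilizer (SpecialLinearGroup (Fin k) F) ω ≠ ⊤ := fun e => by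
    obtain ⟨g, rfl⟩ := h.trans ω ω'
    exact hω (mem_stabilizer_iff.1 (e ▸ Subgroup.mem_top g)).symm
  have hρ : 2 ≤ (orbit (Rx φ) ω).ncard := by
    by_contra hc
    have h0 : (orbit (Rx φ) ω).ncard ≠ 0 := (Set.ncard_pos (Set.toFinite _)).2 ⟨ω, mem_orbit_self ω⟩ |>.ne'
    rw [show (orbit (Rx φ) ω).ncard = 1 by omega, one_mul] at h1
    refine hK (eq_top_of_axisSub _ (eq_top_iff.2 fun ψ _ => ?_))
    by_cases hψ : ψ = 0
    · rw [hψ]; exact zero_mem _
    exact hasAxis_of_card (by rw [ha ω ψ hψ, h1, card_kerv hφ, card_kerv hψ])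
  obtain ⟨p, hp⟩ := CharP.exists F
  obtain ⟨e, hp1, hp2⟩ := FiniteField.card F p
  have hN := card_kerv hφ
  rw [Fintype.card_fin] at hN
  have hqN : Nat.card F * Nat.card (kerv φ) = Nat.card F ^ k := by
    rw [hN, ← pow_succ', Nat.sub_add_cancel (by omega)]
  rcases num_sl hp1 (Nat.card_eq_fintype_card.trans hp2) hq (show 2 ≤ k - 1 by omega) hN h1 hρ Finite.one_lt_card
    e1 e2 e3 (by rw [hPi, hv, hqN]) with ⟨h2, h3⟩ | ⟨h2, h3⟩
  · rw [hPi] at h2 h3
    by_cases hexc : Fintype.card (Fin k) = 4 ∧ Nat.card F = 2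
    · rw [Fintype.card_fin] at hexc
      rcases h3 hexc.2 (by omega) with h4 | h4
      · exact .inr ⟨hexc.2, .inr hexc.1, h4⟩
      · exact .inl (by rw [h4, hv])
    have h4 := le_index_of_ne_top hn hexc _ hK
    rw [index_stabilizer, Set.eq_univ_of_forall (s := orbit _ _) (h.trans _), Set.ncard_univ, Fintype.card_fin, ← hv,
      Nat.mul_div_cancel _ (by omega)] at h4
    exact .inl (by rw [le_antisymm h2 h4, hv])
  rw [hqN] at h3
  have hno : ∀ (ω : Ω) (w ψ : Fin k → F), HasTv (stabilizer (SpecialLinearGroup (Fin k) F) ω) w ψ → w = 0 ∨ ψ = 0 :=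
    fun ω' w ψ hw => or_iff_not_imp_right.2 fun hψ =>
      AddSubgroup.mem_bot.1 (AddSubgroup.card_eq_one.1 ((ha ω' ψ hψ).trans h2) ▸ (mem_axA.2 hw))
  rcases hk.eq_or_lt with rfl | hk
  · by_cases h4 : Nat.card F = 2
    · exact .inr ⟨h4, .inl rfl, by rw [h3, h4]; rfl⟩
    · exact (not_three h.trans h3 h4).elim
  · exact (not_four hno (by rw [Fintype.card_fin]; exact hk) (by rwa [Fintype.card_fin]) h.trans).elim

end Cfsg.Agent.T2
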