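import Mathlib

/-! Doubly transitive actions of `SL_k(q)`: the arithmetic. -/

set_option autoImplicit false

namespace Cfsg.Agent.T2

set_option maxHeartbeats 800000 in
theorem num_int {q a ρ r j μ : ℤ} (ha : 1 ≤ a) (hρ : 2 ≤ ρ) (hr : 0 < r) (hμ : 2 ≤ μ) (hq : μ < q)
    (hN : q * q ≤ a * ρ) (A : r * (μ * ρ - 1) = q * a * (ρ - 1) + μ - 1) (B : r * (ρ - 1) = j * (a * ρ - 1)) :
    ρ < 2 * q ∧ (a * ρ - 1) * (j * ρ * (μ * ρ - 1) - q * (ρ - 1) ^ 2) = (ρ - 1) * (q * (ρ - 1) + (μ - 1) * ρ) := by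
  have e : (a * ρ - 1) * (j * ρ * (μ * ρ - 1) - q * (ρ - 1) ^ 2) = (ρ - 1) * (q * (ρ - 1) + (μ - 1) * ρ) := by
    linear_combination (ρ - 1) * ρ * A - ρ * (μ * ρ - 1) * B
  refine ⟨?_, e⟩
  have h0 : 0 < a * ρ - 1 := by nlinarith
  have hj : 0 < j := (mul_pos_iff_of_pos_right h0).1 (by rw [← B]; exact mul_pos hr (by omega))
  rcases ha.eq_or_lt with rfl | ha
  · exfalso
    have h1 : r ≤ q := by
      by_contra h
      nlinarith [mul_le_mul_of_nonneg_right (show q + 1 ≤ r by omega) (show 0 ≤ μ * ρ - 1 by nlinarith),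
        mul_nonneg (show 0 ≤ μ - 2 by omega) (show 0 ≤ ρ - 1 by omega),
        mul_nonneg (mul_nonneg (show 0 ≤ μ - 2 by omega) (show 0 ≤ ρ by omega)) (show 0 ≤ q by omega)]
    have h2 : ρ * (r * μ - q) = r - q + μ - 1 := by linear_combination A
    have h3 : q ≤ ρ := by nlinarith
    have h4 : r * μ - q = 0 := by
      rcases lt_trichotomy (r * μ - q) 0 with h | h | h
      · nlinarith
      · exact h
      · nlinarith
    rw [h4] at h2
    have : (μ - 1) * (q - μ) = 0 := by linear_combination h4 + μ * h2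
    nlinarith [mul_pos (show 0 < μ - 1 by omega) (show 0 < q - μ by omega)]
  have h1 : j * μ < q := by
    by_contra h
    have h2 : 0 < μ * ρ - 1 := by nlinarith
    have h3 : q * ((a * ρ - 1) * (μ * ρ - 1)) ≤ μ * (ρ - 1) * (q * a * (ρ - 1) + μ - 1) := by
      calc _ ≤ j * μ * ((a * ρ - 1) * (μ * ρ - 1)) := mul_le_mul_of_nonneg_right (not_lt.1 h) (mul_pos h0 h2).le
        _ = _ := by linear_combination μ * (ρ - 1) * A - μ * (μ * ρ - 1) * B
    have h4 : 0 ≤ μ * ρ - μ - ρ := by nlinarith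
    have h5 : μ * ρ + 1 ≤ 2 * a * μ * ρ - a * μ - a * ρ - μ * ρ + 1 := by
      nlinarith [mul_nonneg (show 0 ≤ a by omega) h4, mul_nonneg (show 0 ≤ a - 2 by omega) (show 0 ≤ μ * ρ by nlinarith)]
    have h6 := mul_le_mul hq.le h5 (by nlinarith) (by omega)
    nlinarith [mul_pos (show 0 < μ by omega) (show 0 < ρ by omega), mul_pos (show 0 < μ by omega) (show 0 < μ by omega)]
  have h2 : 0 < j * ρ * (μ * ρ - 1) - q * (ρ - 1) ^ 2 := (mul_pos_iff_of_pos_left h0).1 (by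
    rw [e]; exact mul_pos (by omega) (by nlinarith))
  by_contra h
  nlinarith [mul_le_mul_of_nonneg_right (show j * μ ≤ q - 1 by omega) (sq_nonneg ρ), mul_pos hj (show 0 < ρ by omega),
    mul_le_mul_of_nonneg_right (not_lt.1 h) (show 0 ≤ ρ by omega)]

set_option maxHeartbeats 800000 in
theorem num_sl {p e m q N a ρ n r f l v : ℕ} (hp : p.Prime) (hq : q = p ^ e) (h2 : 2 ≤ q) (hm : 2 ≤ m) (hN : N = q ^ m)
    (h1 : ρ * a = N) (hρ : 2 ≤ ρ) (hn : 2 ≤ n) (e1 : r * N = n + (N - 1) * f) (e2 : r * N = n * a)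
    (e3 : (n - 1) * l = v * (ρ - 1)) (hv : v * (q - 1) = q * N - 1) :
    (n ≤ v ∧ (q = 2 → m = 3 → n = 8 ∨ n = v)) ∨ (a = 1 ∧ n = q * N) := by
  have N2 : q * q ≤ N := by rw [hN, ← pow_two]; exact Nat.pow_le_pow_right (by omega) hm
  have N1 : 1 ≤ N := by nlinarith
  have a0 : 0 < a := Nat.pos_of_ne_zero fun h => by simp [h] at h1; omega
  have hr : r * ρ = n := Nat.eq_of_mul_eq_mul_right a0 (by rw [← e2, ← h1, mul_assoc])
  by_cases hl : ρ ≤ l
  · have h3 : n ≤ v := by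
      by_contra h
      have := Nat.mul_le_mul (show v ≤ n - 1 by omega) hl
      obtain ⟨ρ, rfl⟩ := Nat.exists_eq_add_of_le' hρ
      have : 0 < v := Nat.pos_of_ne_zero fun h => by rw [h] at hv; have : 2 * 1 ≤ q * N := Nat.mul_le_mul h2 N1; omega
      rw [e3, show ρ + 2 - 1 = ρ + 1 from rfl] at *
      nlinarith
    refine Or.inl ⟨h3, fun h4 h5 => ?_⟩
    subst h4 h5
    obtain rfl : N = 8 := hN
    obtain rfl : v = 15 := by omega
    have : ρ ≤ 8 := Nat.le_of_dvd (by norm_num) ⟨a, h1.symm⟩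
    interval_cases ρ <;> try omega
    obtain rfl : n = 14 := by omega
    omega
  right
  have r0 : 0 < r := Nat.pos_of_ne_zero fun h => by simp [h] at hr; omega
  have l0 : 0 < l := Nat.pos_of_ne_zero fun h => by
    rw [h, mul_zero, eq_comm, mul_eq_zero] at e3
    rcases e3 with h | h
    · rw [h] at hv; have : 2 * 1 ≤ q * N := Nat.mul_le_mul h2 N1; omega
    · omega
  have c1 : IsCoprime ((N : ℤ) - 1) N := ⟨-1, 1, by ring⟩
  have cq : IsCoprime ((N : ℤ) - 1) q := c1.of_isCoprime_of_dvd_right (by rw [hN]; exact_mod_cast dvd_pow_self _ (by omega))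
  have ca : IsCoprime ((N : ℤ) - 1) a := c1.of_isCoprime_of_dvd_right (Int.natCast_dvd_natCast.2 ⟨ρ, by rw [← h1, mul_comm]⟩)
  have cρ : IsCoprime ((N : ℤ) - 1) ρ := c1.of_isCoprime_of_dvd_right (Int.natCast_dvd_natCast.2 ⟨a, h1.symm⟩)
  have hd : ρ < 2 * q → ρ ∣ q := fun h => by
    obtain ⟨b, -, rfl⟩ := (Nat.dvd_prime_pow hp).1 (show ρ ∣ p ^ (e * m) from ⟨a, by rw [pow_mul, ← hq, ← hN, h1]⟩)
    rw [hq]
    refine pow_dvd_pow p (Nat.le_of_lt_succ ((Nat.pow_lt_pow_iff_right hp.one_lt).1 (h.trans_le ?_)))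
    rw [hq, pow_succ']
    exact Nat.mul_le_mul_right _ hp.two_le
  have qN : 1 ≤ q * N := by nlinarith
  zify [N1, qN, (show 1 ≤ n by omega), (show 1 ≤ ρ by omega), (show 1 ≤ q by omega)] at e1 e3 hv h1 hr N2 hl hρ h2 r0 l0 a0 ⊢
  obtain ⟨μ, hμ⟩ : ∃ μ : ℤ, μ * ρ = (q - 1) * l + 1 := ⟨r * (q - 1) * l - q * N + q * a + 1, by
    linear_combination (q - 1) * e3 + (ρ - 1) * hv + (q - 1) * l * hr + q * h1⟩
  have A : (r : ℤ) * (μ * ρ - 1) = q * a * (ρ - 1) + μ - 1 := mul_left_cancel₀ (show (ρ : ℤ) ≠ 0 by omega) (by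
    linear_combination (q - 1) * e3 + (ρ - 1) * hv + (q - 1) * l * hr - q * (ρ - 1) * h1 + (r * ρ - 1) * hμ)
  have B : (r : ℤ) * (ρ - 1) = (r - f) * (N - 1) := by linear_combination hr - e1
  have μ1 : 0 < μ := (mul_pos_iff_of_pos_right (show (0 : ℤ) < ρ by omega)).1 (by rw [hμ]; nlinarith)
  have μ2 : μ < q := lt_of_mul_lt_mul_right (a := (ρ : ℤ)) (by rw [hμ]; nlinarith) (by omega)
  rcases (show 1 ≤ μ from μ1).eq_or_lt with rfl | μ1
  · have h3 : (r : ℤ) = q * a := mul_right_cancel₀ (show (ρ : ℤ) - 1 ≠ 0 by omega) (by linear_combination A)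
    have h4 := Int.le_of_dvd (by omega) ((cq.mul_right ca).dvd_of_dvd_mul_left (show _ ∣ _ * ((ρ : ℤ) - 1) from ⟨r - f, by
      linear_combination B - (ρ - 1) * h3⟩))
    exact ⟨by nlinarith, by linear_combination ρ * h3 - hr + q * h1⟩
  exfalso
  obtain ⟨h3, h4⟩ := num_int (a := a) (j := r - f) a0 hρ r0 μ1 μ2 (by linarith) A (by linear_combination B - (r - f) * h1)
  obtain ⟨c, hc⟩ := hd (by exact_mod_cast h3)
  zify at hc
  have h5 : (l : ℤ) = 1 := by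
    by_contra h
    have := Int.le_of_dvd (show 0 < (l : ℤ) - 1 by omega) (show (ρ : ℤ) ∣ _ from ⟨c * l - μ, by linear_combination hμ + l * hc⟩)
    omega
  have h6 : μ * ρ = q := by rw [hμ, h5]; ring
  have h7 := Int.le_of_dvd (mul_pos (by omega) (by omega)) (cρ.dvd_of_dvd_mul_left (show _ ∣ _ * (((ρ : ℤ) - 1) * (q - 1)) from
    ⟨(r - f) * ρ * (μ * ρ - 1) - q * (ρ - 1) ^ 2, by
      linear_combination -h4 - (ρ - 1) * h6 + ((r - f) * ρ * (μ * ρ - 1) - q * ((ρ : ℤ) - 1) ^ 2) * h1⟩))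
  nlinarith

end Cfsg.Agent.T2
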