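import Cfsg.Agent.Lib.MI.P5
import Cfsg.Agent.Lib.MI.P4
import Cfsg.Agent.Lib.T2.Tv

/-!
Doubly transitive actions of symplectic groups: the stabiliser of a point is intransitive.
-/

set_option autoImplicit false

namespace Cfsg.Agent.T2

open Module Cfsg.Agent.Forms Cfsg.Agent.Forms.Form Cfsg.Agent.Cls Cfsg.Agent.Deg Cfsg.Agent.MI Finset

variable {F : Type*} [Field F] {V : Type*} [AddCommGroup V] [Module F V]
  {f : Form (Param.sp F) V} {X : Type*} [MulAction f.Isom X] {Y : Finset X} {u : V} {ω : X}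

theorem TO_iff {z : V} {a b : X} : TO f z a b ↔ ∃ l, str f z l • a = b :=
  ⟨fun ⟨_, l, h, e⟩ => ⟨l, (h.eq (isE_str z l)) ▸ e⟩, fun ⟨l, e⟩ => ⟨_, l, isE_str z l, e⟩⟩

theorem str_add (z : V) (l m : F) : str f z l * str f z m = str f z (l + m) :=
  (((isE_str z l).mul (f.sp_Q z) (isE_str z m)).congr (by simp) (by simp)).eq (isE_str z _)

theorem str_zero (z : V) : str f z 0 = 1 := (isE_str z 0).eq_one

theorem str_comm {z : V} (h : f.B u z = 0) (l m : F) :
    str f u l * str f z m = str f z m * str f u l := by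
  refine Isom.ext fun w => ?_
  simp only [Isom.mul_apply, str_apply, B_add_left, B_smul_left, h, f.B_eq_zero_symm h]
  module

theorem str_pow_three {e : V} (h : f.HypPair u e) : (str f u 3 * str f e 1) ^ 3 ^ 1 = 1 := by
  refine Isom.ext fun w => ?_
  have h1 : f.B e u = -1 := h.Beu
  simp only [pow_one, pow_three, Isom.mul_apply, Isom.one_apply, str_apply, B_add_left, B_smul_left,
    h.Buu, h.Bee, h.Bue, h1]
  module

theorem str_pow_four {e : V} (h : f.HypPair u e) : (str f u 2 * str f e 1) ^ 2 ^ 2 = 1 := by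
  refine Isom.ext fun w => ?_
  have h1 : f.B e u = -1 := h.Beu
  simp only [show 2 ^ 2 = 3 + 1 from rfl, pow_succ, pow_zero, one_mul, Isom.mul_apply,
    Isom.one_apply, str_apply, B_add_left, B_smul_left, h.Buu, h.Bee, h.Bue, h1]
  module

variable [Finite F] [Finite V] (S : Sys f ⊤ Y)
include S

theorem exists_fix {g : f.Isom} {r k : ℕ} (hr : r.Prime) (hg : g ^ r ^ k = 1) (hY : ¬ r ∣ Y.card) :
    ∃ ω ∈ Y, g • ω = ω := by
  classical
  have := Fact.mk hr
  let σ : Equiv.Perm Y := (MulAction.toPerm g : Equiv.Perm X).subtypePerm fun x =>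
    ⟨fun h => by simpa using S.inv g⁻¹ trivial _ h, S.inv g trivial x⟩
  obtain ⟨a, ha⟩ := Equiv.Perm.exists_fixed_point_of_prime (p := r) (n := k) (σ := σ)
    (by rwa [Fintype.card_coe]) (by
      ext a
      rw [Equiv.Perm.subtypePerm_pow, Equiv.Perm.subtypePerm_apply]
      change (MulAction.toPermHom f.Isom X g ^ r ^ k) a = a
      rw [← map_pow, hg, map_one, Equiv.Perm.one_apply])
  exact ⟨a, a.2, congrArg Subtype.val ha⟩

theorem sp43_le (h3 : Nat.card F = 3) (h4 : finrank F V = 4) : 27 ≤ Y.card := by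
  classical
  have := Fintype.ofFinite F
  obtain ⟨ω, hω⟩ := S.ne
  obtain ⟨u, hu0, ht⟩ := S.exists_tau_ne hω
  have hu := f.sp_Q u
  have h2 : (2 : F) ≠ 0 := fun e => by
    have := FiniteField.cast_card_eq_zero F
    rw [← Nat.card_eq_fintype_card, h3] at this
    exact one_ne_zero (α := F) (by push_cast at this; linear_combination this - e)
  have hV : Nat.card V = (3 * Nat.card F) ^ 2 := by
    rw [Module.natCard_eq_pow_finrank (K := F), h4, h3]; rfl
  have hw : ∀ ω : X, tau f u ω ≠ Lam (Param.sp F) → wt f u ω = 3 ∧ tau f u ω = ⊥ := fun ω ht => by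
    have e1 := wt_mul_card (f := f) u ω
    have e2 := two_le_wt ht
    rw [card_Lam_sp, h3] at e1
    have e3 : wt f u ω = 3 :=
      ((Nat.dvd_prime Nat.prime_three).1 (Dvd.intro _ e1)).resolve_left (by omega)
    rw [e3] at e1
    exact ⟨e3, AddSubgroup.card_eq_one.1 (by omega)⟩
  have hC : ∀ a ∈ Y, {b | SO f u a b}.ncard = (Y.filter (SO f u a)).card := fun a ha => by
    rw [← Set.ncard_coe_finset]
    congr 1
    ext b
    simp only [coe_filter, Set.mem_ofPred_eq]
    exact ⟨fun h => ⟨S.cl hu (S.pinv u) a ha b h, h⟩, fun h => h.2⟩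
  by_cases hS : ∀ v ∈ Sb f u ω, v ∈ F ∙ u
  · have e1 := card_orbit_aux hu ω
    have e2 : Nat.card (Sb f u ω) ≤ 3 := by
      have := AddSubgroup.card_le_of_le (H := Sb f u ω) (K := (F ∙ u).toAddSubgroup) hS
      refine this.trans (le_of_eq ?_)
      change Nat.card (F ∙ u) = 3
      rw [Module.natCard_eq_pow_finrank (K := F), finrank_span_singleton hu0, h3, pow_one]
    rw [(hw ω ht).2, AddSubgroup.card_bot, card_perp_pow S.nd hu0 (k := 3) h4, card_Lam_sp, h3,
      hC ω hω] at e1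
    have e3 := card_filter_le Y (SO f u ω)
    nlinarith
  · push Not at hS
    obtain ⟨w, hw1, hw2⟩ := hS
    obtain ⟨y, y1, y2⟩ := exists_B_two S.nd hu0 hw2 0 1
    have k1 : ∀ c : F, (str f y c).1 u = u := fun c => str_orth y1
    have k2 : ∀ c : F, tau f u (str f y c • ω) = tau f u ω := fun c => by
      rw [← tau_map (str f y c) (u := u) (ω := ω), k1]
    have k3 : ∀ c : F, w + c • y ∈ Sb f u (str f y c • ω) := fun c => by
      have := map_mem_Sb (str f y c) hw1
      rwa [k1, str_apply, y2, mul_one] at this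
    have k4 : ∀ c : F, 9 ≤ (Y.filter (SO f u (str f y c • ω))).card := fun c => by
      have hm := S.inv (str f y c) trivial ω hω
      have e1 := orbit_dvd S.nd hu hu0 (fun l _ => ⟨-l / 2, by simp; field_simp; ring⟩)
        (ω := str f y c • ω) (by rwa [k2]) hV
      rw [(hw _ (by rwa [k2])).1, hC _ hm] at e1
      exact Nat.le_of_dvd (card_pos.2 ⟨_, mem_filter.2 ⟨hm, SO.refl _ _⟩⟩) e1
    calc 27 = ∑ _c : F, 9 := by rw [sum_const, card_univ, ← Nat.card_eq_fintype_card, h3]; rfl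
      _ ≤ ∑ c : F, (Y.filter (SO f u (str f y c • ω))).card := sum_le_sum fun c _ => k4 c
      _ = (univ.biUnion fun c : F => Y.filter (SO f u (str f y c • ω))).card := by
          refine (card_biUnion fun c _ d _ hcd => disjoint_left.2 fun b h1 h5 => hcd ?_).symm
          have e1 := ((mem_filter.1 h1).2.trans hu ((mem_filter.1 h5).2.symm hu)).Sb_eq hu
          have e2 := comm_mem_tau hu (k3 c) (e1 ▸ k3 d)
          have y3 : f.B y w = -1 := by rw [f.symm, y2]; simp
          rw [k2, (hw ω ht).2, AddSubgroup.mem_bot] at e2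
          have y4 : ∀ z, f.B z z = 0 := fun z => f.B_self_of_Q (f.sp_Q z)
          have y5 : ∀ a : F, (Param.sp F).σ a = a := fun _ => rfl
          simp only [B_add_left, B_add_right, B_smul_left, B_smul_right, y2, y3, y4, y5] at e2
          exact mul_left_cancel₀ h2 (by linear_combination e2)
      _ ≤ Y.card := card_le_card (biUnion_subset.2 fun c _ => filter_subset _ _)

theorem sp_not_PTr (h2 : TwoY (⊤ : Subgroup f.Isom) Y) (h1 : 1 < Y.card)
    (hY : FaithY (⊤ : Subgroup f.Isom) Y) (hu0 : u ≠ 0) {m : ℕ} (hm : finrank F V = 2 * m)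
    (h2m : 2 ≤ m) (hx : m = 2 → 3 ≤ Nat.card F) : ¬ PTr (⊤ : Subgroup f.Isom) u Y := by
  classical
  intro hP
  have := Fintype.ofFinite F
  have hu := f.sp_Q u
  obtain ⟨p, hpF⟩ := CharP.exists F
  obtain ⟨k, hp, hk⟩ := FiniteField.card F p
  rw [← Nat.card_eq_fintype_card] at hk
  obtain ⟨q, hq⟩ : ∃ q, Nat.card F = q := ⟨_, rfl⟩
  have q2 : 2 ≤ q := hq ▸ Finite.one_lt_card
  have hV : Nat.card V = q ^ (2 * m) := by rw [Module.natCard_eq_pow_finrank (K := F), hm, hq]
  obtain ⟨j, rfl⟩ : ∃ j, m = j + 2 := ⟨m - 2, by omega⟩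
  let t := ∑ i ∈ range (2 * j + 2), q ^ i
  have ht : (1 + q + q ^ 2 * t) * (q - 1) + 1 = q ^ (2 * (j + 2)) := by
    have e := geom_sum_mul_add (q - 1) (2 * j + 2)
    rw [Nat.sub_add_cancel (by omega)] at e
    change t * (q - 1) + 1 = _ at e
    clear_value t
    obtain ⟨s, rfl⟩ : ∃ s, q = s + 1 := ⟨q - 1, by omega⟩
    rw [Nat.add_sub_cancel] at e ⊢
    rw [show 2 * (j + 2) = (2 * j + 2) + 2 by ring, pow_add (s + 1) (2 * j + 2) 2, ← e]
    ring
  have t1 : 1 ≤ t := by
    simp only [t, sum_range_succ' _ (2 * j + 1), pow_zero]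
    omega
  clear_value t
  obtain ⟨r, l, r2, r3, r4, r5, -, r6, r7⟩ := caseB S h2 h1 hY hu hu0 ⟨1, one_ne_zero, lam0_sp 1⟩ hP
    (v := 1 + q + q ^ 2 * t) (by have := card_sing_sp (f := f); rw [hq]; omega)
  rw [card_Lam_sp, hq] at r3
  obtain ⟨s, hs⟩ := r3
  obtain ⟨n, hn⟩ := r4
  have hl : (r : ℤ) ∣ l - 1 := by
    zify [h1.le, show 1 ≤ r by omega] at r5 hn hs
    rw [hn, hs] at r5
    exact ⟨n * l - (1 + (s + r * s ^ 2 * t) * (r - 1)), by linear_combination -r5⟩
  rcases Nat.lt_trichotomy l 1 with h | rfl | h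
  · rw [show l = 0 by omega, mul_zero, eq_comm, mul_eq_zero] at r5
    omega
  · obtain ⟨y, y1, y2⟩ : ∃ y, f.B u y = 0 ∧ y ∉ F ∙ u := by
      by_contra hc
      push Not at hc
      have e1 := Submodule.finrank_mono (show f.orth (F ∙ u) ≤ F ∙ u from fun y hy =>
        hc y (f.B_eq_zero_symm (mem_orth_singleton.1 hy)))
      have e2 := S.nd.finrank_add_orth (F ∙ u)
      rw [finrank_span_singleton hu0] at e1 e2
      omega
    have y0 : y ≠ 0 := fun e => y2 (e ▸ zero_mem _)
    have hc : ∀ z, z ≠ 0 → ∀ a ∈ Y, (Y.filter (TO f z a)).card = r := fun z hz a ha => by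
      rw [← r6 a ha z (f.sp_Q z) hz, ← ncard_TO (f.sp_Q z), ← Set.ncard_coe_finset]
      congr 1
      ext b
      simp only [coe_filter, Set.mem_ofPred_eq]
      exact ⟨fun h => h.2, fun h => ⟨let ⟨g, _, _, e⟩ := h; e ▸ S.inv g trivial a ha, h⟩⟩
    have hE : r * r ∣ Y.card := by
      refine dvd_card_of_equiv Y (fun a b => ∃ c d, str f y d • str f u c • a = b)
        (fun a _ => ⟨0, 0, by simp [str_zero]⟩) ?_ fun a ha => dvd_of_eq ?_
      · rintro a ha _ ⟨c, d, rfl⟩
        have e : ∀ c' d', str f y d' • str f u c' • str f y d • str f u c • a =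
            str f y (d' + d) • str f u (c' + c) • a := fun c' d' => by
          rw [← mul_smul (str f u c'), str_comm y1, ← str_add, ← str_add]
          simp only [mul_smul]
        refine ⟨S.inv _ trivial _ (S.inv _ trivial _ ha), fun b => ⟨?_, ?_⟩⟩
        · rintro ⟨c', d', rfl⟩
          exact ⟨c' - c, d' - d, by rw [e, sub_add_cancel, sub_add_cancel]⟩
        · rintro ⟨c', d', rfl⟩
          exact ⟨_, _, (e c' d').symm⟩
      · have e : {b | ∃ c d, str f y d • str f u c • a = b} =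
            (Y.filter (TO f u a)).biUnion fun b => Y.filter (TO f y b) := by
          ext b
          simp only [coe_biUnion, coe_filter, Set.mem_iUnion, Set.mem_ofPred_eq, TO_iff]
          constructor
          · rintro ⟨c, d, rfl⟩
            exact ⟨_, ⟨S.inv _ trivial _ ha, c, rfl⟩, S.inv _ trivial _ (S.inv _ trivial _ ha), d, rfl⟩
          · rintro ⟨_, ⟨-, c, rfl⟩, -, d, rfl⟩
            exact ⟨c, d, rfl⟩
        rw [e, Set.ncard_coe_finset, card_biUnion, sum_const_nat fun b hb =>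
          hc y y0 b (mem_filter.1 hb).1, hc u hu0 a ha]
        intro b hb b' hb' hbb
        refine disjoint_left.2 fun z z1 z2 => y2 ?_
        obtain ⟨b1, c, rfl⟩ : b ∈ Y ∧ ∃ l, str f u l • a = b := by simpa [TO_iff] using hb
        obtain ⟨-, c', rfl⟩ : b' ∈ Y ∧ ∃ l, str f u l • a = b' := by simpa [TO_iff] using hb'
        obtain ⟨d, rfl⟩ := TO_iff.1 (mem_filter.1 z1).2
        obtain ⟨d', e1⟩ := TO_iff.1 (mem_filter.1 z2).2
        refine r7 rfl _ b1 _ hbb u y hu hu0 (f.sp_Q y) y0 (TO_iff.2 ⟨c' - c, ?_⟩)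
          (TO_iff.2 ⟨d - d', ?_⟩)
        · rw [← mul_smul, str_add, sub_add_cancel]
        · rw [← smul_left_cancel_iff (str f y d'), e1, ← mul_smul, str_add, add_sub_cancel]
    have s1 : s = 1 := by
      obtain ⟨n', hn'⟩ := hE
      have e1 : (r : ℤ) ∣ s - 1 := by
        zify [h1.le, show 1 ≤ r by omega] at r5 hn' hs
        rw [hn', hs] at r5
        refine ⟨s + s ^ 2 * t * (r - 1) - n', mul_left_cancel₀ (a := (r : ℤ)) (by positivity) ?_⟩
        linear_combination r5
      have e2 : r * s = p ^ (k : ℕ) := by rw [← hs, ← hq, hk]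
      obtain ⟨a, -, rfl⟩ := (Nat.dvd_prime_pow hp).1 (Dvd.intro _ e2)
      obtain ⟨b, -, rfl⟩ := (Nat.dvd_prime_pow hp).1 (Dvd.intro_left _ e2)
      rcases b with _ | b
      · rfl
      · rcases a with _ | a
        · simp at r2
        · have e3 : (p : ℤ) ∣ p ^ (b + 1) - 1 := (dvd_pow_self (p : ℤ) a.succ_ne_zero).trans
            (by exact_mod_cast e1)
          have e4 : (p : ℤ) ∣ 1 := (dvd_sub_right (dvd_pow_self _ b.succ_ne_zero)).1 e3
          exact absurd (by exact_mod_cast e4) hp.not_dvd_one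
    rw [s1, mul_one] at hs
    subst hs
    have hn' : Y.card = q ^ (2 * (j + 2)) := by omega
    obtain ⟨e, he⟩ := S.nd.exists_hypPair hu hu0
    obtain ⟨c, c0, a, ha, e1⟩ : ∃ c : F, c ≠ 0 ∧ ∃ a ∈ Y, (str f u c * str f e 1) • a = a := by
      have key : ∀ r : ℕ, r.Prime → r ≠ p → (r : F) ≠ 0 ∧ ¬ r ∣ Y.card := fun r hr hrp =>
        ⟨fun e => hrp ((Nat.prime_dvd_prime_iff_eq hp hr).1 ((CharP.cast_eq_zero_iff F p r).1 e)).symm,
          fun e => hrp ((Nat.prime_dvd_prime_iff_eq hr hp).1 (hr.dvd_of_dvd_pow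
            (hk ▸ hq ▸ hr.dvd_of_dvd_pow (hn' ▸ e) : r ∣ p ^ (k : ℕ))))⟩
      by_cases p3 : p = 3
      · obtain ⟨e1, e2⟩ := key 2 Nat.prime_two (by omega)
        exact ⟨2, by exact_mod_cast e1, exists_fix S Nat.prime_two (str_pow_four he) e2⟩
      · obtain ⟨e1, e2⟩ := key 3 Nat.prime_three (Ne.symm p3)
        exact ⟨3, by exact_mod_cast e1, exists_fix S Nat.prime_three (str_pow_three he) e2⟩
    have e2 : str f u (-c) • a = str f e 1 • a := by
      conv_lhs => rw [← e1, ← mul_smul, ← mul_assoc, str_add, neg_add_cancel, str_zero, one_mul]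
    have e3 : a ≠ str f u (-c) • a := fun e => by
      have e4 := wt_mul_card (f := f) u a
      rw [r6 a ha u hu hu0, card_Lam_sp, hq] at e4
      have e5 : -c ∈ tau f u a := Fx.mem_tau ⟨_, isE_str u (-c), e.symm⟩
      rw [AddSubgroup.card_eq_one.1 (Nat.eq_of_mul_eq_mul_left (by omega) (e4.trans (mul_one _).symm)),
        AddSubgroup.mem_bot] at e5
      exact c0 (neg_eq_zero.1 e5)
    exact not_mem_span_of_B (z := u) he.Buu (by rw [he.Beu]; exact Param.ε_ne_zero _)
      (r7 rfl a ha _ e3 u e hu hu0 he.Qe he.e_ne_zero (TO_iff.2 ⟨_, rfl⟩) (TO_iff.2 ⟨1, e2.symm⟩))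
  · have e1 : r + 1 ≤ l := by
      have := Int.le_of_dvd (by omega) hl
      omega
    have e2 : (Y.card - 1) * (r + 1) ≤ (1 + q + q ^ 2 * t) * (r - 1) :=
      r5 ▸ Nat.mul_le_mul_left _ e1
    have rq : r ≤ q := Nat.le_of_dvd (by omega) ⟨s, hs⟩
    zify [h1.le, show 1 ≤ r by omega, show 1 ≤ q by omega] at e2 ht rq q2 r2 t1
    rcases q2.eq_or_lt with q3 | q3
    · have e3 := S.sp_two_le (by omega) (j := j + 1) (by omega) (by omega)
      rw [show (r : ℤ) = 2 by omega, ← q3] at e2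
      rw [← q3, show 2 * (j + 2) = (j + 1) + (j + 1) + 2 by ring, pow_add, pow_add] at ht
      have e4 : (2 : ℤ) ^ 2 ≤ 2 ^ (j + 1) := pow_le_pow_right₀ (by norm_num) (by omega)
      rw [pow_succ 2 (j + 1)] at e3
      nlinarith
    · by_cases e3 : j = 0 ∧ q = 3
      · have e4 := sp43_le S (by omega) (by omega)
        obtain ⟨rfl, rfl⟩ := e3
        have e5 : (t : ℤ) = 4 := by norm_num at ht; omega
        have e6 : (r : ℤ) = 3 := by
          have : r ∣ 3 := ⟨s, hs⟩
          rcases (Nat.dvd_prime Nat.prime_three).1 this with e | e <;> omega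
        rw [e5, e6] at e2
        norm_num at e2
        omega
      · have e4 := S.sp_le (by omega) (by omega) (by omega)
        rw [hV, hq] at e4
        zify at e4
        rw [← ht] at e4
        have e5 : (1 + q + q ^ 2 * t : ℤ) ≤ Y.card :=
          le_of_mul_le_mul_right (a := (q : ℤ) - 1) (by linarith) (by omega)
        nlinarith

end Cfsg.Agent.T2
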